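/-
S4841 (Gagola, non-solvable case): definitions, the statements of the steps, and basic facts.
`H` acts linearly on the finite `ZMod p`-space `V`, transitively on the non-zero vectors, with `p`-groups as stabilisers.
-/
import Cfsg.Statements.S4841
import Cfsg.Prelude.Def_KGroupFacts
import Cfsg.Prelude.Def_SporadicB
import Cfsg.Prelude.Def_Involutions
import Cfsg.Agent.Grp.FrobCompl
import Cfsg.Agent.Grp.PNilp
import Cfsg.Agent.Transfer.Control

set_option autoImplicit false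

namespace CL.Ggn

open Cfsg Subgroup
open scoped MatrixGroups

universe u

section defs
variable {p : ℕ} {H V : Type*} [Group H] [AddCommGroup V] [Module (ZMod p) V]

/-- stabilisers of non-zero vectors are `p`-groups -/
structure Fp (ρ : H →* Module.End (ZMod p) V) : Prop where
  nt : Nontrivial V
  stab : ∀ (g : H) (v : V), v ≠ 0 → ρ g v = v → ∃ k : ℕ, g ^ p ^ k = 1

/-- the standing hypothesis -/
structure Hyp (ρ : H →* Module.End (ZMod p) V) : Prop extends Fp ρ where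
  trans : ∀ v w : V, v ≠ 0 → w ≠ 0 → ∃ g, ρ g v = w
  core : pCore p H = ⊥
  nsolv : ¬ Group.IsSolvable H

/-- the fixed space of `g` -/
def Fix (ρ : H →* Module.End (ZMod p) V) (g : H) : Submodule (ZMod p) V := LinearMap.ker (ρ g - 1)

/-- the pointwise stabiliser of `U` -/
def AU (ρ : H →* Module.End (ZMod p) V) (U : Submodule (ZMod p) V) : Subgroup H where
  carrier := {g | ∀ u ∈ U, ρ g u = u}
  one_mem' := fun u _ => by simp
  mul_mem' := fun {a b} ha hb u hu => by rw [map_mul, Module.End.mul_apply, hb u hu, ha u hu]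
  inv_mem' := fun {a} ha u hu => by
    conv_lhs => rw [← ha u hu]
    rw [← Module.End.mul_apply, ← map_mul, inv_mul_cancel, map_one, Module.End.one_apply]

/-- `|U|² = |V|` -/
def Half (U : Submodule (ZMod p) V) : Prop := Nat.card U ^ 2 = Nat.card V

/-- `AU ρ U` commutes with no other conjugate -/
def CP (ρ : H →* Module.End (ZMod p) V) (U : Submodule (ZMod p) V) : Prop :=
  ∀ g : H, (∀ a ∈ AU ρ U, ∀ b ∈ AU ρ (U.map (ρ g)), Commute a b) → U.map (ρ g) = U

/-- the hypothesis for `p = 2`, with the freeness of the involutions -/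
structure Hyp2 {V : Type*} [AddCommGroup V] [Module (ZMod 2) V] (ρ : H →* Module.End (ZMod 2) V) : Prop
    extends Hyp ρ where
  half : ∀ t : H, t ≠ 1 → t * t = 1 → Half (Fix ρ t)
  rng : ∀ t : H, t ≠ 1 → t * t = 1 → LinearMap.range (ρ t - 1) = Fix ρ t
  sq : ∀ U, Half U → ∀ a ∈ AU ρ U, a * a = 1
  fix : ∀ U, Half U → ∀ a ∈ AU ρ U, a ≠ 1 → Fix ρ a = U
  quad : ∀ U, Half U → ∀ a ∈ AU ρ U, ∀ b ∈ AU ρ U, (ρ a - 1) * (ρ b - 1) = 0

end defs

/-- case II: distinct elements of order 3 do not differ by a 2-element -/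
def C2 (H : Type*) [Group H] : Prop :=
  ∀ x y : H, orderOf x = 3 → orderOf y = 3 → (∃ k : ℕ, (x⁻¹ * y) ^ 2 ^ k = 1) → x = y

/-- the `p'`-subgroups satisfy the `pq`-condition of Frobenius complements -/
def PQ (p : ℕ) (H : Type*) [Group H] : Prop := ∀ K : Subgroup H, (Nat.card K).Coprime p → CL.Grp.PQCyclic K

/-- alternative (i) -/
def Concl1 (p : ℕ) (H : Type*) [Group H] : Prop :=
  ∃ (F : Type) (_ : Field F) (_ : Fintype F), (∃ a : ℕ, Fintype.card F = p ^ a) ∧ 2 < Fintype.card F ∧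
    ∃ S : Subgroup H, S.Normal ∧ Nonempty (S ≃* SL(2, F)) ∧ (∃ k : ℕ, S.index = p ^ k) ∧
      (∃ h : H, S ⊔ zpowers h = ⊤) ∧ centralizer (S : Set H) = (center S).map S.subtype

/-- alternative (ii) -/
def Concl2 (H : Type*) [Group H] : Prop :=
  ∃ S : Subgroup H, S.Normal ∧ S.index = 2 ∧ Nonempty (S ≃* SL(2, ZMod 5)) ∧
    centralizer (S : Set H) = (center S).map S.subtype ∧ ∀ K : Subgroup H, ¬ IsComplement' S K

/-- alternatives (iv) to (vi) -/
def Concl4 (p : ℕ) (H : Type*) [Group H] : Prop :=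
  (p = 11 ∧ Nonempty (H ≃* SL(2, ZMod 5))) ∨ (p = 29 ∧ Nonempty (H ≃* SL(2, ZMod 5) × Multiplicative (ZMod 7))) ∨
    (p = 59 ∧ Nonempty (H ≃* SL(2, ZMod 5) × Multiplicative (ZMod 29)))

section frame
variable {H V K : Type*} [Group H] [AddCommGroup V] [Module (ZMod 2) V] [Field K]

/-- the diagonal matrix `diag(a, a⁻¹)` -/
def dg (s : K →+* Module.End (ZMod 2) V) (n m : Module.End (ZMod 2) V) (a : K) : Module.End (ZMod 2) V :=
  s a * (n * m) + s a⁻¹ * (m * n)

/-- `r` commutes with the matrix algebra of the frame -/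
structure Lin (s : K →+* Module.End (ZMod 2) V) (n m r : Module.End (ZMod 2) V) : Prop where
  cs : ∀ a, Commute (s a) r
  cn : Commute n r
  cm : Commute m r

/-- `⟨x, y⟩ ≅ SL₂(K)` acts on `V` as on a sum of natural modules: `n = e₁₂`, `m = e₂₁`, `s` = the scalars -/
structure Fr (ρ : H →* Module.End (ZMod 2) V) (s : K →+* Module.End (ZMod 2) V) (n m : Module.End (ZMod 2) V)
    (x y : H) : Prop where
  card : 8 ≤ Nat.card K
  x3 : orderOf x = 3
  y3 : orderOf y = 3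
  ne : y ≠ x
  ne' : y ≠ x⁻¹
  sn : ∀ a, Commute (s a) n
  sm : ∀ a, Commute (s a) m
  nn : n * n = 0
  mm : m * m = 0
  nm : n * m + m * n = 1
  up : ∀ a, ∃ g ∈ closure ({x, y} : Set H), ρ g = 1 + s a * n
  lo : ∀ a, ∃ g ∈ closure ({x, y} : Set H), ρ g = 1 + s a * m
  tor : ∀ a, a ≠ 0 → ∃ g ∈ closure ({x, y} : Set H), ρ g = dg s n m a
  all : ∀ g ∈ closure ({x, y} : Set H), ∃ a b c d, ρ g = s a * (n * m) + s b * n + s c * m + s d * (m * n)

/-- the first consequences of a frame in case II -/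
structure FrB (ρ : H →* Module.End (ZMod 2) V) (s : K →+* Module.End (ZMod 2) V) (n m : Module.End (ZMod 2) V)
    (x y : H) : Prop extends Fr ρ s n m x y where
  ker_eq : LinearMap.ker n = LinearMap.range n
  half : Half (LinearMap.range n)
  four : 4 ≤ Nat.card (AU ρ (LinearMap.range n))
  /-- (P3) -/
  lin : ∀ r, (∀ a, Commute (s a * n) r) → (∀ a, a ≠ 0 → Commute (dg s n m a) r) → Lin s n m r
  lin_iff : ∀ c : H, Lin s n m (ρ c) ↔ Commute x c ∧ Commute y c
  /-- no element of order 3 centralises a non-trivial element of `A` -/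
  noD : ∀ d : H, orderOf d = 3 → ∀ a ∈ AU ρ (LinearMap.range n), Commute d a → a = 1
  /-- the torus centralises `C(Q)` modulo `A` -/
  comm : ∀ k h : H, ∀ a, a ≠ 0 → ρ h = dg s n m a → (∀ b, Commute (s b * n) (ρ k)) →
    h * k * h⁻¹ * k⁻¹ ∈ AU ρ (LinearMap.range n)
  /-- the pointwise stabiliser of a non-zero `m`, `n`, `s`-invariant subspace is centralised by the frame -/
  cen : ∀ W : Submodule (ZMod 2) V, W ≠ ⊥ → (∀ a, ∀ w ∈ W, s a w ∈ W) → (∀ w ∈ W, n w ∈ W) → (∀ w ∈ W, m w ∈ W) →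
    ∀ c ∈ AU ρ W, Lin s n m (ρ c)

/-- two frames with distinct commuting groups `A`, `A'` -/
structure Two (ρ : H →* Module.End (ZMod 2) V) (s : K →+* Module.End (ZMod 2) V) (n m : Module.End (ZMod 2) V)
    (x y : H) (s' : K →+* Module.End (ZMod 2) V) (n' m' : Module.End (ZMod 2) V) (x' y' : H) : Prop where
  hyp : Hyp2 ρ
  c2 : C2 H
  f : FrB ρ s n m x y
  f' : FrB ρ s' n' m' x' y'
  ne : LinearMap.range n' ≠ LinearMap.range n
  comm : ∀ a ∈ AU ρ (LinearMap.range n), ∀ b ∈ AU ρ (LinearMap.range n'), Commute a b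

/-- the group `W = A A'` -/
def WW (ρ : H →* Module.End (ZMod 2) V) (n n' : Module.End (ZMod 2) V) : Subgroup H :=
  AU ρ (LinearMap.range n) ⊔ AU ρ (LinearMap.range n')

/-- the structure of `W`, first part -/
structure Wa (ρ : H →* Module.End (ZMod 2) V) (s : K →+* Module.End (ZMod 2) V) (n m : Module.End (ZMod 2) V)
    (s' : K →+* Module.End (ZMod 2) V) (n' m' : Module.End (ZMod 2) V) : Prop where
  mem : ∀ w ∈ WW ρ n n', ∃ a ∈ AU ρ (LinearMap.range n), ∃ b ∈ AU ρ (LinearMap.range n'), w = a * b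
  comm : ∀ w ∈ WW ρ n n', ∀ w' ∈ WW ρ n n', Commute w w'
  sq : ∀ w ∈ WW ρ n n', w * w = 1
  norm : ∀ (h : H) (a : K), a ≠ 0 → ρ h = dg s n m a → h ∈ normalizer (WW ρ n n' : Set H)
  norm' : ∀ (h : H) (a : K), a ≠ 0 → ρ h = dg s' n' m' a → h ∈ normalizer (WW ρ n n' : Set H)
  fpf : ∃ (h : H) (a : K), a ≠ 0 ∧ ρ h = dg s n m a ∧ ∀ b ∈ AU ρ (LinearMap.range n), Commute h b → b = 1
  dec : ∀ w ∈ WW ρ n n', ∃ a ∈ AU ρ (LinearMap.range n), ∃ c ∈ WW ρ n n', Lin s n m (ρ c) ∧ w = a * c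

/-- the structure of `W`, second part -/
structure Wb (ρ : H →* Module.End (ZMod 2) V) (s : K →+* Module.End (ZMod 2) V) (n m n' : Module.End (ZMod 2) V) :
    Prop where
  ne : n * n' ≠ 0
  rng : ∀ c ∈ WW ρ n n', c ≠ 1 → Lin s n m (ρ c) → LinearMap.range (n * (ρ c - 1)) = LinearMap.range (n * n')
  ker : ∀ c ∈ WW ρ n n', c ≠ 1 → Lin s n m (ρ c) → LinearMap.ker (n * (ρ c - 1)) = LinearMap.ker (n * n')
  fix : ∀ c ∈ WW ρ n n', c ≠ 1 → Lin s n m (ρ c) → ∀ c' ∈ WW ρ n n', c' ≠ 1 → Lin s n m (ρ c') → Fix ρ c' = Fix ρ c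

/-- the final configuration of case II -/
structure Last (ρ : H →* Module.End (ZMod 2) V) (s : K →+* Module.End (ZMod 2) V) (n m : Module.End (ZMod 2) V)
    (c c' k q : H) : Prop where
  c1 : c ≠ 1
  cc : c * c = 1
  lin : Lin s n m (ρ c)
  c1' : c' ≠ 1
  mem : c' ∈ AU ρ (Fix ρ c)
  lin' : Lin s n m (ρ c')
  kc : Commute k c
  k1 : (ρ k - 1) * (n * (ρ c - 1)) = 0
  k2 : n * (ρ c - 1) * (ρ k - 1) = 0
  hq : ρ q = 1 + n
  kq : k * q * k⁻¹ = q * c'

end frame

/-! ### the steps for `p = 2` -/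

def B2 : Prop := ∀ {H V : Type u} [Group H] [Finite H] [AddCommGroup V] [Module (ZMod 2) V] [Finite V]
  (ρ : H →* Module.End (ZMod 2) V),
  Hyp ρ → Hyp2 ρ

def BP : Prop := ∀ {H V : Type u} [Group H] [Finite H] [AddCommGroup V] [Module (ZMod 2) V] [Finite V]
  (ρ : H →* Module.End (ZMod 2) V),
  Hyp2 ρ → ∀ x y : H, orderOf x = 3 → orderOf y = 3 → (∃ k : ℕ, (x⁻¹ * y) ^ 2 ^ k = 1) →
  x⁻¹ * y * (x⁻¹ * y) = 1 ∧ ρ x * (ρ (x⁻¹ * y) - 1) = (ρ (x⁻¹ * y) - 1) * ρ x⁻¹

def CPI : Prop := ∀ {H V : Type u} [Group H] [Finite H] [AddCommGroup V] [Module (ZMod 2) V] [Finite V]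
  (ρ : H →* Module.End (ZMod 2) V),
  Hyp2 ρ → ¬ C2 H → ∃ U, Half U ∧ 4 ≤ Nat.card (AU ρ U) ∧ CP ρ U

def QS : Prop := ∀ {X : Type u} [Group X] [Finite X] (x y : X), PQ 2 X → C2 X → orderOf x = 3 → orderOf y = 3 →
  y ≠ x → y ≠ x⁻¹ → closure ({x, y} : Set X) = ⊤ →
  commutator X = ⊤ ∧ IsPGroup 2 (center X) ∧ IsSimpleGroup (X ⧸ center X) ∧ ¬ IsMulCommutative (X ⧸ center X)

def TR : Prop := ∀ {H V : Type u} [Group H] [Finite H] [AddCommGroup V] [Module (ZMod 2) V] [Finite V]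
  (ρ : H →* Module.End (ZMod 2) V),
  Fp ρ → ∀ x y : H, orderOf x = 3 → orderOf y = 3 → closure ({x, y} : Set H) = ⊤ →
  IsPGroup 2 (center H) → IsSimpleGroup (H ⧸ center H) → ¬ IsMulCommutative (H ⧸ center H) →
  ∀ g : H ⧸ center H, orderOf g ≠ 6

def DESC : Prop := ∀ {X : Type u} [Group X] [Finite X], IsPGroup 2 (center X) → PQ 2 X → C2 X →
  PQ 2 (X ⧸ center X) ∧ C2 (X ⧸ center X)

def LIFT : Prop := ∀ {X : Type u} [Group X] [Finite X] (K : Type) [Field K] [Fintype K] (a : ℕ), 3 ≤ a →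
  Fintype.card K = 2 ^ a → commutator X = ⊤ → Nonempty (X ⧸ center X ≃* PSL(2, K)) → Nonempty (X ≃* SL(2, K))

def KILL : Prop := ∀ {X : Type u} [Group X] [Finite X], IsSimpleGroup X → ¬ IsMulCommutative X →
  (∀ g : X, orderOf g ≠ 6) → PQ 2 X → C2 X → 3 ∣ Nat.card X →
  ∃ (K : Type) (_ : Field K) (_ : Fintype K) (a : ℕ), 3 ≤ a ∧ Fintype.card K = 2 ^ a ∧ Nonempty (X ≃* PSL(2, K))

def FRM : Prop := ∀ {H V : Type u} [Group H] [Finite H] [AddCommGroup V] [Module (ZMod 2) V] [Finite V]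
  (ρ : H →* Module.End (ZMod 2) V),
  Fp ρ → ∀ (x y : H) (K : Type) [Field K] [Fintype K] (a : ℕ), 3 ≤ a → Fintype.card K = 2 ^ a →
  orderOf x = 3 → orderOf y = 3 → y ≠ x → y ≠ x⁻¹ → Nonempty (closure ({x, y} : Set H) ≃* SL(2, K)) →
  ∃ (s : K →+* Module.End (ZMod 2) V) (n m : Module.End (ZMod 2) V), Fr ρ s n m x y

def FB : Prop := ∀ {H V : Type u} [Group H] [Finite H] [AddCommGroup V] [Module (ZMod 2) V] [Finite V]
  {K : Type} [Field K] [Finite K] (ρ : H →* Module.End (ZMod 2) V) (s : K →+* Module.End (ZMod 2) V)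
  (n m : Module.End (ZMod 2) V) (x y : H),
  Hyp2 ρ → C2 H → Fr ρ s n m x y → FrB ρ s n m x y

def WA : Prop := ∀ {H V : Type u} [Group H] [Finite H] [AddCommGroup V] [Module (ZMod 2) V] [Finite V]
  {K : Type} [Field K] [Finite K] (ρ : H →* Module.End (ZMod 2) V) (s : K →+* Module.End (ZMod 2) V)
  (n m : Module.End (ZMod 2) V) (x y : H),
  ∀ s' n' m' x' y', Two ρ s n m x y s' n' m' x' y' → Wa ρ s n m s' n' m'

def WB : Prop := ∀ {H V : Type u} [Group H] [Finite H] [AddCommGroup V] [Module (ZMod 2) V] [Finite V]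
  {K : Type} [Field K] [Finite K] (ρ : H →* Module.End (ZMod 2) V) (s : K →+* Module.End (ZMod 2) V)
  (n m : Module.End (ZMod 2) V) (x y : H),
  ∀ s' n' m' x' y', Two ρ s n m x y s' n' m' x' y' → Wa ρ s n m s' n' m' → Wb ρ s n m n'

def WK : Prop := ∀ {H V : Type u} [Group H] [Finite H] [AddCommGroup V] [Module (ZMod 2) V] [Finite V]
  {K : Type} [Field K] [Finite K] (ρ : H →* Module.End (ZMod 2) V) (s : K →+* Module.End (ZMod 2) V)
  (n m : Module.End (ZMod 2) V) (x y : H),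
  ∀ s' n' m' x' y', Two ρ s n m x y s' n' m' x' y' → Wa ρ s n m s' n' m' → n * n' ≠ 0 →
  ∃ k ∈ normalizer (WW ρ n n' : Set H), (ρ k - 1) * (n * n') = 0 ∧ n * n' * (ρ k - 1) = 0 ∧
    (LinearMap.range n).map (ρ k) ≠ LinearMap.range n

def WL : Prop := ∀ {H V : Type u} [Group H] [Finite H] [AddCommGroup V] [Module (ZMod 2) V] [Finite V]
  {K : Type} [Field K] [Finite K] (ρ : H →* Module.End (ZMod 2) V) (s : K →+* Module.End (ZMod 2) V)
  (n m : Module.End (ZMod 2) V) (x y : H),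
  ∀ s' n' m' x' y', Two ρ s n m x y s' n' m' x' y' → Wa ρ s n m s' n' m' → Wb ρ s n m n' →
  ∀ k ∈ normalizer (WW ρ n n' : Set H), (ρ k - 1) * (n * n') = 0 → n * n' * (ρ k - 1) = 0 →
    (LinearMap.range n).map (ρ k) ≠ LinearMap.range n → ∃ c c' q, Last ρ s n m c c' k q

def LAST : Prop := ∀ {H V : Type u} [Group H] [Finite H] [AddCommGroup V] [Module (ZMod 2) V] [Finite V]
  {K : Type} [Field K] [Finite K] (ρ : H →* Module.End (ZMod 2) V) (s : K →+* Module.End (ZMod 2) V)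
  (n m : Module.End (ZMod 2) V) (x y : H),
  Hyp2 ρ → FrB ρ s n m x y → ∀ c c' k q, ¬ Last ρ s n m c c' k q

def E1 : Prop := ∀ {H V : Type u} [Group H] [Finite H] [AddCommGroup V] [Module (ZMod 2) V] [Finite V]
  (ρ : H →* Module.End (ZMod 2) V),
  Hyp2 ρ → ∀ U, Half U → AU ρ U ≠ ⊥ → CP ρ U →
  (∀ g : H, U.map (ρ g) = U ∨ U ⊓ U.map (ρ g) = ⊥) ∧ (normalizer (AU ρ U : Set H)).index = Nat.card U + 1

def E2 : Prop := ∀ {H V : Type u} [Group H] [Finite H] [AddCommGroup V] [Module (ZMod 2) V] [Finite V]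
  (ρ : H →* Module.End (ZMod 2) V),
  Hyp2 ρ → ∀ U, Half U → 4 ≤ Nat.card (AU ρ U) → (∀ g : H, U.map (ρ g) = U ∨ U ⊓ U.map (ρ g) = ⊥) →
  IsSimpleGroup (normalClosure (AU ρ U : Set H)) ∧ ¬ IsMulCommutative (normalClosure (AU ρ U : Set H)) ∧
    ∃ M : Subgroup (normalClosure (AU ρ U : Set H)), IsStronglyEmbedded M

def E3 : Prop := ∀ {H V : Type u} [Group H] [Finite H] [AddCommGroup V] [Module (ZMod 2) V] [Finite V]
  (ρ : H →* Module.End (ZMod 2) V),
  Hyp2 ρ → ∀ U, Half U → AU ρ U ≠ ⊥ → (normalizer (AU ρ U : Set H)).index = Nat.card U + 1 →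
  ∀ L : Subgroup H, L.Normal → AU ρ U ≤ L → IsSimpleGroup L → ¬ IsMulCommutative L →
    (∃ M : Subgroup L, IsStronglyEmbedded M) →
    ∃ (F : Type) (_ : Field F) (_ : Fintype F), 3 < Fintype.card F ∧ Fintype.card F ^ 2 = Nat.card V ∧
      Nonempty (L ≃* SL(2, F))

def SZ : Prop := ∀ {H V : Type u} [Group H] [Finite H] [AddCommGroup V] [Module (ZMod 2) V] [Finite V]
  (ρ : H →* Module.End (ZMod 2) V),
  Hyp2 ρ → ∀ L : Subgroup H, L.Normal → IsSimpleGroup L → ¬ IsMulCommutative L → 3 ∣ Nat.card L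

/-! ### the steps for every `p` -/

def PERF : Prop := ∀ {p : ℕ} [Fact p.Prime] {H : Type u} [Group H] [Finite H], PQ p H → pCore p H = ⊥ →
  ∀ L : Subgroup H, L.Normal → commutator L = ⊤ →
    IsPGroup 2 (center L) ∧ ∀ R : Subgroup L, R.Normal → Group.IsSolvable R → R ≤ center L

def SIMP : Prop := ∀ {H : Type u} [Group H] [Finite H], PQ 2 H → pCore 2 H = ⊥ → ¬ Group.IsSolvable H →
  ∃ L : Subgroup H, L.Normal ∧ IsSimpleGroup L ∧ ¬ IsMulCommutative L

def CNT0 : Prop := ∀ {p : ℕ} [Fact p.Prime] {H V : Type u} [Group H] [Finite H] [AddCommGroup V]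
  [Module (ZMod p) V] [Finite V] (ρ : H →* Module.End (ZMod p) V),
  Hyp ρ → ∀ N : Subgroup H, N.Normal → ∀ j M : ℕ, Nat.card N = p ^ j * M → ¬ p ∣ M →
  ∀ W : Submodule (ZMod p) V, (∀ g ∈ N, ∀ w ∈ W, ρ g w ∈ W) → M ∣ Nat.card W - 1

def CNT : Prop := ∀ {p : ℕ} [Fact p.Prime] {H V : Type u} [Group H] [Finite H] [AddCommGroup V]
  [Module (ZMod p) V] [Finite V] (ρ : H →* Module.End (ZMod p) V),
  Hyp ρ → ∀ N : Subgroup H, N.Normal → ∀ j M : ℕ, Nat.card N = p ^ j * M → ¬ p ∣ M → j ≠ 0 →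
  Nat.card V ≤ M ^ 2

def OUT : Prop := ∀ {H : Type u} [Group H] [Finite H] (L : Subgroup H) (F : Type) [Field F] [Fintype F] (r f : ℕ),
  L.Normal → r.Prime → Fintype.card F = r ^ f → 3 < Fintype.card F → Nonempty (L ≃* SL(2, F)) →
  (L ⊔ centralizer (L : Set H)).index ∣ 2 * f ∧
    ((r = 2 ∨ Odd (L ⊔ centralizer (L : Set H)).index) → ∃ h : H, L ⊔ centralizer (L : Set H) ⊔ zpowers h = ⊤)

def FIN : Prop := ∀ {p : ℕ} [Fact p.Prime] {H V : Type u} [Group H] [Finite H] [AddCommGroup V]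
  [Module (ZMod p) V] [Finite V] (ρ : H →* Module.End (ZMod p) V),
  Hyp ρ → ∀ (L : Subgroup H) (F : Type) [Field F] [Fintype F], L.Normal → 3 < Fintype.card F →
  Fintype.card F ^ 2 = Nat.card V → Nonempty (L ≃* SL(2, F)) → Concl1 p H

def MIN : Prop := ∀ {p : ℕ} [Fact p.Prime] {H V : Type u} [Group H] [Finite H] [AddCommGroup V]
  [Module (ZMod p) V] [Finite V] (ρ : H →* Module.End (ZMod p) V),
  Fp ρ → ∀ (u : H) (s : ℕ), s.Prime → s ≠ p → orderOf u = s →
  (∀ j : ℕ, ¬ s ∣ j → IsConj u (u ^ j ^ 2)) → s ≤ 2 * Module.finrank (ZMod p) V + 1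

def NUM : Prop := ∀ p s n j M : ℕ, p.Prime → p ≠ 2 → s.Prime → 5 ≤ s → s ≠ p → s * (s ^ 2 - 1) = p ^ j * M →
  ¬ p ∣ M → j ≠ 0 → M ∣ p ^ n - 1 → p ^ n ≤ M ^ 2 → s ≤ 2 * n + 1 →
  p = 3 ∧ ((s = 5 ∧ n = 4) ∨ (s = 13 ∧ n = 6))

def XC : Prop := ∀ {p : ℕ} [Fact p.Prime] {H V : Type u} [Group H] [Finite H] [AddCommGroup V]
  [Module (ZMod p) V] [Finite V] (ρ : H →* Module.End (ZMod p) V),
  Hyp ρ → p ≠ 2 → ∀ (L : Subgroup H) (F : Type) [Field F] [Fintype F], L.Normal →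
  Odd (Fintype.card F) → 3 < Fintype.card F → Nonempty (L ≃* SL(2, F)) → p ∣ Nat.card L →
  Fintype.card F ^ 2 = Nat.card V ∨
    p = 3 ∧ ((Fintype.card F = 5 ∧ Nat.card V = 81) ∨ (Fintype.card F = 13 ∧ Nat.card V = 729))

def A7 : Prop := ∀ {p : ℕ} [Fact p.Prime] {H V : Type u} [Group H] [Finite H] [AddCommGroup V]
  [Module (ZMod p) V] [Finite V] (ρ : H →* Module.End (ZMod p) V),
  Hyp ρ → p ≠ 2 → ∀ L : Subgroup H, L.Normal → Nat.card L = 5040 →
  ∀ f : L →* alternatingGroup (Fin 7), ¬ Function.Surjective f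

def EX5 : Prop := ∀ {p : ℕ} [Fact p.Prime] {H V : Type u} [Group H] [Finite H] [AddCommGroup V]
  [Module (ZMod p) V] [Finite V] (ρ : H →* Module.End (ZMod p) V),
  Hyp ρ → p = 3 → ∀ (L : Subgroup H) (F : Type) [Field F] [Fintype F], L.Normal →
  Nonempty (L ≃* SL(2, F)) → Fintype.card F = 5 → Nat.card V = 81 → Concl2 H

def EX13 : Prop := ∀ {p : ℕ} [Fact p.Prime] {H V : Type u} [Group H] [Finite H] [AddCommGroup V]
  [Module (ZMod p) V] [Finite V] (ρ : H →* Module.End (ZMod p) V),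
  Hyp ρ → p = 3 → ∀ (L : Subgroup H) (F : Type) [Field F] [Fintype F], L.Normal →
  Nonempty (L ≃* SL(2, F)) → Fintype.card F = 13 → Nat.card V = 729 → Nonempty (H ≃* SL(2, ZMod 13))

def COP : Prop := ∀ {p : ℕ} [Fact p.Prime] {H V : Type u} [Group H] [Finite H] [AddCommGroup V]
  [Module (ZMod p) V] [Finite V] (ρ : H →* Module.End (ZMod p) V),
  Hyp ρ → ∀ L : Subgroup H, L.Normal → Nonempty (L ≃* SL(2, ZMod 5)) → ¬ p ∣ Nat.card L →
  ¬ p ∣ Nat.card H

def REG : Prop := ∀ {p : ℕ} [Fact p.Prime] {H V : Type u} [Group H] [Finite H] [AddCommGroup V]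
  [Module (ZMod p) V] [Finite V] (ρ : H →* Module.End (ZMod p) V),
  Hyp ρ → (¬ p ∣ Nat.card H → Concl4 p H) ∧
  ∀ L : Subgroup H, L ≠ ⊥ → commutator L = ⊤ → ¬ p ∣ Nat.card L → Nonempty (L ≃* SL(2, ZMod 5))

/-! ### basic facts -/

section basic
variable {p : ℕ} {H V : Type*} [Group H] [AddCommGroup V] [Module (ZMod p) V] {ρ : H →* Module.End (ZMod p) V}

theorem mem_Fix {g : H} {v : V} : v ∈ Fix ρ g ↔ ρ g v = v := by
  rw [Fix, LinearMap.mem_ker, LinearMap.sub_apply, Module.End.one_apply, sub_eq_zero]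

theorem mem_AU {U : Submodule (ZMod p) V} {g : H} : g ∈ AU ρ U ↔ ∀ u ∈ U, ρ g u = u := Iff.rfl

theorem mem_AU_iff_le {U : Submodule (ZMod p) V} {g : H} : g ∈ AU ρ U ↔ U ≤ Fix ρ g :=
  forall₂_congr fun _ _ => mem_Fix.symm

theorem mem_AU_Fix (g : H) : g ∈ AU ρ (Fix ρ g) := mem_AU_iff_le.2 le_rfl

theorem mem_AU_range {r : Module.End (ZMod p) V} {g : H} : g ∈ AU ρ (LinearMap.range r) ↔ (ρ g - 1) * r = 0 :=
  ⟨fun h => LinearMap.ext fun v => sub_eq_zero.2 (h _ ⟨v, rfl⟩), fun h => by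
    rintro _ ⟨v, rfl⟩
    exact sub_eq_zero.1 (LinearMap.congr_fun h v)⟩

theorem mem_AU_span {v : V} {g : H} : g ∈ AU ρ (Submodule.span (ZMod p) {v}) ↔ ρ g v = v := by
  rw [mem_AU_iff_le, Submodule.span_singleton_le_iff_mem, mem_Fix]

theorem apply_inv_apply (g : H) (v : V) : ρ g (ρ g⁻¹ v) = v := by
  rw [← Module.End.mul_apply, ← map_mul, mul_inv_cancel, map_one, Module.End.one_apply]

theorem inv_apply_apply (g : H) (v : V) : ρ g⁻¹ (ρ g v) = v := by
  rw [← Module.End.mul_apply, ← map_mul, inv_mul_cancel, map_one, Module.End.one_apply]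

theorem rho_injective (g : H) : Function.Injective (ρ g) := Function.LeftInverse.injective (inv_apply_apply g)

theorem mem_map_rho {U : Submodule (ZMod p) V} {g : H} {v : V} : v ∈ U.map (ρ g) ↔ ρ g⁻¹ v ∈ U :=
  ⟨by rintro ⟨u, hu, rfl⟩; rwa [inv_apply_apply], fun h => ⟨_, h, apply_inv_apply g v⟩⟩

theorem map_rho_mul (U : Submodule (ZMod p) V) (g k : H) : U.map (ρ (g * k)) = (U.map (ρ k)).map (ρ g) := by
  rw [map_mul, Module.End.mul_eq_comp, Submodule.map_comp]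

theorem map_rho_one (U : Submodule (ZMod p) V) : U.map (ρ 1) = U := by
  rw [map_one, Module.End.one_eq_id, Submodule.map_id]

theorem card_map_rho (U : Submodule (ZMod p) V) (g : H) : Nat.card (U.map (ρ g)) = Nat.card U :=
  (Nat.card_congr (Submodule.equivMapOfInjective _ (rho_injective g) U).toEquiv).symm

theorem Half.map {U : Submodule (ZMod p) V} (h : Half U) (g : H) : Half (U.map (ρ g)) := by
  rw [Half, card_map_rho]; exact h

theorem mem_AU_map {U : Submodule (ZMod p) V} {g a : H} : a ∈ AU ρ (U.map (ρ g)) ↔ g⁻¹ * a * g ∈ AU ρ U := by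
  refine ⟨fun h u hu => ?_, fun h => ?_⟩
  · rw [map_mul, map_mul, Module.End.mul_apply, Module.End.mul_apply, h _ ⟨u, hu, rfl⟩, inv_apply_apply]
  · rintro _ ⟨u, hu, rfl⟩
    have := congrArg (ρ g) (h u hu)
    rwa [map_mul, map_mul, Module.End.mul_apply, Module.End.mul_apply, apply_inv_apply] at this

theorem Fix_conj (g a : H) : Fix ρ (g * a * g⁻¹) = (Fix ρ a).map (ρ g) := by
  ext v
  rw [mem_map_rho, mem_Fix, mem_Fix, map_mul, map_mul, Module.End.mul_apply, Module.End.mul_apply]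
  exact ⟨fun h => rho_injective g (by rw [h, apply_inv_apply]), fun h => by rw [h, apply_inv_apply]⟩

theorem Half.ne_bot [Finite V] [Nontrivial V] {U : Submodule (ZMod p) V} (h : Half U) : U ≠ ⊥ := by
  rintro rfl
  have h1 : Nat.card V = 1 := by rw [← h]; simp
  exact Finite.one_lt_card.ne' h1

theorem Fp.comp {X : Type*} [Group X] (h : Fp ρ) (f : X →* H) (hf : Function.Injective f) : Fp (ρ.comp f) :=
  ⟨h.nt, fun g v hv e => (h.stab _ v hv e).imp fun k hk => hf (by rw [map_pow, hk, map_one])⟩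

theorem Fp.isPGroup_AU (h : Fp ρ) {U : Submodule (ZMod p) V} (hU : U ≠ ⊥) : IsPGroup p (AU ρ U) := fun g => by
  obtain ⟨v, hv, h0⟩ := Submodule.exists_mem_ne_zero_of_ne_bot hU
  exact (h.stab g v h0 (g.2 v hv)).imp fun k hk => Subtype.ext hk

/-- `p'`-elements act without fixed points -/
theorem Fp.fpf (h : Fp ρ) {g : H} (hg : (orderOf g).Coprime p) (g1 : g ≠ 1) {v : V} (e : ρ g v = v) : v = 0 := by
  by_contra h0
  obtain ⟨k, hk⟩ := h.stab g v h0 e
  exact g1 (orderOf_eq_one_iff.1 (Nat.eq_one_of_self_dvd_coprime_aux hg hk))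
where
  Nat.eq_one_of_self_dvd_coprime_aux {g : H} {k : ℕ} (hg : (orderOf g).Coprime p) (hk : g ^ p ^ k = 1) :
      orderOf g = 1 :=
    Nat.eq_one_of_dvd_coprimes (hg.pow_right k) dvd_rfl (orderOf_dvd_of_pow_eq_one hk)

theorem Fp.pq [Finite H] [Finite V] (h : Fp ρ) : PQ p H := fun K hK => by
  have := h.nt
  let _ : MulDistribMulAction K (Multiplicative V) :=
    { smul := fun a v => .ofAdd (ρ a v.toAdd)
      one_smul := fun v => by change Multiplicative.ofAdd (ρ (1 : H) _) = _; simp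
      mul_smul := fun a b v => by
        change Multiplicative.ofAdd (ρ ((a : H) * b) _) = Multiplicative.ofAdd (ρ a (ρ b _)); simp
      smul_mul := fun a v w => congrArg Multiplicative.ofAdd (map_add (ρ a) _ _)
      smul_one := fun a => congrArg Multiplicative.ofAdd (map_zero (ρ a)) }
  exact CL.Grp.pqCyclic_of_fpf_action (K := Multiplicative V) fun a a1 v e =>
    h.fpf (g := a) (hK.coprime_dvd_left (K.orderOf_dvd_natCard a.2)) (fun e => a1 (Subtype.ext e))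
      (congrArg Multiplicative.toAdd e)

theorem Hyp.inj [Fact p.Prime] [Finite H] (h : Hyp ρ) : Function.Injective ρ := by
  have := h.nt
  rw [← MonoidHom.ker_eq_bot_iff, eq_bot_iff, ← h.core]
  refine CL.Grp.le_pCore ((h.isPGroup_AU (U := ⊤) top_ne_bot).to_le fun g hg u _ => ?_)
  rw [MonoidHom.mem_ker.1 hg, Module.End.one_apply]

theorem exists_card_V [hp : Fact p.Prime] [Finite V] : Nat.card V = p ^ Module.finrank (ZMod p) V := by
  rw [Module.natCard_eq_pow_finrank (K := ZMod p), Nat.card_zmod]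

/-- the stabiliser of a non-zero vector has index `|V| - 1` -/
theorem Hyp.index_AU_span (h : Hyp ρ) [Finite V] {v : V} (hv : v ≠ 0) :
    (AU ρ (Submodule.span (ZMod p) {v})).index = Nat.card V - 1 := by
  classical
  have e : Nat.card {w : V // w ≠ 0} = Nat.card V - 1 := by
    have := Fintype.ofFinite V
    rw [Nat.card_eq_fintype_card, Nat.card_eq_fintype_card, Fintype.card_subtype_compl, Fintype.card_subtype_eq]
  rw [← e, index_eq_card]
  refine Nat.card_congr (Equiv.ofBijective (Quotient.lift (fun g => ⟨ρ g v, fun e => hv (rho_injective g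
    (e.trans (map_zero _).symm))⟩) fun a b hab => Subtype.ext ?_) ⟨?_, fun w => ?_⟩)
  · have := mem_AU_span.1 (QuotientGroup.leftRel_apply.1 hab)
    change ρ a v = ρ b v
    rw [← this, ← Module.End.mul_apply, ← map_mul, mul_inv_cancel_left]
    rw [this]
  · rintro ⟨a⟩ ⟨b⟩ hab
    refine Quotient.sound (QuotientGroup.leftRel_apply.2 (mem_AU_span.2 ?_))
    rw [map_mul, Module.End.mul_apply, ← show ρ a v = ρ b v from congrArg Subtype.val hab, inv_apply_apply]
  · obtain ⟨g, hg⟩ := h.trans v w hv w.2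
    exact ⟨Quotient.mk _ g, Subtype.ext hg⟩

theorem Hyp.not_dvd [hp : Fact p.Prime] [Finite V] (h : Hyp ρ) : ¬ p ∣ Nat.card V - 1 := fun e => by
  have := h.nt
  have h1 : 1 < Nat.card V := Finite.one_lt_card
  have h2 : p ∣ Nat.card V := by
    rw [exists_card_V (p := p)] at h1 ⊢
    exact dvd_pow_self p fun e => by simp [e] at h1
  exact hp.out.one_lt.ne' (Nat.dvd_one.1 ((Nat.dvd_sub_iff_right h1.le h2).1 e))

theorem Hyp.card [Fact p.Prime] [Finite H] [Finite V] (h : Hyp ρ) : ∃ k, Nat.card H = p ^ k * (Nat.card V - 1) := by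
  have := h.nt
  obtain ⟨v, hv⟩ := exists_ne (0 : V)
  obtain ⟨k, hk⟩ := (h.isPGroup_AU (U := Submodule.span (ZMod p) {v})
    (by rwa [Ne, Submodule.span_singleton_eq_bot])).exists_card_eq
  exact ⟨k, by rw [← hk, ← h.index_AU_span hv, card_mul_index]⟩

/-- for `p` odd an involution acts as `-1` -/
theorem Fp.invol (h : Fp ρ) (hp : Odd p) {t : H} (t1 : t ≠ 1) (tt : t * t = 1) : ρ t = -1 := by
  have : Fact (Nat.Prime 2) := ⟨Nat.prime_two⟩
  ext v
  have := h.fpf (g := t) (by rw [orderOf_eq_prime (p := 2) (by rw [pow_two, tt]) t1]; exact hp.coprime_two_left) t1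
    (v := ρ t v + v) (by rw [map_add, ← Module.End.mul_apply, ← map_mul, tt, map_one, Module.End.one_apply, add_comm])
  exact eq_neg_of_add_eq_zero_left this

end basic

section two
variable {H V : Type*} [Group H] [AddCommGroup V] [Module (ZMod 2) V] {ρ : H →* Module.End (ZMod 2) V}

theorem add_self_V (v : V) : v + v = 0 := by
  rw [← two_smul (ZMod 2), show (2 : ZMod 2) = 0 from rfl, zero_smul]

theorem add_self_End (r : Module.End (ZMod 2) V) : r + r = 0 := LinearMap.ext fun v => add_self_V (r v)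

theorem two_End : (2 : Module.End (ZMod 2) V) = 0 := one_add_one_eq_two.symm.trans (add_self_End 1)

theorem neg_End (r : Module.End (ZMod 2) V) : -r = r := neg_eq_of_add_eq_zero_left (add_self_End r)

theorem sub_End (r t : Module.End (ZMod 2) V) : r - t = r + t := by rw [sub_eq_add_neg, neg_End]

/-- an element of order 3 satisfies `x² + x + 1 = 0` -/
theorem Fp.three (h : Fp ρ) {x : H} (hx : orderOf x = 3) : ρ x * ρ x + ρ x + 1 = 0 := by
  have h3 : ρ x * ρ x * ρ x = 1 := by rw [← map_mul, ← map_mul, ← pow_three', ← hx, pow_orderOf_eq_one, map_one]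
  ext v
  refine h.fpf (g := x) (by rw [hx]; decide) (fun e => by simp [e] at hx) ?_
  rw [← Module.End.mul_apply, mul_add, mul_add, ← mul_assoc, h3, mul_one]
  congr 1
  abel

theorem C2.of_injective {X : Type*} [Group X] (h : C2 H) (f : X →* H) (hf : Function.Injective f) : C2 X :=
  fun x y hx hy ⟨k, hk⟩ => hf (h _ _ ((orderOf_injective f hf x).trans hx) ((orderOf_injective f hf y).trans hy)
    ⟨k, by rw [← map_inv, ← map_mul, ← map_pow, hk, map_one]⟩)

/-- in case II an element of order 3 centralises every 2-subgroup which it normalises -/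
theorem C2.commute (h : C2 H) {x : H} (hx : orderOf x = 3) {P : Subgroup H} (hP : IsPGroup 2 P)
    (hn : x ∈ normalizer (P : Set H)) {a : H} (ha : a ∈ P) : Commute x a := by
  have h1 : x⁻¹ * (a * x * a⁻¹) ∈ P := by
    rw [show x⁻¹ * (a * x * a⁻¹) = x⁻¹ * a * x⁻¹⁻¹ * a⁻¹ by group]
    exact mul_mem ((mem_normalizer_iff.1 (inv_mem hn) a).1 ha) (inv_mem ha)
  obtain ⟨k, hk⟩ := hP ⟨_, h1⟩
  have := h x (a * x * a⁻¹) hx ((MulEquiv.orderOf_eq (MulAut.conj a) x).trans hx) ⟨k, congrArg Subtype.val hk⟩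
  exact (eq_mul_inv_iff_mul_eq.1 this)

theorem PQ.of_injective {p : ℕ} {X : Type*} [Group X] (h : PQ p H) (f : X →* H) (hf : Function.Injective f) :
    PQ p X := fun K hK =>
  (h (K.map f) (by rwa [card_map_of_injective hf])).of_injective (f.subgroupMap K) fun a b e =>
    Subtype.ext (hf (congrArg Subtype.val e))

theorem PQ.isCyclic {p r : ℕ} [Finite H] (h : PQ p H) (hp : p.Prime) (hr : r.Prime) (h2 : r ≠ 2) (hrp : r ≠ p)
    {P : Subgroup H} (hP : IsPGroup r P) : IsCyclic P := by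
  have := Fact.mk hr
  obtain ⟨k, hk⟩ := hP.exists_card_eq
  have := (h P (hk ▸ ((Nat.coprime_primes hr hp).2 hrp).pow_left k)).isCyclic_of_ne_two (P := ⊤) (hP.to_subgroup ⊤) h2
  exact isCyclic_of_surjective topEquiv topEquiv.surjective

/-- transfer: the centre of a perfect group is prime to the primes with cyclic Sylow subgroups -/
theorem PQ.not_dvd_center {p r : ℕ} [Finite H] (h : PQ p H) (hp : p.Prime) (hH : commutator H = ⊤) (hr : r.Prime)
    (h2 : r ≠ 2) (hrp : r ≠ p) : ¬ r ∣ Nat.card (center H) := fun hd => by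
  have := Fact.mk hr
  obtain ⟨z, hz⟩ := exists_prime_orderOf_dvd_card' r hd
  have h1 : IsPGroup r (zpowers (z : H)) :=
    IsPGroup.of_card (n := 1) (by rw [Nat.card_zpowers, orderOf_coe, hz, pow_one])
  obtain ⟨P, hP⟩ := h1.exists_le_sylow
  have h3 := CL.Transfer.inf_commutator_inf_center_le_of_hall (P : Subgroup H) P.card_coprime_index
    ⟨⟨hP (mem_zpowers _), hH ▸ mem_top _⟩, z.2⟩
  have := h.isCyclic hp hr h2 hrp P.isPGroup'
  rw [commutator_self_eq_bot_iff.mpr IsCyclic.isMulCommutative, mem_bot] at h3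
  rw [← orderOf_coe, h3, orderOf_one] at hz
  exact hr.one_lt.ne hz

theorem Hyp2.mem_normalizer_iff (h : Hyp2 ρ) {U : Submodule (ZMod 2) V} (hU : Half U) (h1 : AU ρ U ≠ ⊥) {g : H} :
    g ∈ normalizer (AU ρ U : Set H) ↔ U.map (ρ g) = U := by
  refine ⟨fun hg => ?_, fun hg => Subgroup.mem_normalizer_iff''.2 fun a => ?_⟩
  · obtain ⟨⟨a, ha⟩, a1⟩ := ne_bot_iff_exists_ne_one.1 h1
    have a1 : a ≠ 1 := fun e => a1 (Subtype.ext e)
    have h2 := h.fix U hU _ ((Subgroup.mem_normalizer_iff.1 hg a).1 ha) fun e => a1 (by simpa using e)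
    rwa [Fix_conj, h.fix U hU a ha a1] at h2
  · rw [← mem_AU_map, hg]

end two

end CL.Ggn
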