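/-
S4841: the double cover of `A₇` does not occur, and the regular case.
-/
import Cfsg.Agent.Ggn.Defs
import Cfsg.Agent.S0689
import Cfsg.Agent.S0690

set_option autoImplicit false

namespace CL.Ggn

open Cfsg Subgroup
open scoped MatrixGroups

universe u

namespace A7x

theorem perm7 {g : Equiv.Perm (Fin 7)} (h : g ^ 9 = 1) : g ^ 3 = 1 := by
  rw [← orderOf_dvd_iff_pow_eq_one, ← Equiv.Perm.lcm_cycleType, Multiset.lcm_dvd]
  intro n hn
  have h1 := (Equiv.Perm.dvd_of_mem_cycleType hn).trans (orderOf_dvd_of_pow_eq_one h)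
  have h2 := (Equiv.Perm.le_card_support_of_mem_cycleType hn).trans (Finset.card_le_univ _)
  rw [Fintype.card_fin] at h2
  interval_cases n <;> simp_all

variable {p : ℕ} [Fact p.Prime] {H V : Type u} [Group H] [AddCommGroup V] [Module (ZMod p) V]

/-- the action by linear equivalences -/
def lin (ρ : H →* Module.End (ZMod p) V) : H →* (V ≃ₗ[ZMod p] V) where
  toFun g := { ρ g with invFun := ρ g⁻¹, left_inv := inv_apply_apply g, right_inv := apply_inv_apply g }
  map_one' := LinearEquiv.ext fun v => DFunLike.congr_fun ρ.map_one v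
  map_mul' a b := LinearEquiv.ext fun v => DFunLike.congr_fun (ρ.map_mul a b) v

/-- the action by automorphisms of the multiplicative group -/
def mul (ρ : H →* Module.End (ZMod p) V) : H →* MulAut (Multiplicative V) where
  toFun g := AddEquiv.toMultiplicative (lin ρ g).toAddEquiv
  map_one' := MulEquiv.ext fun v => DFunLike.congr_fun ρ.map_one v.toAdd
  map_mul' a b := MulEquiv.ext fun v => DFunLike.congr_fun (ρ.map_mul a b) v.toAdd

end A7x

theorem a7 (h0 : CNT0.{u}) (h1 : CNT.{u}) : A7.{u} := by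
  intro p hp H V _ _ _ _ _ ρ h p2 L hL hc f hf
  by_cases p3 : p = 3
  · subst p3
    have e : Nat.card L = 3 ^ 2 * 560 := hc
    have a := h0 ρ h L hL 2 560 e (by decide) ⊤ fun _ _ _ _ => trivial
    have b := h1 ρ h L hL 2 560 e (by decide) (by decide)
    have := h.nt
    have c : 1 < Nat.card V := Finite.one_lt_card
    rw [Nat.card_congr Submodule.topEquiv.toEquiv] at a
    rw [exists_card_V (p := 3)] at a b c
    generalize Module.finrank (ZMod 3) V = n at a b c
    have d : n < 12 := (Nat.pow_lt_pow_iff_right (a := 3) (by decide)).1 (b.trans_lt (by norm_num))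
    interval_cases n <;> simp_all
  have : Fact (Nat.Prime 3) := ⟨Nat.prime_three⟩
  obtain ⟨K, hK⟩ := Sylow.exists_subgroup_card_pow_prime (G := L) 3 (n := 2) (by rw [hc]; decide)
  have cy : IsCyclic K := (h.pq.of_injective L.subtype L.subtype_injective).isCyclic hp.out Nat.prime_three (by decide)
    (Ne.symm p3) (IsPGroup.of_card hK)
  obtain ⟨g, hg⟩ := isCyclic_iff_exists_orderOf_eq_natCard.1 cy
  rw [hK, ← orderOf_coe] at hg
  have k : Nat.card f.ker = 2 := by
    have := f.ker.card_mul_index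
    rw [index_ker, MonoidHom.range_eq_top.2 hf, card_top, nat_card_alternatingGroup, hc, Nat.card_fin,
      show Nat.factorial 7 / 2 = 2520 by decide] at this
    omega
  have a : (g : L) ^ 3 ∈ f.ker := by
    rw [MonoidHom.mem_ker, map_pow]
    refine Subtype.ext (A7x.perm7 ?_)
    rw [← Subgroup.coe_pow, ← map_pow, show 9 = orderOf (g : L) from hg.symm, pow_orderOf_eq_one, map_one, coe_one]
  have b := orderOf_dvd_of_pow_eq_one ((pow_mul (g : L) 3 2).trans
    (orderOf_dvd_iff_pow_eq_one.1 (k ▸ f.ker.orderOf_dvd_natCard a)))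
  rw [hg] at b
  exact absurd b (by decide)

theorem reg : REG.{u} := by
  intro p hp H V _ _ _ _ _ ρ h
  have fp : ∀ {L : Subgroup H}, ¬ p ∣ Nat.card L → ∀ g ∈ L, g ≠ 1 → ∀ v, ρ g v = v → v = 0 := fun hL g hg g1 v e =>
    h.fpf (((Nat.Prime.coprime_iff_not_dvd hp.out).2 hL).symm.of_dvd_left (orderOf_dvd_natCard _ hg)) g1 e
  refine ⟨fun hH => ?_, fun L L1 hL hpL => ?_⟩
  · have inj : Function.Injective (A7x.lin ρ) := fun a b e => h.inj (LinearMap.ext fun v => DFunLike.congr_fun e v)
    have e := MonoidHom.ofInjective inj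
    have k : ∀ q : ℕ, q.Prime → Nat.card V = q ^ 2 → p = q := fun q hq e => by
      have := h.nt
      have c : 1 < Nat.card V := Finite.one_lt_card
      rw [exists_card_V (p := p)] at e c
      exact (Nat.prime_dvd_prime_iff_eq hp.out hq).1 (hp.out.dvd_of_dvd_pow (e ▸ dvd_pow_self p fun z => by simp [z] at c))
    rcases Cfsg.Agent.S0689.result (A7x.lin ρ).range (fun v w hv hw => by
      obtain ⟨g, hg⟩ := h.trans v w hv hw
      refine ⟨⟨_, g, rfl⟩, hg, ?_⟩
      rintro ⟨_, a, rfl⟩ (ha : ρ a v = w)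
      obtain rfl : g = a := inv_mul_eq_one.1 (by_contra fun n => hv (fp (L := ⊤) (by rwa [card_top]) _ trivial n v (by
        rw [map_mul, Module.End.mul_apply, ha, ← hg, inv_apply_apply])))
      rfl) (fun s => h.nsolv (Group.isSolvable_of_isSolvable_injective (f := e.toMonoidHom) e.injective)) with
      ⟨a, b⟩ | ⟨a, b⟩ | ⟨a, b⟩
    · exact .inl ⟨k 11 (by norm_num) a, b.map e.trans⟩
    · exact .inr (.inl ⟨k 29 (by norm_num) a, b.map e.trans⟩)
    · exact .inr (.inr ⟨k 59 (by norm_num) a, b.map e.trans⟩)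
  · have inj : Function.Injective ((A7x.mul ρ).comp L.subtype) := fun a b e =>
      Subtype.ext (h.inj (LinearMap.ext fun v => DFunLike.congr_fun e (Multiplicative.ofAdd v)))
    have e := MonoidHom.ofInjective inj
    have : Group.IsPerfect L := ⟨hL⟩
    refine (Cfsg.Agent.S0690.result ((A7x.mul ρ).comp L.subtype).range ?_
      (Group.IsPerfect.ofSurjective (f := e.toMonoidHom) e.surjective).commutator_eq_top fun b => L1 ?_).map e.trans
    · rintro _ ⟨g, rfl⟩ g1 v hv
      exact fp hpL g g.2 (fun z => g1 (by rw [show g = 1 from Subtype.ext z, map_one])) v.toAdd hv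
    · rw [← card_eq_one, Nat.card_congr e.toEquiv, b, card_bot]

end CL.Ggn
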