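/-
S4841 (Gagola, non-solvable case): involutions act freely in characteristic two.
-/
import Cfsg.Agent.Ggn.Defs
import Cfsg.Agent.Inv.BaerSuzuki

set_option autoImplicit false

namespace CL.Ggn

open Cfsg Subgroup Module
open scoped MatrixGroups

universe u

namespace B2x
variable {H V : Type u} [Group H] [Finite H] [AddCommGroup V] [Module (ZMod 2) V] [Finite V]
  {ρ : H →* Module.End (ZMod 2) V}

omit [Group H] [Finite H] in
theorem half_iff {U : Submodule (ZMod 2) V} : Half U ↔ 2 * finrank (ZMod 2) U = finrank (ZMod 2) V := by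
  rw [Half, exists_card_V (p := 2) (V := U), exists_card_V (p := 2) (V := V), ← pow_mul, mul_comm]
  exact (Nat.pow_right_injective le_rfl).eq_iff

omit [Finite H] [Finite V] in
theorem sq_sub (g : H) : (ρ g - 1) * (ρ g - 1) = ρ (g * g) - 1 := by
  rw [map_mul, sub_End, sub_End, mul_add, add_mul, add_mul, mul_one, one_mul, mul_one, add_assoc,
    ← add_assoc (ρ g), add_self_End, zero_add]

omit [Finite H] [Finite V] in
theorem rng_le {t : H} (tt : t * t = 1) : LinearMap.range (ρ t - 1) ≤ Fix ρ t :=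
  LinearMap.range_le_ker_iff.2 ((sq_sub t).trans (by rw [tt, map_one, sub_self]))

omit [Finite H] in
theorem rk (g : H) : finrank (ZMod 2) (LinearMap.range (ρ g - 1)) + finrank (ZMod 2) (Fix ρ g) = finrank (ZMod 2) V :=
  LinearMap.finrank_range_add_finrank_ker _

omit [Finite H] in
theorem ge {t : H} (tt : t * t = 1) : finrank (ZMod 2) V ≤ 2 * finrank (ZMod 2) (Fix ρ t) := by
  have h1 := rk (ρ := ρ) t
  have h2 := Submodule.finrank_mono (rng_le (ρ := ρ) tt)
  omega

theorem half (h : Hyp ρ) {t : H} (t1 : t ≠ 1) (tt : t * t = 1) : Half (Fix ρ t) := by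
  obtain ⟨y, y1, yo, hy, -⟩ := CL.Inv.invol_inverts_odd_of_not_mem tt fun hp => t1 (by
    have := CL.Grp.le_pCore hp (subset_normalClosure (Set.mem_singleton t))
    rwa [h.core, mem_bot] at this)
  have ti : t⁻¹ = t := inv_eq_of_mul_eq_one_right tt
  have tt' : t * y * (t * y) = 1 := by
    rw [ti] at hy
    rw [← mul_assoc, hy, inv_mul_cancel]
  have h1 : Fix ρ t ⊓ Fix ρ (t * y) = ⊥ := eq_bot_iff.2 fun v hv => by
    have h2 := mem_Fix.1 hv.2
    rw [map_mul, Module.End.mul_apply, ← mem_Fix.1 hv.1] at h2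
    rw [mem_Fix.1 hv.1] at h2
    exact h.fpf yo.coprime_two_right y1 (rho_injective t (h2.trans (mem_Fix.1 hv.1).symm))
  have h2 := Submodule.finrank_sup_add_finrank_inf_eq (Fix ρ t) (Fix ρ (t * y))
  have h3 := Submodule.finrank_le (Fix ρ t ⊔ Fix ρ (t * y))
  have h4 := ge (ρ := ρ) tt
  have h5 := ge (ρ := ρ) tt'
  rw [h1, finrank_bot] at h2
  exact half_iff.2 (by omega)

theorem rng (h : Hyp ρ) {t : H} (t1 : t ≠ 1) (tt : t * t = 1) : LinearMap.range (ρ t - 1) = Fix ρ t := by
  have h1 := rk (ρ := ρ) t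
  have h2 := half_iff.1 (half h t1 tt)
  exact Submodule.eq_of_le_of_finrank_eq (rng_le tt) (by omega)

theorem no4 (h : Hyp ρ) {g : H} (t1 : g * g ≠ 1) (tt : g * g * (g * g) = 1) : ¬ Fix ρ (g * g) ≤ Fix ρ g := fun hle => by
  have h1 := rk (ρ := ρ) g
  have h2 := half_iff.1 (half h t1 tt)
  have h3 := Submodule.finrank_mono hle
  have h4 : Fix ρ (g * g) ≤ LinearMap.range (ρ g - 1) := by
    rw [← rng h t1 tt, ← sq_sub]
    exact LinearMap.range_comp_le_range _ _
  have h5 : Fix ρ (g * g) = LinearMap.range (ρ g - 1) := Submodule.eq_of_le_of_finrank_le h4 (by omega)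
  have h6 : ρ (g * g) - 1 = 0 := (sq_sub g).symm.trans (LinearMap.range_le_ker_iff.1 (h5 ▸ hle))
  exact t1 (h.inj (by rw [map_one]; exact sub_eq_zero.1 h6))

theorem fix (h : Hyp ρ) {U : Submodule (ZMod 2) V} (hU : Half U) {a : H} (ha : a ∈ AU ρ U) (a1 : a ≠ 1)
    (aa : a * a = 1) : Fix ρ a = U := by
  have h1 := half_iff.1 hU
  have h2 := half_iff.1 (half h a1 aa)
  exact (Submodule.eq_of_le_of_finrank_eq (mem_AU_iff_le.1 ha) (by omega)).symm

theorem sq (h : Hyp ρ) {U : Submodule (ZMod 2) V} (hU : Half U) {a : H} (ha : a ∈ AU ρ U) : a * a = 1 := by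
  have := h.nt
  obtain ⟨k, hk⟩ := h.isPGroup_AU hU.ne_bot ⟨a, ha⟩
  replace hk : a ^ 2 ^ k = 1 := congrArg Subtype.val hk
  induction k with
  | zero => rw [pow_zero, pow_one] at hk; rw [hk, mul_one]
  | succ k ih =>
    cases k with
    | zero => rwa [zero_add, pow_one, pow_two] at hk
    | succ k =>
      have e : a ^ 2 ^ (k + 1) = a ^ 2 ^ k * a ^ 2 ^ k := by rw [← pow_add, pow_succ, mul_two]
      refine ih (by_contra fun h1 => ?_)
      rw [pow_succ, pow_mul, pow_two, e] at hk
      rw [e] at h1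
      have hg := pow_mem ha (2 ^ k)
      exact no4 h h1 hk ((fix h hU (mul_mem hg hg) h1 hk).trans_le (mem_AU_iff_le.1 hg))

end B2x

open B2x in
theorem b2 : B2.{u} := fun ρ h =>
  { h with
    half := fun _ => half h
    rng := fun _ => rng h
    sq := fun _ hU _ => sq h hU
    fix := fun _ hU _ ha a1 => fix h hU ha a1 (sq h hU ha)
    quad := fun U hU a ha b hb => by
      by_cases b1 : b = 1
      · rw [b1, map_one, sub_self, mul_zero]
      · rwa [← mem_AU_range, rng h b1 (sq h hU hb), fix h hU hb b1 (sq h hU hb)] }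

end CL.Ggn
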