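/-
S4841 (Gagola, non-solvable case): two elements of order 3 which differ by a 2-element.
-/
import Cfsg.Agent.Ggn.Defs

set_option autoImplicit false

namespace CL.Ggn

open Cfsg Subgroup
open scoped MatrixGroups

universe u

namespace BPx

section ring
variable {R : Type*} [Ring R] [Algebra (ZMod 2) R]

theorem m2 {a b : R} (h : (1 : ZMod 2) • a = b) : a = b := by rwa [one_smul] at h

theorem as (a : R) : a + a = 0 := m2 (by match_scalars; decide)

theorem fr (a : R) (j : ℕ) : (a + 1) ^ 2 ^ j = a ^ 2 ^ j + 1 := by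
  induction j with
  | zero => simp
  | succ j ih =>
    rw [pow_succ, pow_mul, pow_mul, ih, pow_two, pow_two]
    refine m2 ?_
    simp only [mul_add, add_mul, mul_one, one_mul]
    match_scalars <;> decide

theorem pw {S z : R} (h : S * S + 1 = z * S) (c : Commute z S) (j : ℕ) :
    S ^ 2 ^ (j + 1) = 1 + z ^ 2 ^ j * S ^ 2 ^ j := by
  rw [← c.mul_pow, ← h, fr, pow_succ', pow_mul, pow_two, add_comm _ 1, ← add_assoc, as, zero_add]

theorem sm {S T z : R} (h : S * S + 1 = z * S) (c : Commute z S) (h' : T * T + 1 = z * T) (c' : Commute z T) (j : ℕ) :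
    ∃ e, 2 ^ j = e + 1 ∧ S ^ 2 ^ j + T ^ 2 ^ j = z ^ e * (S + T) := by
  induction j with
  | zero => exact ⟨0, rfl, by simp⟩
  | succ j ih =>
    obtain ⟨e, h1, h2⟩ := ih
    refine ⟨2 ^ j + e, by omega, ?_⟩
    rw [pw h c, pw h' c', add_add_add_comm, as, zero_add, ← mul_add, h2, pow_add, mul_assoc]

variable {X Y : R} (hX : X * X = X + 1) (hY : Y * Y = Y + 1)
include hX hY

theorem ids {S z μ T : R} (eS : S = (X + 1) * Y) (ez : z = X + Y + X * Y + Y * X) (eμ : μ = S + 1 + (X + 1) * z)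
    (eT : T = X * S * (X + 1)) : Commute z X ∧ Commute z S ∧ Commute z T ∧ Commute z μ ∧ S * S + 1 = z * S ∧
    T * T + 1 = z * T ∧ X * μ = μ * (X + 1) ∧ μ * μ = z * (1 + z) ∧ S + T = X * μ := by
  have hX' : ∀ a, X * (X * a) = X * a + a := fun a => by rw [← mul_assoc, hX, add_mul, one_mul]
  have hY' : ∀ a, Y * (Y * a) = Y * a + a := fun a => by rw [← mul_assoc, hY, add_mul, one_mul]
  subst eT eμ ez eS
  refine ⟨m2 ?_, m2 ?_, m2 ?_, m2 ?_, m2 ?_, m2 ?_, m2 ?_, m2 ?_, m2 ?_⟩ <;>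
    simp only [mul_add, add_mul, mul_one, one_mul, mul_assoc, hX, hY, hX', hY'] <;> match_scalars <;> decide

end ring

end BPx

open BPx in
theorem bp : BP.{u} := by
  intro H V _ _ _ _ _ ρ h x y hx hy ⟨k, hk⟩
  have t3 : ∀ x : H, orderOf x = 3 → ρ x * ρ x = ρ x + 1 := fun x hx => by
    have := h.three hx
    rwa [add_assoc, add_eq_zero_iff_eq_neg, neg_End] at this
  have hX := t3 x hx
  have xi : ρ x⁻¹ = ρ x + 1 := by
    have : x⁻¹ = x * x := inv_eq_of_mul_eq_one_right (by rw [← pow_three, ← hx, pow_orderOf_eq_one])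
    rw [this, map_mul, hX]
  set σ := x⁻¹ * y with hσ
  obtain ⟨z, ez⟩ : ∃ z, z = ρ x + ρ y + ρ x * ρ y + ρ y * ρ x := ⟨_, rfl⟩
  obtain ⟨μ, eμ⟩ : ∃ μ, μ = ρ σ + 1 + (ρ x + 1) * z := ⟨_, rfl⟩
  obtain ⟨cX, cS, cT, cμ, qS, qT, xμ, μμ, sT⟩ := ids hX (t3 y hy) (S := ρ σ) (T := ρ (x * σ * x⁻¹))
    (by rw [hσ, map_mul, xi]) ez eμ (by rw [map_mul, map_mul, xi])
  have un : ∀ (g : H) (r : Module.End (ZMod 2) V), r * ρ g = 0 → r = 0 := fun g r e => by
    rw [← mul_one r, ← map_one ρ, ← mul_inv_cancel g, map_mul, ← mul_assoc, e, zero_mul]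
  have step : ∀ j : ℕ, σ ^ 2 ^ (j + 2) = 1 → σ ^ 2 ^ (j + 1) = 1 := fun j hj => by
    by_contra t1
    have tt : σ ^ 2 ^ (j + 1) * σ ^ 2 ^ (j + 1) = 1 := by rw [← pow_two, ← pow_mul, ← pow_succ, hj]
    obtain ⟨e, he, hs⟩ := sm qS cS qT cT j
    have a1 : ∀ g : H, ρ g * ρ g + 1 = z * ρ g → Commute z (ρ g) →
        ρ (g ^ 2 ^ (j + 1)) - 1 = z ^ (e + 1) * ρ (g ^ 2 ^ j) := fun g q c => by
      rw [map_pow, map_pow, pw q c, add_sub_cancel_left, he]
    have a2 : ∀ g : H, ρ g * ρ g + 1 = z * ρ g → Commute z (ρ g) →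
        Fix ρ (g ^ 2 ^ (j + 1)) = LinearMap.ker (z ^ (e + 1)) := fun g q c => by
      ext v
      rw [Fix, a1 g q c, map_pow, (c.pow_pow _ _).eq, ← map_pow, LinearMap.mem_ker, LinearMap.mem_ker,
        Module.End.mul_apply, map_eq_zero_iff _ (rho_injective _)]
    have z0 : z ^ (e + 1) * z ^ (e + 1) = 0 := by
      have h1 := pw qS cS (j + 1)
      rw [← map_pow, hj, map_one, left_eq_add, ← map_pow, pow_succ 2, he, mul_two, pow_add] at h1
      exact un _ _ h1
    have hU := h.half _ t1 tt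
    have b1 : z ^ (e + 1) * (z ^ e * μ) = 0 := by
      have h1 : ρ (σ ^ 2 ^ (j + 1) * (x * σ * x⁻¹) ^ 2 ^ (j + 1)) - 1 = ρ x * (z ^ (e + 1) * (z ^ e * μ)) := by
        rw [map_mul, sub_eq_iff_eq_add.1 (a1 _ qS cS), sub_eq_iff_eq_add.1 (a1 _ qT cT), map_pow, map_pow, add_mul,
          mul_add, mul_add, mul_assoc, (cS.pow_pow _ _).symm.left_comm, ← mul_assoc (z ^ (e + 1)), z0, zero_mul, zero_add,
          mul_one, one_mul, one_mul, ← add_assoc, add_sub_cancel_right, ← mul_add, hs, sT,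
          (cX.pow_left e).left_comm, (cX.pow_left _).left_comm]
      have h2 : σ ^ 2 ^ (j + 1) * (x * σ * x⁻¹) ^ 2 ^ (j + 1) ∈ AU ρ (Fix ρ (σ ^ 2 ^ (j + 1))) :=
        mul_mem (mem_AU_Fix _) (mem_AU_iff_le.2 (by rw [a2 _ qS cS, a2 _ qT cT]))
      by_cases h3 : σ ^ 2 ^ (j + 1) * (x * σ * x⁻¹) ^ 2 ^ (j + 1) = 1
      · rw [h3, map_one, sub_self] at h1
        exact LinearMap.ext fun v => rho_injective (ρ := ρ) x ((LinearMap.congr_fun h1 v).symm.trans (map_zero _).symm)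
      have h4 := h.fix _ hU _ h2 h3
      rw [a2 _ qS cS, Fix, h1] at h4
      have h5 : z ^ (e + 1) * μ = 0 := LinearMap.ext fun v => by
        have : μ v ∈ LinearMap.ker (ρ x * (z ^ (e + 1) * (z ^ e * μ))) := by
          rw [LinearMap.mem_ker, ← Module.End.mul_apply, mul_assoc, mul_assoc, mul_assoc, μμ, ← mul_assoc (z ^ e),
            ← pow_succ, ← mul_assoc (z ^ (e + 1)), z0, zero_mul, mul_zero, LinearMap.zero_apply]
        rw [h4] at this
        exact this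
      rw [((Commute.refl z).pow_pow _ _).left_comm, h5, mul_zero]
    have nil : IsNilpotent z := ⟨_, (pow_add _ _ _).trans z0⟩
    obtain ⟨c, hc⟩ := nil.isUnit_one_add.exists_right_inv
    have b2 : ∀ v, ∃ w, (z ^ e * μ) v = (z ^ e * μ * μ) w := fun v => by
      have h1 : (z ^ e * μ) v ∈ Fix ρ (σ ^ 2 ^ (j + 1)) := by
        rw [a2 _ qS cS, LinearMap.mem_ker, ← Module.End.mul_apply, b1, LinearMap.zero_apply]
      rw [← h.rng _ t1 tt, a1 _ qS cS] at h1
      obtain ⟨w, hw⟩ := h1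
      refine ⟨c (ρ (σ ^ 2 ^ j) w), hw.symm.trans ?_⟩
      rw [← Module.End.mul_apply, ← Module.End.mul_apply, mul_assoc _ μ μ, μμ, ← mul_assoc _ z, ← pow_succ,
        mul_assoc _ _ c, hc, mul_one]
    have cν : Commute μ (z ^ e * μ) := (cμ.symm.pow_right e).mul_right (Commute.refl μ)
    have b3 : ∀ (i : ℕ) v, ∃ w, (z ^ e * μ) v = (μ ^ i * (z ^ e * μ)) w := fun i => by
      induction i with
      | zero => exact fun v => ⟨v, by simp⟩
      | succ i ih =>
        intro v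
        obtain ⟨w, hw⟩ := ih v
        obtain ⟨w', hw'⟩ := b2 w
        exact ⟨w', by rw [hw, Module.End.mul_apply, hw', ← cν.eq, ← Module.End.mul_apply, ← mul_assoc, ← pow_succ]⟩
    have b4 : μ ^ (2 * (e + 1 + (e + 1))) = 0 := by
      rw [pow_mul, pow_two, μμ, ((Commute.one_right z).add_right (Commute.refl z)).mul_pow, pow_add, z0, zero_mul]
    have b5 : z ^ e * μ = 0 := LinearMap.ext fun v => by
      obtain ⟨w, hw⟩ := b3 (2 * (e + 1 + (e + 1))) v
      rw [hw, b4, zero_mul, LinearMap.zero_apply, LinearMap.zero_apply]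
    have b6 : z ^ (e + 1) = 0 := by
      rw [← mul_one (z ^ _), ← hc, ← mul_assoc, pow_succ, mul_assoc _ z, ← μμ, ← mul_assoc, b5, zero_mul, zero_mul]
    have b7 := a1 _ qS cS
    rw [b6, zero_mul, sub_eq_zero] at b7
    exact t1 (h.inj (b7.trans (map_one ρ).symm))
  have s2 : σ * σ = 1 := by
    cases k with
    | zero => rw [pow_zero, pow_one] at hk; rw [hk, mul_one]
    | succ k =>
      induction k with
      | zero => rwa [zero_add, pow_one, pow_two] at hk
      | succ k ih => exact ih (step k hk)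
  have z0 : z = 0 := un σ z (by rw [← qS, ← map_mul, s2, map_one, add_self_End])
  rw [z0, mul_zero, add_zero] at eμ
  exact ⟨s2, by rw [sub_End, ← eμ, xi, xμ]⟩

end CL.Ggn
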