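/-
S4841: counting non-zero vectors by orbits and by Sylow subgroups of a normal subgroup.
-/
import Cfsg.Agent.Ggn.Defs
import Cfsg.Agent.Grp.SylowIn

set_option autoImplicit false
set_option linter.unusedSectionVars false

namespace CL.Ggn

open Cfsg Subgroup
open scoped MatrixGroups

universe u

namespace CNT

theorem card_fib {Ω T : Type*} [Finite Ω] [Finite T] (f : Ω → T) (c : ℕ)
    (h : ∀ t, Nat.card {x // f x = t} = c) : Nat.card Ω = Nat.card T * c := by
  have := Fintype.ofFinite T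
  rw [← Nat.card_congr (Equiv.sigmaFiberEquiv f), Nat.card_sigma]
  simp only [h, Finset.sum_const, Finset.card_univ, smul_eq_mul, Nat.card_eq_fintype_card]

theorem card_ne {W : Type*} [Zero W] [Finite W] : Nat.card {w : W // w ≠ 0} = Nat.card W - 1 := by
  classical
  have := Fintype.ofFinite W
  rw [Nat.card_eq_fintype_card, Nat.card_eq_fintype_card, Fintype.card_subtype_compl, Fintype.card_subtype_eq]

variable {p : ℕ} [hp : Fact p.Prime] {H V : Type*} [Group H] [Finite H] [AddCommGroup V] [Module (ZMod p) V] [Finite V]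
  {ρ : H →* Module.End (ZMod p) V}

theorem syl (h : Hyp ρ) (N : Subgroup H) [N.Normal] {v : V} (hv : v ≠ 0) :
    CL.Grp.IsSylowIn p (AU ρ (Submodule.span (ZMod p) {v}) ⊓ N) N := by
  have h1 : IsPGroup p (AU ρ (Submodule.span (ZMod p) {v})) :=
    h.isPGroup_AU (by rwa [Ne, Submodule.span_singleton_eq_bot])
  exact CL.Grp.isSylowIn_inf_normal (h1.toSylow (by rw [h.index_AU_span hv]; exact h.not_dvd)) N

theorem card_syl {N : Subgroup H} {j M : ℕ} (hN : Nat.card N = p ^ j * M) (hM : ¬ p ∣ M) (P : Sylow p N) :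
    Nat.card P = p ^ j ∧ (P : Subgroup N).index = M := by
  have hM0 : M ≠ 0 := by
    rintro rfl
    exact hM (dvd_zero p)
  have h1 : Nat.card P = p ^ j := by
    rw [P.card_eq_multiplicity, hN, Nat.factorization_mul (pow_ne_zero _ hp.out.ne_zero) hM0,
      hp.out.factorization_pow, Finsupp.add_apply, Finsupp.single_eq_same, Nat.factorization_eq_zero_of_not_dvd hM,
      add_zero]
  refine ⟨h1, ?_⟩
  have h2 := (P : Subgroup N).card_mul_index
  rw [h1, hN] at h2
  exact Nat.eq_of_mul_eq_mul_left (pow_pos hp.out.pos _) h2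

/-- the common fixed space of a subgroup of `N` -/
def FixP (ρ : H →* Module.End (ZMod p) V) {N : Subgroup H} (P : Subgroup N) : Submodule (ZMod p) V :=
  ⨅ g : P, Fix ρ ((g : N) : H)

theorem mem_FixP {N : Subgroup H} {P : Subgroup N} {v : V} : v ∈ FixP ρ P ↔ ∀ g ∈ P, ρ (g : N) v = v := by
  simp only [FixP, Submodule.mem_iInf, mem_Fix, Subtype.forall]

theorem card_FixP {N : Subgroup H} (P Q : Sylow p N) :
    Nat.card (FixP ρ (Q : Subgroup N)) = Nat.card (FixP ρ (P : Subgroup N)) := by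
  obtain ⟨g, rfl⟩ := MulAction.exists_smul_eq N P Q
  rw [← card_map_rho (ρ := ρ) (FixP ρ (P : Subgroup N)) g]
  congr 2
  ext v
  rw [mem_map_rho, mem_FixP, mem_FixP]
  refine ⟨fun h a ha => ?_, fun h a ha => ?_⟩
  · have := h (g * a * g⁻¹) ((CL.Grp.mem_sylow_smul_iff g _ P).2 (by
      have e : g⁻¹ * (g * a * g⁻¹) * g = a := by group
      rw [e]; exact ha))
    rw [Subgroup.coe_mul, Subgroup.coe_mul, Subgroup.coe_inv, map_mul, map_mul, Module.End.mul_apply,
      Module.End.mul_apply] at this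
    exact rho_injective (ρ := ρ) g (by rw [this, apply_inv_apply])
  · have := h _ ((CL.Grp.mem_sylow_smul_iff g a P).1 ha)
    rw [Subgroup.coe_mul, Subgroup.coe_mul, Subgroup.coe_inv, map_mul, map_mul, Module.End.mul_apply,
      Module.End.mul_apply, apply_inv_apply] at this
    exact rho_injective (ρ := ρ) _ this

theorem arith {v n w M : ℕ} (h : v - 1 = n * (w - 1)) (hv : 1 < v) (hw : w ∣ v) (hne : w ≠ v) (hn : n ≤ M) :
    v ≤ M ^ 2 := by
  obtain ⟨v, rfl⟩ : ∃ k, v = k + 1 := ⟨v - 1, by omega⟩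
  have hw0 : w ≠ 0 := by
    rintro rfl
    simp at hw
  obtain ⟨w, rfl⟩ : ∃ k, w = k + 1 := ⟨w - 1, by omega⟩
  simp only [Nat.add_sub_cancel] at h
  subst h
  have hn0 : n ≠ 0 := by
    rintro rfl
    simp at hv
  obtain ⟨n, rfl⟩ : ∃ k, n = k + 1 := ⟨n - 1, by omega⟩
  have hn1 : n ≠ 0 := by
    rintro rfl
    simp at hne
  have h1 : w + 1 ∣ n := by
    have e : (n + 1) * (w + 1) = (n + 1) * w + 1 + n := by ring
    exact (Nat.dvd_add_right hw).1 (e ▸ dvd_mul_left _ _)
  have h2 := Nat.le_of_dvd (Nat.pos_of_ne_zero hn1) h1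
  nlinarith

end CNT

theorem cnt0 : CNT0.{u} := by
  intro p hp H V _ _ _ _ _ ρ h N hN j M hc hM W hW
  letI : MulAction N {w : W // w ≠ 0} :=
    { smul := fun g w => ⟨⟨ρ g w.1, hW g g.2 _ w.1.2⟩, fun e => w.2 (Subtype.ext (rho_injective (ρ := ρ) g
        ((congrArg Subtype.val e).trans (map_zero _).symm)))⟩
      one_smul := fun w => Subtype.ext (Subtype.ext (by
        change ρ (1 : H) _ = _
        rw [map_one, Module.End.one_apply]))
      mul_smul := fun a b w => Subtype.ext (Subtype.ext (by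
        change ρ ((a : H) * b) _ = ρ a (ρ b _)
        rw [map_mul, Module.End.mul_apply])) }
  rw [← CNT.card_ne, CNT.card_fib (Quotient.mk (MulAction.orbitRel N {w : W // w ≠ 0})) M]
  · exact dvd_mul_left _ _
  rintro ⟨w⟩
  have hw : (w.1 : V) ≠ 0 := fun e => w.2 (Subtype.ext e)
  have e1 : MulAction.stabilizer N w = ((CNT.syl h N hw).toSylow : Subgroup N) := by
    ext g
    rw [MulAction.mem_stabilizer_iff, CL.Grp.IsSylowIn.coe_toSylow, mem_subgroupOf, mem_inf, mem_AU_span]
    exact ⟨fun e => ⟨congrArg (fun x : {w : W // w ≠ 0} => (x.1 : V)) e, g.2⟩,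
      fun e => Subtype.ext (Subtype.ext e.1)⟩
  rw [← (CNT.card_syl hc hM (CNT.syl h N hw).toSylow).2, ← e1, MulAction.index_stabilizer, ← Nat.card_coe_set_eq]
  exact Nat.card_congr (Equiv.subtypeEquivRight fun x => Quotient.eq.trans MulAction.orbitRel_apply)

theorem cnt : CNT.{u} := by
  intro p hp H V _ _ _ _ _ ρ h N hN j M hc hM hj
  have := h.nt
  obtain ⟨P⟩ : Nonempty (Sylow p N) := inferInstance
  have h1 := CNT.card_fib (fun v : {v : V // v ≠ 0} => (CNT.syl h N v.2).toSylow)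
    (Nat.card (CNT.FixP ρ (P : Subgroup N)) - 1) fun Q => by
      rw [← CNT.card_FixP P Q, ← CNT.card_ne]
      have key : ∀ v : {v : V // v ≠ 0}, (CNT.syl h N v.2).toSylow = Q ↔ v.1 ∈ CNT.FixP ρ (Q : Subgroup N) := by
        intro v
        rw [CNT.mem_FixP]
        refine ⟨fun e g hg => ?_, fun e => ?_⟩
        · rw [← e, CL.Grp.IsSylowIn.coe_toSylow, mem_subgroupOf, mem_inf, mem_AU_span] at hg
          exact hg.1
        · refine Sylow.ext (Q.is_maximal' (CNT.syl h N v.2).toSylow.isPGroup' fun g hg => ?_)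
          rw [CL.Grp.IsSylowIn.coe_toSylow, mem_subgroupOf, mem_inf, mem_AU_span]
          exact ⟨e g hg, g.2⟩
      exact Nat.card_congr
        { toFun := fun v => ⟨⟨v.1.1, (key v.1).1 v.2⟩, fun e => v.1.2 (congrArg Subtype.val e)⟩
          invFun := fun w => ⟨⟨w.1.1, fun e => w.2 (Subtype.ext e)⟩, (key _).2 w.1.2⟩
          left_inv := fun _ => rfl
          right_inv := fun _ => rfl }
  rw [CNT.card_ne] at h1
  obtain ⟨h2, h3⟩ := CNT.card_syl hc hM P
  have hM0 : 0 < M := Nat.pos_of_ne_zero (by rintro rfl; exact hM (dvd_zero p))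
  refine CNT.arith h1 Finite.one_lt_card
    (AddSubgroup.card_addSubgroup_dvd_card (CNT.FixP ρ (P : Subgroup N)).toAddSubgroup) (fun e => ?_)
    (Nat.le_of_dvd hM0 (h3 ▸ P.card_dvd_index))
  have h4 : (CNT.FixP ρ (P : Subgroup N)).toAddSubgroup = ⊤ := AddSubgroup.eq_top_of_card_eq _ e
  have h5 : (P : Subgroup N) = ⊥ := eq_bot_iff.2 fun g hg => by
    refine mem_bot.2 (Subtype.ext (h.inj ?_))
    ext v
    have hv : v ∈ (CNT.FixP ρ (P : Subgroup N)).toAddSubgroup := h4 ▸ AddSubgroup.mem_top v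
    rw [CNT.mem_FixP.1 hv g hg, OneMemClass.coe_one, map_one, Module.End.one_apply]
  rw [h5, card_bot] at h2
  exact hj ((Nat.pow_eq_one.1 h2.symm).resolve_left hp.out.one_lt.ne')

end CL.Ggn
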