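/-
S4841: if the normal subgroup `SL₂(5)` has order prime to `p` then so has the whole group.
-/
import Cfsg.Agent.Ggn.Defs
import Cfsg.Agent.Cls.SLnCard
import Cfsg.Agent.Grp.Cores
import Mathlib.FieldTheory.Finite.Basic

set_option autoImplicit false

namespace CL.Ggn

open Cfsg Subgroup
open scoped MatrixGroups

universe u

namespace COPa

instance : Fact (Nat.Prime 5) := ⟨Nat.prime_five⟩

theorem quat : ∃ i j z : SL(2, ZMod 5), i * i = z ∧ j * j = z ∧ j * i = z * (i * j) ∧ z ≠ 1 ∧ z * z = 1 ∧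
    ∀ g, g * z = z * g :=
  ⟨⟨!![0, 1; -1, 0], by decide⟩, ⟨!![2, 0; 0, 3], by decide⟩, -1, by decide, by decide, by decide, by decide, by simp,
    fun g => by simp⟩

variable {p : ℕ} [hp : Fact p.Prime] {H V : Type*} [Group H] [AddCommGroup V] [Module (ZMod p) V] [Finite V]
  {ρ : H →* Module.End (ZMod p) V}

/-- a quaternion group halves the space -/
theorem half (h2 : p ≠ 2) {i j : H} (hi : ρ i * ρ i = -1) (hj : ρ j * ρ j = -1) (hji : ρ j * ρ i = -(ρ i * ρ j)) :
    ∃ W : Submodule (ZMod p) V, Nat.card W * Nat.card W = Nat.card V ∧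
      ∀ c : H, Commute c i → Commute c j → ∀ w ∈ W, ρ c w ∈ W := by
  obtain ⟨a, b, hab⟩ := ZMod.sq_add_sq p (-1)
  set ε := a • ρ i + b • ρ j with hε
  have e1 : ε * ε = 1 := by
    have : ε * ε = (a ^ 2 + b ^ 2) • (-1) := by
      simp only [hε, mul_add, add_mul, smul_mul_assoc, mul_smul_comm, hi, hj, hji]
      module
    rw [this, hab]; simp
  have e2 : ε * ρ (i * j) = -(ρ (i * j) * ε) := by
    have k1 : ρ i * ρ j * ρ i = ρ j := by rw [mul_assoc, hji, mul_neg, ← mul_assoc, hi]; simp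
    have k2 : ρ j * (ρ i * ρ j) = ρ i := by rw [← mul_assoc, hji, neg_mul, mul_assoc, hj]; simp
    have k3 : ρ i * (ρ i * ρ j) = -ρ j := by rw [← mul_assoc, hi]; simp
    have k4 : ρ i * ρ j * ρ j = -ρ i := by rw [mul_assoc, hj]; simp
    simp only [hε, map_mul, mul_add, add_mul, smul_mul_assoc, mul_smul_comm, k1, k2, k3, k4]
    module
  have e3 : ∀ v, ε (ρ (i * j) v) = -ρ (i * j) (ε v) := fun v => LinearMap.congr_fun e2 v
  have mem : ∀ v, v ∈ LinearMap.ker (ε - 1) ↔ ε v = v := fun v => by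
    rw [LinearMap.mem_ker, LinearMap.sub_apply, Module.End.one_apply, sub_eq_zero]
  have two : (2 : ZMod p) ≠ 0 := fun e => h2 ((Nat.prime_dvd_prime_iff_eq hp.out Nat.prime_two).1
    ((ZMod.natCast_eq_zero_iff 2 p).1 e))
  have e4 : (LinearMap.ker (ε - 1)).map (ρ (i * j)) = LinearMap.range (ε - 1) := by
    refine le_antisymm ?_ ?_
    · rintro _ ⟨w, hw, rfl⟩
      refine ⟨(-2 : ZMod p)⁻¹ • ρ (i * j) w, ?_⟩
      rw [map_smul, LinearMap.sub_apply, e3, (mem w).1 hw, Module.End.one_apply, ← neg_add', ← two_smul (ZMod p),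
        ← neg_smul, smul_smul, inv_mul_cancel₀ (neg_ne_zero.2 two), one_smul]
    · rintro _ ⟨v, rfl⟩
      refine mem_map_rho.2 ((mem _).2 (rho_injective (ρ := ρ) (i * j) ?_))
      rw [← neg_neg (ρ (i * j) (ε _)), ← e3, apply_inv_apply, ← Module.End.mul_apply, mul_sub, e1]
      simp
  refine ⟨LinearMap.ker (ε - 1), ?_, fun c h1 h2 w hw => (mem _).2 ?_⟩
  · have := Submodule.card_eq_card_quotient_mul_card (LinearMap.ker (ε - 1))
    rw [Nat.card_congr (LinearMap.quotKerEquivRange (ε - 1)).toEquiv, ← e4, card_map_rho] at this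
    exact this.symm
  · have : Commute (ρ c) ε := ((h1.map ρ).smul_right a).add_right ((h2.map ρ).smul_right b)
    rw [← Module.End.mul_apply, ← this.eq, Module.End.mul_apply, (mem w).1 hw]

omit [Finite V] in
theorem fix_ne_bot [Nontrivial V] {g : H} (hg : g ^ p = 1) : Fix ρ g ≠ ⊥ := fun h => by
  have : CharP (Module.End (ZMod p) V) p := charP_of_injective_algebraMap (algebraMap (ZMod p) _).injective p
  have h1 : (ρ g - 1) ^ p = 0 := by
    rw [sub_pow_char_of_commute p (Commute.one_right _), ← map_pow, hg, map_one, one_pow, sub_self]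
  have h2 := (LinearMap.ker_eq_bot.1 h).iterate p
  obtain ⟨v, hv⟩ := exists_ne (0 : V)
  refine hv (h2 ?_)
  rw [← Module.End.pow_apply, ← Module.End.pow_apply, h1]
  rfl

theorem num {p m : ℕ} (hp : p.Prime) (h : ¬ p ∣ 120) (h1 : m ≠ 0) (h2 : p ^ m + 1 ∣ 120) : m = 1 ∧ p < 120 := by
  have k := Nat.le_of_dvd (by decide) h2
  have k1 : p ≤ p ^ m := Nat.le_self_pow h1 p
  refine ⟨by_contra fun k2 => ?_, by omega⟩
  have k3 : p ^ 2 ≤ p ^ m := Nat.pow_le_pow_right hp.pos (by omega)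
  have k4 : p < 11 := by nlinarith
  have k5 : p = 7 := by
    interval_cases p <;> first | rfl | exact absurd hp (by decide) | exact absurd (by decide) h
  subst k5
  have k6 : m < 3 := (Nat.pow_lt_pow_iff_right (by decide : 1 < 7)).1 (by omega)
  obtain rfl : m = 2 := by omega
  exact absurd h2 (by decide)

end COPa

open COPa in
theorem cop (h0 : CNT0.{u}) (h1 : OUT.{u}) : COP.{u} := by
  rintro p hp H V _ _ _ _ _ ρ h L hL ⟨e⟩ hpL hpH
  have := h.nt
  have cL : Nat.card L = 120 := by rw [Nat.card_congr e.toEquiv, CL.SLn.card_SL_two, ZMod.card]; rfl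
  rw [cL] at hpL
  have p2 : p ≠ 2 := by rintro rfl; exact hpL (by decide)
  obtain ⟨i, j, z, hi, hj, hji, z1, z2, zc⟩ := quat
  let f : SL(2, ZMod 5) →* H := L.subtype.comp e.symm.toMonoidHom
  have hf : Function.Injective f := Subtype.val_injective.comp e.symm.injective
  have fL : ∀ x, f x ∈ L := fun x => (e.symm x).2
  have f1 : f z ≠ 1 := fun k => z1 (hf (k.trans (map_one f).symm))
  have f2 : f z * f z = 1 := by rw [← map_mul, z2, map_one]
  have hz := h.invol (hp.out.odd_of_ne_two p2) f1 f2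
  obtain ⟨W, cW, hW⟩ := half (ρ := ρ) p2 (i := f i) (j := f j) (by rw [← map_mul, ← map_mul, hi, hz])
    (by rw [← map_mul, ← map_mul, hj, hz]) (by rw [← map_mul, ← map_mul, hji, map_mul, map_mul, hz]; simp)
  set C := centralizer (L : Set H) with hC
  obtain ⟨a, M, hM, cC⟩ := Nat.exists_eq_pow_mul_and_not_dvd (Nat.card_pos (α := C)).ne' p hp.out.ne_one
  have d1 := h0 ρ h C inferInstance a M cC hM W fun c hc => hW c (hc _ (fL i)).symm (hc _ (fL j)).symm
  have d2 : Nat.card H ∣ 120 * Nat.card C := by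
    have k1 := (h1 L (ZMod 5) 5 1 hL Nat.prime_five (by simp) (by simp) ⟨e⟩).1
    have k2 : 2 ∣ Nat.card (L ⊓ C : Subgroup H) := by
      have := Fact.mk Nat.prime_two
      rw [← orderOf_eq_prime (p := 2) (by rw [pow_two, f2]) f1]
      refine (L ⊓ C).orderOf_dvd_natCard ⟨fL z, fun x hx => ?_⟩
      have : x = f (e ⟨x, hx⟩) := by simp [f]
      rw [this, ← map_mul, zc, map_mul]
    rw [← cL, ← CL.Grp.card_sup_mul_card_inf_of_normal, ← (L ⊔ C).card_mul_index]
    exact Nat.mul_dvd_mul_left _ (k1.trans k2)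
  obtain ⟨k, hk⟩ := h.card
  have w1 : 1 < Nat.card W := by
    have k1 : 1 < Nat.card V := Finite.one_lt_card
    by_contra k2
    have := Nat.mul_le_mul (not_lt.1 k2) (not_lt.1 k2)
    omega
  have d3 : Nat.card W + 1 ∣ 120 := by
    have k1 : Nat.card V - 1 ∣ p ^ a * (120 * (Nat.card W - 1)) :=
      (Dvd.intro_left _ hk.symm).trans (d2.trans (by
        rw [cC, mul_left_comm]
        exact Nat.mul_dvd_mul_left _ (Nat.mul_dvd_mul_left _ d1)))
    have k2 := (((Nat.Prime.coprime_iff_not_dvd hp.out).2 h.not_dvd).symm.pow_right a).dvd_of_dvd_mul_left k1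
    rw [← cW, ← mul_one 1, Nat.mul_self_sub_mul_self_eq, mul_one] at k2
    exact Nat.dvd_of_mul_dvd_mul_right (by omega) k2
  rw [exists_card_V (p := p) (V := W)] at d3 w1
  obtain ⟨m1, p120⟩ := num hp.out hpL (fun k => by simp [k] at w1) d3
  rw [exists_card_V (p := p) (V := W), m1, pow_one, ← pow_two, exists_card_V (p := p)] at cW
  have n2 := Nat.pow_right_injective hp.out.two_le cW
  obtain ⟨g, hg⟩ := exists_prime_orderOf_dvd_card' (G := C) p ((hp.out.dvd_mul.1 (hpH.trans d2)).resolve_left hpL)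
  have d4 := h0 ρ h L hL 0 120 (by simpa using cL) hpL (Fix ρ g) fun x hx w hw => mem_Fix.2 (by
    rw [← Module.End.mul_apply, ← map_mul, ← g.2 x hx, map_mul, Module.End.mul_apply, mem_Fix.1 hw])
  have g0 : Fix ρ (g : H) ≠ ⊥ := fix_ne_bot (by rw [← coe_pow, ← hg, pow_orderOf_eq_one, coe_one])
  have g1 : Fix ρ (g : H) ≠ ⊤ := fun k => by
    have : (g : H) = 1 := h.inj (LinearMap.ext fun v => by simpa using mem_Fix.1 (k.ge (Submodule.mem_top (x := v))))
    rw [show g = 1 from Subtype.ext this, orderOf_one] at hg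
    exact hp.out.one_lt.ne hg
  have : Module.Finite (ZMod p) V := Module.Finite.of_finite
  have r1 := Submodule.finrank_lt g1
  have r2 := mt Submodule.finrank_eq_zero.1 g0
  rw [exists_card_V (p := p), show Module.finrank (ZMod p) (Fix ρ (g : H)) = 1 by omega, pow_one] at d4
  have := Nat.le_of_dvd (by have := hp.out.two_le; omega) d4
  omega

end CL.Ggn
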