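/-
Project GGN, case I: a half space whose pointwise stabiliser has order at least four and commutes with no conjugate.
-/
import Cfsg.Agent.Ggn.Defs

set_option autoImplicit false

namespace CL.Ggn

open Cfsg Subgroup
open scoped MatrixGroups

universe u

namespace CPIJ

variable {H V : Type*} [Group H] [AddCommGroup V] [Module (ZMod 2) V] {ρ : H →* Module.End (ZMod 2) V}
  {x σ x' σ' k a : H}

/-- an element of order 3 and an involution in the position of `A₄` -/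
structure Tr (ρ : H →* Module.End (ZMod 2) V) (x σ : H) : Prop where
  x3 : orderOf x = 3
  s1 : σ ≠ 1
  ss : σ * σ = 1
  rel : ρ x * (ρ σ - 1) = (ρ σ - 1) * ρ x⁻¹

theorem mi (g : H) : ρ g * ρ g⁻¹ = 1 := by rw [← map_mul, mul_inv_cancel, map_one]
theorem im (g : H) : ρ g⁻¹ * ρ g = 1 := by rw [← map_mul, inv_mul_cancel, map_one]

theorem rho_conj (g a : H) : ρ (g * a * g⁻¹) - 1 = ρ g * (ρ a - 1) * ρ g⁻¹ := by
  rw [mul_sub, sub_mul, mul_one, mi, map_mul, map_mul]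

theorem cm (h : Commute k a) : ρ k * (ρ a - 1) = (ρ a - 1) * ρ k :=
  ((h.map ρ).sub_right (Commute.one_right _)).eq

theorem Y_eq (h : Fp ρ) (hx : orderOf x = 3) : ρ x⁻¹ = ρ x + 1 := by
  have := congrArg (ρ x⁻¹ * ·) (h.three hx)
  simp only [mul_add, mul_zero, mul_one, ← mul_assoc, im, one_mul] at this
  rw [← neg_End (ρ x + 1)]
  exact eq_neg_of_add_eq_zero_right this

theorem YY (hx : orderOf x = 3) : ρ x⁻¹ * ρ x⁻¹ = ρ x := by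
  have h3 : x * x * x = 1 := by rw [← pow_three', ← hx, pow_orderOf_eq_one]
  rw [← map_mul]
  congr 1
  calc x⁻¹ * x⁻¹ = x⁻¹ * x⁻¹ * (x * x * x) := by rw [h3, mul_one]
    _ = x := by group

theorem Tr.rel' (t : Tr ρ x σ) : ρ x⁻¹ * (ρ σ - 1) = (ρ σ - 1) * ρ x := by
  calc ρ x⁻¹ * (ρ σ - 1) = ρ x⁻¹ * ((ρ σ - 1) * ρ x⁻¹) * ρ x := by
        rw [mul_assoc, mul_assoc, im, mul_one]
    _ = _ := by rw [← t.rel, ← mul_assoc, im, one_mul]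

theorem Tr.inv (t : Tr ρ x σ) : Tr ρ x⁻¹ σ :=
  ⟨by rw [orderOf_inv, t.x3], t.s1, t.ss, by rw [inv_inv, t.rel']⟩

theorem Tr.conj (t : Tr ρ x σ) (g : H) : Tr ρ (g * x * g⁻¹) (g * σ * g⁻¹) := by
  refine ⟨(MulEquiv.orderOf_eq (MulAut.conj g) x).trans t.x3, fun e => t.s1 (by simpa using e), ?_, ?_⟩
  · rw [show g * σ * g⁻¹ * (g * σ * g⁻¹) = g * (σ * σ) * g⁻¹ by group, t.ss]; group
  · rw [rho_conj, show (g * x * g⁻¹)⁻¹ = g * x⁻¹ * g⁻¹ by group]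
    simp only [map_mul]
    calc ρ g * ρ x * ρ g⁻¹ * (ρ g * (ρ σ - 1) * ρ g⁻¹)
        = ρ g * (ρ x * (ρ g⁻¹ * ρ g) * (ρ σ - 1)) * ρ g⁻¹ := by simp only [mul_assoc]
      _ = ρ g * ((ρ σ - 1) * (ρ g⁻¹ * ρ g) * ρ x⁻¹) * ρ g⁻¹ := by rw [im, mul_one, mul_one, t.rel]
      _ = _ := by simp only [mul_assoc]

theorem Tr.conj_eq (t : Tr ρ x σ) : ρ (x * σ * x⁻¹) - 1 = ρ x⁻¹ * (ρ σ - 1) := by
  rw [rho_conj, t.rel, mul_assoc, YY t.x3, t.rel']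

theorem Tr.mem (h : Hyp2 ρ) (t : Tr ρ x σ) : a ∈ AU ρ (Fix ρ σ) ↔ ρ a * (ρ σ - 1) = ρ σ - 1 := by
  rw [← h.rng σ t.s1 t.ss, mem_AU_range, sub_mul, one_mul, sub_eq_zero]

theorem Tr.norm (h : Hyp2 ρ) (t : Tr ρ x σ) (ha : a ∈ AU ρ (Fix ρ σ)) : x * a * x⁻¹ ∈ AU ρ (Fix ρ σ) := by
  rw [t.mem h] at ha ⊢
  rw [map_mul, map_mul, mul_assoc, t.rel', mul_assoc, ← mul_assoc (ρ a), ha, ← mul_assoc, t.rel, mul_assoc, im,
    mul_one]

theorem Tr.b (h : Hyp2 ρ) (t : Tr ρ x σ) (h1 : Commute k σ) (h2 : Commute k (x * σ * x⁻¹)) :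
    x * k * x⁻¹ * k⁻¹ ∈ AU ρ (Fix ρ σ) := by
  have e := cm (ρ := ρ) h2
  rw [t.conj_eq] at e
  rw [t.mem h, map_mul, map_mul, map_mul, mul_assoc, cm h1.inv_left]
  calc ρ x * ρ k * ρ x⁻¹ * ((ρ σ - 1) * ρ k⁻¹) = ρ x * (ρ k * (ρ x⁻¹ * (ρ σ - 1))) * ρ k⁻¹ := by
        simp only [mul_assoc]
    _ = ρ x * ρ x⁻¹ * (ρ σ - 1) * (ρ k * ρ k⁻¹) := by rw [e]; simp only [mul_assoc]
    _ = _ := by rw [mi, mi, one_mul, mul_one]

variable [Finite H]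

theorem Tr.ne (h : Hyp2 ρ) (t : Tr ρ x σ) : ρ σ - 1 ≠ 0 := fun e =>
  t.s1 (h.inj (by rw [map_one]; exact sub_eq_zero.1 e))

theorem Tr.ne_conj (h : Hyp2 ρ) (t : Tr ρ x σ) : x * σ * x⁻¹ ≠ σ := fun e => by
  have h1 := t.conj_eq
  rw [e, Y_eq h.toFp t.x3, add_mul, one_mul] at h1
  have h2 : ρ x * (ρ σ - 1) = 0 := by simpa using h1
  have h3 := congrArg (ρ x⁻¹ * ·) h2
  simp only [← mul_assoc, im, one_mul, mul_zero] at h3
  exact t.ne h h3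

theorem Tr.four (h : Hyp2 ρ) (t : Tr ρ x σ) : 4 ≤ Nat.card (AU ρ (Fix ρ σ)) := by
  classical
  have m1 := mem_AU_Fix (ρ := ρ) σ
  have m2 := t.norm h m1
  have m3 := t.inv.norm h m1
  have n1 := t.ne_conj h
  have n2 := t.inv.ne_conj h
  have n3 : x * σ * x⁻¹ ≠ 1 := fun e => t.s1 (by simpa using e)
  have n4 : x⁻¹ * σ * x⁻¹⁻¹ ≠ 1 := fun e => t.s1 (by
    rw [show σ = x * (x⁻¹ * σ * x⁻¹⁻¹) * x⁻¹ by group, e]; group)
  have n5 : x * σ * x⁻¹ ≠ x⁻¹ * σ * x⁻¹⁻¹ := fun e => by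
    have h1 := t.conj_eq
    rw [e, t.inv.conj_eq, inv_inv, Y_eq h.toFp t.x3, add_mul, one_mul] at h1
    exact t.ne h (by simpa using h1)
  have := Fintype.ofFinite (AU ρ (Fix ρ σ))
  have hc : ({1, ⟨σ, m1⟩, ⟨_, m2⟩, ⟨_, m3⟩} : Finset (AU ρ (Fix ρ σ))).card = 4 := by
    rw [Finset.card_insert_of_notMem, Finset.card_insert_of_notMem, Finset.card_pair]
    · exact fun e => n5 (congrArg Subtype.val e)
    · simp only [Finset.mem_insert, Finset.mem_singleton, not_or]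
      exact ⟨fun e => n1 (congrArg Subtype.val e).symm, fun e => n2 (congrArg Subtype.val e).symm⟩
    · simp only [Finset.mem_insert, Finset.mem_singleton, not_or]
      exact ⟨fun e => t.s1 (congrArg Subtype.val e).symm, fun e => n3 (congrArg Subtype.val e).symm,
        fun e => n4 (congrArg Subtype.val e).symm⟩
  rw [Nat.card_eq_fintype_card, ← hc]
  exact Finset.card_le_univ _

/-- a common vector -/
theorem vec (h : Hyp2 ρ) (t : Tr ρ x σ) (t' : Tr ρ x' σ')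
    (hc : ∀ a ∈ AU ρ (Fix ρ σ), ∀ b ∈ AU ρ (Fix ρ σ'), Commute a b) (hn : σ ∉ AU ρ (Fix ρ σ')) :
    ∃ y, Tr ρ y σ' ∧ ∃ v ∈ Fix ρ σ, v ≠ 0 ∧ ρ y v = ρ x v := by
  have m1 := mem_AU_Fix (ρ := ρ) σ
  have m1' := mem_AU_Fix (ρ := ρ) σ'
  have key : ∀ a ∈ AU ρ (Fix ρ σ), ρ x' * ((ρ σ' - 1) * (ρ a - 1)) * ρ x' = (ρ σ' - 1) * (ρ a - 1) := by
    intro a ha
    have hb := t'.inv.b h (hc a ha _ m1') (hc a ha _ (t'.inv.norm h m1'))
    have q := h.quad _ (h.half σ' t'.s1 t'.ss) _ m1' _ hb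
    rw [mul_sub, mul_one, sub_eq_zero, inv_inv] at q
    have e1 : (ρ σ' - 1) * ρ x'⁻¹ * ρ a * ρ x' = (ρ σ' - 1) * ρ a := by
      conv_rhs => rw [← q]
      simp only [map_mul, mul_assoc, im, mul_one]
    have e2 : ρ x' * (ρ σ' - 1) * ρ x' = ρ σ' - 1 := by rw [t'.rel, mul_assoc, im, mul_one]
    rw [← t'.rel] at e1
    rw [mul_sub (ρ σ' - 1), mul_one, mul_sub, sub_mul, e2, ← mul_assoc, e1]
  have k1 := key σ m1
  have k2 := key _ (t.inv.norm h m1)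
  have c1 : (ρ σ' - 1) * (ρ σ - 1) = (ρ σ - 1) * (ρ σ' - 1) := by
    rw [sub_mul, cm (hc _ m1 _ m1').symm, one_mul, mul_sub (ρ σ - 1), mul_one]
  have c2 : (ρ σ' - 1) * (ρ (x⁻¹ * σ * x⁻¹⁻¹) - 1) = ρ x * ((ρ σ - 1) * (ρ σ' - 1)) := by
    rw [sub_mul, cm (hc _ (t.inv.norm h m1) _ m1').symm, one_mul, t.inv.conj_eq, inv_inv, ← mul_assoc,
      mul_sub (ρ x * (ρ σ - 1)), mul_one]
  rw [c1] at k1
  rw [c2] at k2
  obtain ⟨ψ, hψ⟩ : ∃ ψ, ψ = (ρ σ - 1) * (ρ σ' - 1) := ⟨_, rfl⟩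
  have ψ0 : ψ ≠ 0 := fun e => hn (by rw [← h.rng σ' t'.s1 t'.ss, mem_AU_range, ← hψ, e])
  have ψU : ∀ w, ψ w ∈ Fix ρ σ := fun w => by rw [← h.rng σ t.s1 t.ss, hψ]; exact ⟨_, rfl⟩
  rw [← hψ] at k1 k2
  have k3 : ψ * ρ x' = ρ x'⁻¹ * ψ := by
    conv_rhs => rw [← k1]
    rw [← mul_assoc, ← mul_assoc, im, one_mul]
  have k4 : ρ x * (ρ x'⁻¹ * ψ) = ρ x'⁻¹ * (ρ x * ψ) := by
    conv_rhs => rw [← k2]
    rw [← k3]; simp only [← mul_assoc, im, one_mul]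
  have k5 : (ρ x + ρ x') * ((ρ x + ρ x'⁻¹) * ψ) = 0 := by
    have y1 := Y_eq h.toFp t'.x3
    have k6 : ρ x' * (ρ x * ψ) = ρ x * (ρ x' * ψ) := by
      rw [y1, add_mul, add_mul, one_mul, one_mul, mul_add] at k4
      exact (add_right_cancel k4).symm
    have k7 : ρ x' * (ρ x'⁻¹ * ψ) = ψ := by rw [← mul_assoc, mi, one_mul]
    have k8 := congrArg (· * ψ) (h.toFp.three t.x3)
    simp only [add_mul, zero_mul, one_mul, mul_assoc] at k8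
    rw [add_mul, add_mul, mul_add, mul_add, k6, k7, y1, add_mul, one_mul, mul_add]
    calc _ = ρ x * (ρ x * ψ) + ρ x * ψ + ψ + (ρ x * (ρ x' * ψ) + ρ x * (ρ x' * ψ)) := by abel
      _ = 0 := by rw [k8, add_self_End, add_zero]
  have flip : ∀ a b : V, a + b = 0 → b = a := fun a b e => by
    rw [← add_zero b, ← e, add_comm a, ← add_assoc, add_self_V, zero_add]
  by_cases e : (ρ x + ρ x'⁻¹) * ψ = 0
  · obtain ⟨w, hw⟩ := DFunLike.ne_iff.1 ψ0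
    exact ⟨x'⁻¹, t'.inv, ψ w, ψU w, hw, flip _ _ (LinearMap.congr_fun e w)⟩
  · obtain ⟨w, hw⟩ := DFunLike.ne_iff.1 e
    refine ⟨x', t', _, ?_, hw, flip _ _ (LinearMap.congr_fun k5 w)⟩
    rw [add_mul, ← k3, LinearMap.add_apply]
    refine add_mem ?_ (ψU _)
    rw [← h.rng σ t.s1 t.ss, hψ, ← mul_assoc, t.rel]
    exact ⟨_, rfl⟩

end CPIJ

open CPIJ in
theorem cpi (hB : BP.{u}) : CPI.{u} := by
  intro H V _ _ _ _ _ ρ h hC
  obtain ⟨x, y, hx, hy, hk, hne⟩ : ∃ x y : H, orderOf x = 3 ∧ orderOf y = 3 ∧ (∃ k : ℕ, (x⁻¹ * y) ^ 2 ^ k = 1) ∧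
      x ≠ y := by
    by_contra hh
    exact hC fun x y hx hy hk => by_contra fun e => hh ⟨x, y, hx, hy, hk, e⟩
  obtain ⟨b1, b2⟩ := hB ρ h x y hx hy hk
  obtain ⟨σ, rfl⟩ : ∃ σ, y = x * σ := ⟨x⁻¹ * y, by group⟩
  rw [inv_mul_cancel_left] at b1 b2
  have t : Tr ρ x σ := ⟨hx, fun e => hne (by rw [e, mul_one]), b1, b2⟩
  have hU := h.half σ t.s1 t.ss
  refine ⟨Fix ρ σ, hU, t.four h, fun g hc => ?_⟩
  rw [← Fix_conj] at hc ⊢
  have t0 := t.conj g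
  generalize g * σ * g⁻¹ = σ' at hc t0 ⊢
  have hU' := h.half σ' t0.s1 t0.ss
  by_contra ne
  have one : ∀ a ∈ AU ρ (Fix ρ σ), a ∈ AU ρ (Fix ρ σ') → a = 1 := fun a ha ha' =>
    by_contra fun e => ne ((h.fix _ hU' a ha' e).symm.trans (h.fix _ hU a ha e))
  have m1 := mem_AU_Fix (ρ := ρ) σ
  have m1' := mem_AU_Fix (ρ := ρ) σ'
  obtain ⟨z, t', v, hv, v0, e⟩ := vec h t t0 hc fun m => t.s1 (one σ m1 m)
  have f1 : ρ (x⁻¹ * z) v = v := by rw [map_mul, Module.End.mul_apply, e, inv_apply_apply]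
  have f2 : ρ ((x * σ)⁻¹ * z) v = v := by
    rw [mul_inv_rev, mul_assoc, map_mul, Module.End.mul_apply, f1]
    exact inv_mem m1 v hv
  have g1 := (hB ρ h x z hx t'.x3 (h.stab _ v v0 f1)).1
  have g2 := (hB ρ h (x * σ) z hy t'.x3 (h.stab _ v v0 f2)).1
  obtain ⟨s, rfl⟩ : ∃ s, z = x * s := ⟨x⁻¹ * z, by group⟩
  rw [inv_mul_cancel_left] at g1
  rw [show (x * σ)⁻¹ * (x * s) = σ⁻¹ * s by group, inv_eq_of_mul_eq_one_right t.ss] at g2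
  have cs : s * σ * s⁻¹ = σ := by
    rw [inv_eq_of_mul_eq_one_right g1]
    calc s * σ * s = σ * σ * (s * σ * s) := by rw [t.ss, one_mul]
      _ = σ * (σ * s * (σ * s)) := by group
      _ = σ := by rw [g2, mul_one]
  have hb := t'.b h (hc σ m1 _ m1') (hc σ m1 _ (t'.norm h m1'))
  rw [show x * s * σ * (x * s)⁻¹ * σ⁻¹ = x * (s * σ * s⁻¹) * x⁻¹ * σ⁻¹ by group, cs] at hb
  exact t.ne_conj h (mul_inv_eq_one.1 (one _ (mul_mem (t.norm h m1) (inv_mem m1)) hb))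

end CL.Ggn
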