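/-
S4841 (Gagola, non-solvable case): passing to the central quotient, and lifting `PSL₂(2 ^ a)`.
-/
import Cfsg.Agent.Ggn.Defs
import Cfsg.Agent.Low.Tools
import Cfsg.Agent.Perm.SpecGL2
import Cfsg.Agent.S2086

set_option autoImplicit false

namespace CL.Ggn

open Cfsg Subgroup
open scoped MatrixGroups

universe u

namespace DESCx

theorem exists_sect {X Y : Type*} [Group X] [Finite X] [Group Y] (f : X →* Y) (hf : Function.Surjective f)
    (B : Subgroup Y) (h : (Nat.card f.ker).Coprime (Nat.card B)) :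
    ∃ A : Subgroup X, Nat.card A = Nat.card B ∧ A.map f = B := by
  let g := f.comp (B.comap f).subtype
  have hr : g.range = B := by
    rw [MonoidHom.range_comp, range_subtype, map_comap_eq_self_of_surjective hf]
  have hi : g.ker.index = Nat.card B := by rw [index_ker, hr]
  have hd : Nat.card g.ker ∣ Nat.card f.ker := by
    rw [← card_map_of_injective (B.comap f).subtype_injective]
    refine card_dvd_of_le ?_
    rintro _ ⟨x, hx, rfl⟩
    exact hx
  obtain ⟨H, hH⟩ := exists_right_complement'_of_coprime (N := g.ker) (hi ▸ h.coprime_dvd_left hd)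
  refine ⟨H.map (B.comap f).subtype, ?_, ?_⟩
  · rw [card_map_of_injective (B.comap f).subtype_injective, ← hH.symm.index_eq_card, hi]
  · rw [map_map]
    refine Eq.trans ?_ hr
    rw [MonoidHom.range_eq_map, ← hH.sup_eq_top, Subgroup.map_sup, (Subgroup.map_eq_bot_iff _).2 le_rfl, bot_sup_eq]

end DESCx

theorem desc : DESC.{u} := by
  intro X _ _ hZ hPQ hC
  have : Fact (Nat.Prime 2) := ⟨Nat.prime_two⟩
  obtain ⟨j, hj⟩ := hZ.exists_card_eq
  have hco : ∀ n : ℕ, n.Coprime 2 → (Nat.card (center X)).Coprime n := fun n hn => hj ▸ (hn.symm.pow_left j)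
  refine ⟨fun K hK B r s hr hs hB => ?_, fun x y hx hy ⟨k, hk⟩ => ?_⟩
  · have hc : Nat.card (B.map K.subtype) = Nat.card B := card_map_of_injective K.subtype_injective
    have hB2 : (Nat.card B).Coprime 2 := hK.coprime_dvd_left B.card_subgroup_dvd_card
    obtain ⟨A, hA, hA'⟩ := DESCx.exists_sect (QuotientGroup.mk' (center X)) (QuotientGroup.mk'_surjective _)
      (B.map K.subtype) (by rw [QuotientGroup.ker_mk', hc]; exact hco _ hB2)
    have h1 := hPQ A (by rw [hA, hc]; exact hB2) ⊤ r s hr hs (by rw [card_top, hA, hc, hB])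
    have h2 : IsCyclic A := isCyclic_of_surjective topEquiv (topEquiv (G := A)).surjective
    have h3 : IsCyclic (A.map (QuotientGroup.mk' (center X))) :=
      isCyclic_of_surjective _ (MonoidHom.subgroupMap_surjective _ A)
    rw [hA'] at h3
    exact isCyclic_of_surjective _ (B.equivMapOfInjective _ K.subtype_injective).symm.surjective
  · have : Fact (Nat.Prime 3) := ⟨Nat.prime_three⟩
    have key : ∀ x : X ⧸ center X, orderOf x = 3 → ∃ a : X, (a : X ⧸ center X) = x ∧ orderOf a = 3 := fun x hx => by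
      obtain ⟨a, rfl, ha⟩ := CL.Low.exists_lift (hco 3 (by norm_num)) x (hx ▸ pow_orderOf_eq_one x)
      refine ⟨a, rfl, orderOf_eq_prime ha ?_⟩
      rintro rfl
      rw [QuotientGroup.mk_one, orderOf_one] at hx
      omega
    obtain ⟨a, rfl, ha⟩ := key x hx
    obtain ⟨b, rfl, hb⟩ := key y hy
    rw [← QuotientGroup.mk_inv, ← QuotientGroup.mk_mul, ← QuotientGroup.mk_pow, QuotientGroup.eq_one_iff] at hk
    obtain ⟨m, hm⟩ := hZ ⟨_, hk⟩
    have hm : ((a⁻¹ * b) ^ 2 ^ k) ^ 2 ^ m = 1 := congrArg Subtype.val hm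
    rw [hC a b ha hb ⟨k + m, by rw [pow_add, pow_mul, hm]⟩]

theorem lift : LIFT.{u} := by
  intro X _ _ K _ _ a ha hK hX ⟨e⟩
  have : Fact (Nat.Prime 2) := ⟨Nat.prime_two⟩
  have : CharP K 2 := charP_of_card_eq_prime_pow hK
  have h8 : 2 ^ 3 ≤ 2 ^ a := Nat.pow_le_pow_right (by norm_num) ha
  have h2 : 2 ∣ 2 ^ a := dvd_pow_self 2 (by omega)
  have hm := (Cfsg.Agent.S2086.result hK 2 le_rfl (fun _ => by omega) (by
    simp only [Set.mem_insert_iff, Set.mem_singleton_iff, Prod.mk.injEq]
    omega)).2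
  have hg : Nat.gcd 2 (2 ^ a - 1) = 1 := (Nat.Prime.coprime_iff_not_dvd Nat.prime_two).2 (by omega)
  rw [hg] at hm
  let ε : Shrink.{0} X ≃* X := Shrink.mulEquiv
  have : Finite (Shrink.{0} X) := Finite.of_equiv X ε.symm.toEquiv
  let τ : X →* PSL(2, K) := e.toMonoidHom.comp (QuotientGroup.mk' (center X))
  have hτ : Function.Surjective τ := e.surjective.comp (QuotientGroup.mk'_surjective _)
  have hker : ∀ x, τ x = 1 ↔ x ∈ center X := fun x =>
    (map_eq_one_iff e e.injective).trans (QuotientGroup.eq_one_iff x)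
  have hp : Group.IsPerfect X := Group.isPerfect_def.2 hX
  have hp' : Group.IsPerfect (Shrink.{0} X) := Group.IsPerfect.ofSurjective (f := ε.symm.toMonoidHom) ε.symm.surjective
  obtain ⟨π, hπ⟩ := hm (Shrink.{0} X) (τ.comp ε.toMonoidHom) ⟨hτ.comp ε.surjective, fun x hx =>
    mem_center_iff.2 fun y => ε.injective (by
      rw [map_mul, map_mul]
      exact mem_center_iff.1 ((hker _).1 hx) _), fun x _ => Group.IsPerfect.mem_commutator⟩
  have hs : Subsingleton (Multiplicative (ZMod 1)) := inferInstanceAs (Subsingleton (Fin 1))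
  have hinj : Function.Injective τ := by
    refine (injective_iff_map_eq_one τ).2 fun x hx => ?_
    obtain ⟨y, rfl⟩ := ε.surjective x
    obtain ⟨z, hz⟩ := hπ ⟨y, hx⟩
    rw [Subsingleton.elim z 1, map_one] at hz
    rw [show y = 1 from (congrArg Subtype.val hz).symm, map_one]
  exact ⟨(MulEquiv.ofBijective τ ⟨hinj, hτ⟩).trans CL.Perm.psl2EquivSL2⟩

end CL.Ggn
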