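/-
S4841 (Gagola, non-solvable case), step E1: the conjugates of `U` form a partition of `V`.
-/
import Cfsg.Agent.Ggn.Defs
import Cfsg.Agent.Grp.SylowIn

set_option autoImplicit false

namespace CL.Ggn

open Cfsg Subgroup
open scoped MatrixGroups

universe u

namespace E1x

variable {H V : Type*} [Group H] [AddCommGroup V] [Module (ZMod 2) V] {ρ : H →* Module.End (ZMod 2) V}

theorem ne_bot_map {U : Submodule (ZMod 2) V} (h1 : AU ρ U ≠ ⊥) (g : H) : AU ρ (U.map (ρ g)) ≠ ⊥ := by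
  obtain ⟨⟨a, ha⟩, a1⟩ := ne_bot_iff_exists_ne_one.1 h1
  refine ne_bot_iff_exists_ne_one.2 ⟨⟨g * a * g⁻¹, mem_AU_map.2 (by simpa [mul_assoc] using ha)⟩, fun e => a1 ?_⟩
  have := congrArg Subtype.val e
  exact Subtype.ext (by simpa using this)

/-- two conjugates whose groups normalise each other coincide -/
theorem fin (h : Hyp2 ρ) {U : Submodule (ZMod 2) V} (hU : Half U) (hc : CP ρ U) (k l : H)
    (h12 : AU ρ (U.map (ρ k)) ≤ normalizer (AU ρ (U.map (ρ l)) : Set H))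
    (h21 : AU ρ (U.map (ρ l)) ≤ normalizer (AU ρ (U.map (ρ k)) : Set H)) :
    U.map (ρ l) = U.map (ρ k) := by
  by_contra hne
  have key : ∀ a ∈ AU ρ (U.map (ρ k)), ∀ b ∈ AU ρ (U.map (ρ l)), Commute a b := fun a ha b hb => by
    have m1 : a * b * a⁻¹ * b⁻¹ ∈ AU ρ (U.map (ρ l)) :=
      mul_mem ((mem_normalizer_iff.1 (h12 ha) b).1 hb) (inv_mem hb)
    have m2 : a * b * a⁻¹ * b⁻¹ ∈ AU ρ (U.map (ρ k)) := by
      rw [show a * b * a⁻¹ * b⁻¹ = a * (b * a⁻¹ * b⁻¹) by group]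
      exact mul_mem ha ((mem_normalizer_iff.1 (h21 hb) a⁻¹).1 (inv_mem ha))
    by_contra hn
    have h1 : a * b * a⁻¹ * b⁻¹ ≠ 1 := fun e => hn (commutatorElement_eq_one_iff_commute.1 e)
    exact hne ((h.fix _ (hU.map l) _ m1 h1).symm.trans (h.fix _ (hU.map k) _ m2 h1))
  have := hc (k⁻¹ * l) fun a ha b hb => by
    have h1 : k * a * k⁻¹ ∈ AU ρ (U.map (ρ k)) := mem_AU_map.2 (by simpa [mul_assoc] using ha)
    have h2 : k * b * k⁻¹ ∈ AU ρ (U.map (ρ l)) :=
      mem_AU_map.2 (by simpa [mul_assoc] using mem_AU_map.1 hb)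
    have h3 := (key _ h1 _ h2).map (MulAut.conj k⁻¹)
    simpa [mul_assoc] using h3
  refine hne ?_
  conv_rhs => rw [← this, ← map_rho_mul, mul_inv_cancel_left]

theorem part [Finite H] [Finite V] (h : Hyp2 ρ) {U : Submodule (ZMod 2) V} (hU : Half U) (h1 : AU ρ U ≠ ⊥)
    (hc : CP ρ U) (g : H) : U.map (ρ g) = U ∨ U ⊓ U.map (ρ g) = ⊥ := by
  have : Fact (Nat.Prime 2) := ⟨Nat.prime_two⟩
  rw [or_iff_not_imp_right]
  intro hne
  obtain ⟨v, ⟨hv1, hv2⟩, v0⟩ := Submodule.exists_mem_ne_zero_of_ne_bot hne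
  set P := AU ρ (Submodule.span (ZMod 2) {v}) with hPdef
  have hP : IsPGroup 2 P := h.isPGroup_AU (by rwa [Ne, Submodule.span_singleton_eq_bot])
  have hle : ∀ W : Submodule (ZMod 2) V, v ∈ W → AU ρ W ≤ P := fun W hW a ha => mem_AU_span.2 (ha v hW)
  by_cases hall : ∀ k : H, v ∈ U.map (ρ k) → P ≤ normalizer (AU ρ (U.map (ρ k)) : Set H)
  · have hv1' : v ∈ U.map (ρ 1) := by rwa [map_rho_one]
    have := fin h hU hc 1 g ((hle _ hv1').trans (hall g hv2)) ((hle _ hv2).trans (hall 1 hv1'))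
    rwa [map_rho_one] at this
  · exfalso
    push Not at hall
    obtain ⟨k, hk, hn⟩ := hall
    obtain ⟨t, ⟨htP, htN⟩, htD⟩ := SetLike.exists_of_lt (CL.Grp.lt_inf_normalizer_of_isPGroup hP (inf_lt_left.2 hn))
    have hA : AU ρ (U.map (ρ k)) ≤ P ⊓ normalizer (AU ρ (U.map (ρ k)) : Set H) := le_inf (hle _ hk) le_normalizer
    have hN := h.mem_normalizer_iff (hU.map k) (ne_bot_map h1 k) (g := t)
    refine htD ⟨htP, hN.2 ?_⟩
    rw [← map_rho_mul]
    refine fin h hU hc k (t * k) (fun a ha => ?_) (fun a ha => ?_)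
    · rw [h.mem_normalizer_iff (hU.map _) (ne_bot_map h1 _)]
      have h2 := ((mem_normalizer_iff''.1 htN a).1 (hA ha)).2
      have h3 := (h.mem_normalizer_iff (hU.map k) (ne_bot_map h1 k)).1 h2
      rw [← map_rho_mul, show a * (t * k) = t * (t⁻¹ * a * t * k) by group, map_rho_mul, map_rho_mul, h3,
        ← map_rho_mul]
    · rw [map_rho_mul, mem_AU_map] at ha
      exact ((mem_normalizer_iff''.1 htN a).2 (hA ha)).2

theorem relIndex [Finite H] [Finite V] (h : Hyp2 ρ) {U : Submodule (ZMod 2) V} (hU : Half U) (h1 : AU ρ U ≠ ⊥)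
    (hp : ∀ g : H, U.map (ρ g) = U ∨ U ⊓ U.map (ρ g) = ⊥) {v : V} (hv : v ∈ U) (v0 : v ≠ 0) :
    (AU ρ (Submodule.span (ZMod 2) {v})).relIndex (normalizer (AU ρ U : Set H)) = Nat.card U - 1 := by
  classical
  have e : Nat.card {w : U // w ≠ 0} = Nat.card U - 1 := by
    have := Fintype.ofFinite U
    rw [Nat.card_eq_fintype_card, Nat.card_eq_fintype_card, Fintype.card_subtype_compl, Fintype.card_subtype_eq]
  have hm : ∀ g : normalizer (AU ρ U : Set H), ρ g v ∈ U := fun g =>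
    ((h.mem_normalizer_iff hU h1).1 g.2).le ⟨v, hv, rfl⟩
  rw [← e, Subgroup.relIndex, index_eq_card]
  refine Nat.card_congr (Equiv.ofBijective (Quotient.lift (fun g => ⟨⟨ρ g.1 v, hm g⟩, fun e => v0 (rho_injective g.1
    ((congrArg Subtype.val e).trans (map_zero _).symm))⟩) fun a b hab => Subtype.ext (Subtype.ext ?_))
      ⟨?_, fun w => ?_⟩)
  · have := mem_AU_span.1 (mem_subgroupOf.1 (QuotientGroup.leftRel_apply.1 hab))
    change ρ a v = ρ b v
    rw [← this, ← Module.End.mul_apply, ← map_mul, coe_mul, coe_inv, mul_inv_cancel_left]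
    rw [show ρ ((a : H)⁻¹ * b) v = v from this]
  · rintro ⟨a⟩ ⟨b⟩ hab
    refine Quotient.sound (QuotientGroup.leftRel_apply.2 (mem_subgroupOf.2 (mem_AU_span.2 ?_)))
    rw [coe_mul, coe_inv, map_mul, Module.End.mul_apply,
      ← show ρ a v = ρ b v from congrArg Subtype.val (congrArg Subtype.val hab), inv_apply_apply]
  · obtain ⟨g, hg⟩ := h.trans v w.1.1 v0 fun e => w.2 (Subtype.ext e)
    have hgN : g ∈ normalizer (AU ρ U : Set H) := by
      refine (h.mem_normalizer_iff hU h1).2 ((hp g).resolve_right fun e => w.2 (Subtype.ext ?_))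
      have : (w.1 : V) ∈ U ⊓ U.map (ρ g) := ⟨w.1.2, v, hv, hg⟩
      rwa [e, Submodule.mem_bot] at this
    exact ⟨Quotient.mk _ ⟨g, hgN⟩, Subtype.ext (Subtype.ext hg)⟩

end E1x

theorem e1 : E1.{u} := by
  intro H V _ _ _ _ _ ρ h U hU h1 hc
  have hp := E1x.part h hU h1 hc
  refine ⟨hp, ?_⟩
  have := h.nt
  obtain ⟨v, hv, v0⟩ := Submodule.exists_mem_ne_zero_of_ne_bot hU.ne_bot
  have hle : AU ρ (Submodule.span (ZMod 2) {v}) ≤ normalizer (AU ρ U : Set H) := fun g hg => by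
    refine (h.mem_normalizer_iff hU h1).2 ((hp g).resolve_right fun e => v0 ?_)
    have : v ∈ U ⊓ U.map (ρ g) := ⟨hv, v, hv, mem_AU_span.1 hg⟩
    rwa [e, Submodule.mem_bot] at this
  have h2 := relIndex_mul_index hle
  rw [E1x.relIndex h hU h1 hp hv v0, h.index_AU_span v0, ← hU] at h2
  have h3 : 1 < Nat.card U := by
    have : Nontrivial U := Submodule.nontrivial_iff_ne_bot.2 hU.ne_bot
    exact Finite.one_lt_card
  obtain ⟨q, hq⟩ := Nat.exists_eq_add_of_lt h3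
  rw [hq] at h2 ⊢
  have h4 : (1 + q + 1) ^ 2 - 1 = (1 + q) * (1 + q + 1 + 1) := by
    rw [Nat.sub_eq_iff_eq_add (Nat.one_le_pow _ _ (by omega))]; ring
  rw [h4, Nat.add_sub_cancel] at h2
  exact Nat.eq_of_mul_eq_mul_left (by omega) h2

end CL.Ggn
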