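/-
S4841: the exceptional cases `SL₂(5)` and `SL₂(13)` in characteristic three.
-/
import Cfsg.Agent.Ggn.Defs
import Cfsg.Agent.Cls.SLnCard
import Cfsg.Agent.Loc.Components

set_option autoImplicit false

namespace CL.Ggn

open Cfsg Subgroup
open scoped MatrixGroups

universe u

namespace EX

/-- a normal subgroup of order `2 m` with a central involution, `m ∣ 2 * 3 ^ k`, has order prime to three -/
theorem not_three {H : Type*} [Group H] [Finite H] (hc : pCore 3 H = ⊥) {C : Subgroup H} [C.Normal] {z : H}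
    (hz : z ∈ C) (oz : orderOf z = 2) (zc : ∀ g, g * z = z * g) {m k : ℕ} (hm : Nat.card C = 2 * m)
    (hk : m ∣ 2 * 3 ^ k) : ¬ 3 ∣ m := fun h3 => by
  have : Fact (Nat.Prime 3) := ⟨Nat.prime_three⟩
  obtain ⟨P⟩ : Nonempty (Sylow 3 C) := inferInstance
  have h1 : (⟨z, hz⟩ : C) ∈ normalizer (P : Set C) :=
    center_le_normalizer _ (mem_center_iff.2 fun g => Subtype.ext (zc g))
  obtain ⟨n, hn⟩ := orderOf_dvd_natCard _ h1
  rw [← orderOf_coe, oz] at hn
  have h2 := (normalizer (P : Set C)).index_mul_card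
  rw [hn, hm, ← P.card_eq_index_normalizer] at h2
  have h4 : Nat.card (Sylow 3 C) ∣ 2 := Nat.Coprime.dvd_of_dvd_mul_right
    (((Nat.Prime.coprime_iff_not_dvd Nat.prime_three).2 (not_dvd_card_sylow 3 C)).symm.pow_right k)
    (Dvd.dvd.trans ⟨n, by linarith⟩ hk)
  have h5 := card_sylow_modEq_one 3 C
  have h6 : Nat.card (Sylow 3 C) = 1 := ((Nat.dvd_prime Nat.prime_two).1 h4).resolve_right fun e => by
    rw [e] at h5; exact absurd h5 (by decide)
  have := (Nat.card_eq_one_iff_unique.1 h6).1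
  have := Sylow.characteristic_of_subsingleton P
  have h7 := CL.Grp.le_pCore (N := (P : Subgroup C).map C.subtype) (P.isPGroup'.map _)
  rw [hc, le_bot_iff, map_eq_bot_iff_of_injective _ C.subtype_injective] at h7
  exact P.ne_bot_of_dvd_card (hm ▸ h3.mul_left 2) h7

variable {H V : Type u} [Group H] [Finite H] [AddCommGroup V] [Module (ZMod 3) V] [Finite V]
  {ρ : H →* Module.End (ZMod 3) V}

theorem setup (ho : OUT.{u}) (h : Hyp ρ) {L : Subgroup H} (hL : L.Normal) {F : Type} [Field F] [Fintype F] {r : ℕ}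
    [hr : Fact r.Prime] (hF : Fintype.card F = r) (h3 : 3 < r) (e : Nonempty (L ≃* SL(2, F)))
    (hj : ∃ j : SL(2, ZMod r), j * j ≠ 1 ∧ j * j * (j * j) = 1) :
    Nonempty (L ≃* SL(2, ZMod r)) ∧ ∃ j ∈ L, (∀ t : H, t * t = 1 → t = 1 ∨ t = j * j) ∧ ∃ m i k : ℕ, i ∣ 2 ∧
      L.index = m * i ∧ Nat.card (centralizer (L : Set H)) = 2 * m ∧ (m ∣ 2 * 3 ^ k → ¬ 3 ∣ m) ∧
      Nat.card L = r * (r ^ 2 - 1) ∧ Nat.card H = 3 ^ k * (Nat.card V - 1) := by
  have : Fact (Nat.Prime 3) := ⟨Nat.prime_three⟩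
  have : Fact (Nat.Prime 2) := ⟨Nat.prime_two⟩
  have hi := (ho L F r 1 hL hr.out (by rw [hF, pow_one]) (hF ▸ h3) e).1
  obtain ⟨e0⟩ := e
  obtain ⟨e1⟩ := CL.SLn.nonempty_sl_equiv_of_card_eq (ι := Fin 2) (K := F) (L := ZMod r) (by rw [hF, ZMod.card])
  have e := e0.trans e1
  obtain ⟨j0, j1, j2⟩ := hj
  obtain ⟨j, rfl⟩ := e.surjective j0
  have z1 : (j : H) * j ≠ 1 := fun a => j1 (by rw [← map_mul, show j * j = 1 from Subtype.ext a, map_one])
  have z2 : (j : H) * j * (j * j) = 1 := congrArg Subtype.val (e.injective (by simpa using j2) : j * j * (j * j) = 1)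
  have hz := h.invol (by decide) z1 z2
  have un : ∀ t : H, t * t = 1 → t = 1 ∨ t = j * j := fun t ht => or_iff_not_imp_left.2 fun t1 =>
    h.inj ((h.invol (by decide) t1 ht).trans hz.symm)
  have zc : ∀ g : H, g * (j * j) = j * j * g := fun g => h.inj (by rw [map_mul, map_mul ρ _ g, hz]; simp)
  have oz : orderOf ((j : H) * j) = 2 := orderOf_eq_prime (by rw [pow_two, z2]) z1
  have zC : (j : H) * j ∈ centralizer (L : Set H) := mem_centralizer_iff.2 fun g _ => zc g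
  have hZ : L ⊓ centralizer (L : Set H) = zpowers ((j : H) * j) := by
    refine le_antisymm (fun x hx => ?_) (zpowers_le.2 ⟨mul_mem j.2 j.2, zC⟩)
    have h1 : e ⟨x, hx.1⟩ ∈ center SL(2, ZMod r) := mem_center_iff.2 fun g => by
      obtain ⟨g, rfl⟩ := e.surjective g
      rw [← map_mul, ← map_mul]
      exact congrArg e (Subtype.ext (hx.2 g g.2))
    obtain ⟨c, c1, c2⟩ := Matrix.SpecialLinearGroup.mem_center_iff.1 h1
    have h2 : e ⟨x, hx.1⟩ * e ⟨x, hx.1⟩ = 1 := Subtype.ext (by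
      rw [Matrix.SpecialLinearGroup.coe_mul, ← c2, ← map_mul, ← pow_two, show c ^ 2 = 1 from c1, map_one]; rfl)
    rw [← map_mul, map_eq_one_iff _ e.injective] at h2
    rcases un x (congrArg Subtype.val h2) with rfl | rfl
    exacts [one_mem _, mem_zpowers _]
  obtain ⟨k, hk⟩ := h.card
  have c1 : Nat.card (centralizer (L : Set H)) = 2 * L.relIndex (centralizer (L : Set H)) := by
    rw [← (L.subgroupOf (centralizer (L : Set H))).card_mul_index]
    congr 1
    rw [← inf_subgroupOf_right, Nat.card_congr (subgroupOfEquivOfLe inf_le_right).toEquiv, hZ, Nat.card_zpowers, oz]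
  refine ⟨⟨e⟩, j, j.2, un, L.relIndex (centralizer (L : Set H)), _, k, hi, ?_, c1, not_three h.core zC oz zc c1, ?_, hk⟩
  · rw [← relIndex_sup_left, relIndex_mul_index le_sup_left]
  · rw [Nat.card_congr e.toEquiv, CL.SLn.card_SL_two, ZMod.card]

theorem j5 : ∃ j : SL(2, ZMod 5), j * j ≠ 1 ∧ j * j * (j * j) = 1 :=
  ⟨⟨!![0, 1; -1, 0], by decide⟩, by decide, by decide⟩

theorem j13 : ∃ j : SL(2, ZMod 13), j * j ≠ 1 ∧ j * j * (j * j) = 1 :=
  ⟨⟨!![0, 1; -1, 0], by decide⟩, by decide, by decide⟩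

end EX

open EX

theorem ex13 (ho : OUT.{u}) : EX13.{u} := by
  intro p _ H V _ _ _ _ _ ρ h hp L F _ _ hL e hF hV
  subst hp
  have : Fact (Nat.Prime 13) := ⟨by norm_num⟩
  obtain ⟨⟨e⟩, -, -, -, m, i, k, hi, h1, -, h3, h4, h5⟩ := setup ho h hL hF (by norm_num) e j13
  have h6 := L.index_mul_card
  rw [h1, h4, h5, hV] at h6
  have h7 : 3 ^ k = m * (3 * i) := by norm_num at h6; linarith
  have hm : m ∣ 3 ^ k := ⟨_, h7⟩
  have m1 : m = 1 := Nat.eq_one_of_dvd_coprimes
    (((Nat.Prime.coprime_iff_not_dvd Nat.prime_three).2 (h3 (hm.mul_left 2))).symm.pow_right k) dvd_rfl hm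
  have i1 : i = 1 := Nat.eq_one_of_dvd_coprimes ((by norm_num : Nat.Coprime 2 3).pow_right k) hi ⟨m * 3, by rw [h7]; ring⟩
  rw [m1, i1, index_eq_one] at h1
  subst h1
  exact ⟨topEquiv.symm.trans e⟩

theorem ex5 (ho : OUT.{u}) : EX5.{u} := by
  intro p _ H V _ _ _ _ _ ρ h hp L F _ _ hL e hF hV
  subst hp
  have : Fact (Nat.Prime 5) := ⟨by norm_num⟩
  have : Fact (Nat.Prime 2) := ⟨Nat.prime_two⟩
  obtain ⟨e, j, hj, un, m, i, k, hi, h1, h2, h3, h4, h5⟩ := setup ho h hL hF (by norm_num) e j5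
  have h6 := L.index_mul_card
  rw [h1, h4, h5, hV] at h6
  have h7 : 2 * 3 ^ k = m * (3 * i) := by norm_num at h6; linarith
  have hm : m ∣ 2 := Nat.Coprime.dvd_of_dvd_mul_right
    (((Nat.Prime.coprime_iff_not_dvd Nat.prime_three).2 (h3 ⟨_, h7⟩)).symm.pow_right k) ⟨_, h7⟩
  have h8 : Odd (3 ^ k) := Odd.pow (by decide)
  have h9 : m * i = 2 := by
    obtain ⟨n, hn⟩ := h8
    rcases (Nat.dvd_prime Nat.prime_two).1 hm with rfl | rfl <;>
      rcases (Nat.dvd_prime Nat.prime_two).1 hi with rfl | rfl <;> omega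
  have un' : ∀ t : H, t * t = 1 → t ∈ L := fun t ht => (un t ht).elim (fun e => e ▸ one_mem _) fun e => e ▸ mul_mem hj hj
  refine ⟨L, hL, h1.trans h9, e, ?_, fun K hK => ?_⟩
  · rw [CL.Loc.map_center_subtype_eq_inf]
    refine (inf_eq_right.2 fun c hc => ?_).symm
    have c4 : c * c * (c * c) = 1 := by
      have := orderOf_dvd_iff_pow_eq_one.1 ((orderOf_dvd_natCard _ hc).trans
        (h2 ▸ Nat.mul_dvd_mul_left 2 hm : _ ∣ 2 * 2))
      rwa [pow_mul, pow_two, pow_two] at this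
    rcases un _ c4 with e | e
    · exact un' c e
    · refine (mul_mem_cancel_right hj).1 (un' (c * j) ?_)
      rw [mul_assoc, ← mul_assoc j, hc j hj, mul_assoc, ← mul_assoc c, ← e, c4]
  · obtain ⟨t, ht⟩ := exists_prime_orderOf_dvd_card' (G := K) 2 (by rw [← hK.symm.index_eq_card, h1, h9])
    have t2 : (t : H) * t = 1 := congrArg Subtype.val (by rw [← pow_two, ← ht, pow_orderOf_eq_one] : t * t = 1)
    have := disjoint_def.1 hK.disjoint (un' _ t2) t.2
    rw [show t = 1 from Subtype.ext this, orderOf_one] at ht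
    omega

end CL.Ggn
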