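/-
S4841 (Gagola, non-solvable case): the first consequences of a frame in case II.
-/
import Cfsg.Agent.Ggn.Defs

set_option autoImplicit false

namespace CL.Ggn

open Cfsg Subgroup
open scoped MatrixGroups

universe u

namespace FBh

theorem exists_scalar {K : Type*} [Field K] [Finite K] (h : 8 ≤ Nat.card K) :
    ∃ a : K, a ≠ 0 ∧ a + 1 ≠ 0 ∧ a * a + a + 1 ≠ 0 := by
  classical
  obtain ⟨w, hw⟩ : ∃ w : K, ∀ a, a * a + a + 1 = 0 → a = w ∨ a = -w - 1 := by
    by_cases h1 : ∃ w : K, w * w + w + 1 = 0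
    · obtain ⟨w, hw⟩ := h1
      refine ⟨w, fun a ha => ?_⟩
      have : (a - w) * (a - (-w - 1)) = 0 := by linear_combination ha - hw
      exact (mul_eq_zero.1 this).imp sub_eq_zero.1 sub_eq_zero.1
    · exact ⟨0, fun a ha => (h1 ⟨a, ha⟩).elim⟩
  by_contra hn
  have h1 : (Set.univ : Set K) ⊆ (({0, -1, w, -w - 1} : Finset K) : Set K) := fun a _ => by
    by_contra h2
    simp only [Finset.coe_insert, Finset.coe_singleton, Set.mem_insert_iff, Set.mem_singleton_iff, not_or] at h2
    exact hn ⟨a, h2.1, fun e => h2.2.1 (eq_neg_of_add_eq_zero_left e), fun e => (hw a e).elim h2.2.2.1 h2.2.2.2⟩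
  have h2 := Set.ncard_le_ncard h1 (Finset.finite_toSet _)
  rw [Set.ncard_coe_finset, Set.ncard_univ] at h2
  have := h2.trans Finset.card_le_four
  omega

section ring
variable {R K : Type*} [Ring R] [Field K] {s : K →+* R} {n m : R}

/-- matrix units -/
structure Rg (s : K →+* R) (n m : R) : Prop where
  sn : ∀ a, Commute (s a) n
  sm : ∀ a, Commute (s a) m
  nn : n * n = 0
  mm : m * m = 0
  nm : n * m + m * n = 1

variable (h : Rg s n m)
include h

theorem Rg.nmn : n * m * n = n := by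
  calc n * m * n = (n * m + m * n) * n := by rw [add_mul, mul_assoc m, h.nn, mul_zero, add_zero]
    _ = n := by rw [h.nm, one_mul]

theorem Rg.mnm : m * n * m = m := by
  calc m * n * m = (n * m + m * n) * m := by rw [add_mul, mul_assoc n, h.mm, mul_zero, zero_add]
    _ = m := by rw [h.nm, one_mul]

theorem Rg.split (a : K) : s a = s a * n * m + m * (s a * n) := by
  rw [← mul_assoc m, ← (h.sm a).eq, mul_assoc, mul_assoc, ← mul_add, h.nm, mul_one]

theorem Rg.dn (a b c : K) : (s a * (n * m) + s b * (m * n)) * (s c * n) = s (a * c) * n := by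
  have h1 : n * m * (s c * n) = s c * n := by
    rw [← mul_assoc, ← ((h.sn c).mul_right (h.sm c)).eq, mul_assoc, h.nmn]
  have h2 : m * n * (s c * n) = 0 := by
    rw [← mul_assoc, ← ((h.sm c).mul_right (h.sn c)).eq, mul_assoc, mul_assoc, h.nn, mul_zero, mul_zero]
  rw [add_mul, mul_assoc, h1, mul_assoc (s b), h2, mul_zero, add_zero, map_mul, mul_assoc]

theorem Rg.lin [Finite K] (hK : 8 ≤ Nat.card K) {r : R} (h1 : ∀ a, Commute (s a * n) r)
    (h2 : ∀ a, a ≠ 0 → Commute (s a * (n * m) + s a⁻¹ * (m * n)) r) :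
    (∀ a, Commute (s a) r) ∧ Commute n r ∧ Commute m r := by
  have cn : Commute n r := by simpa using h1 1
  have ee : n * m * (n * m) = n * m := by rw [← mul_assoc, h.nmn]
  have ff : m * n * (m * n) = m * n := by rw [← mul_assoc, h.mnm]
  have ef : n * m * (m * n) = 0 := by rw [mul_assoc, ← mul_assoc m, h.mm, zero_mul, mul_zero]
  have key : ∀ a, a ≠ 0 → s a * (n * m * r * (m * n)) = n * m * r * (m * n) * s a⁻¹ := fun a ha => by
    have a1 : n * m * (s a * (n * m) + s a⁻¹ * (m * n)) = s a * (n * m) := by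
      rw [mul_add, ← mul_assoc, ← ((h.sn a).mul_right (h.sm a)).eq, mul_assoc, ee, ← mul_assoc (n * m),
        ← ((h.sn _).mul_right (h.sm _)).eq, mul_assoc _ (n * m), ef, mul_zero, add_zero]
    have a2 : (s a * (n * m) + s a⁻¹ * (m * n)) * (m * n) = m * n * s a⁻¹ := by
      rw [add_mul, mul_assoc, ef, mul_zero, zero_add, mul_assoc, ff, ((h.sm _).mul_right (h.sn _)).eq]
    calc s a * (n * m * r * (m * n)) = n * m * (s a * (n * m) + s a⁻¹ * (m * n)) * r * (m * n) := by
          rw [a1]; simp only [mul_assoc]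
      _ = n * m * r * ((s a * (n * m) + s a⁻¹ * (m * n)) * (m * n)) := by
          rw [mul_assoc (n * m), (h2 a ha).eq]; simp only [mul_assoc]
      _ = _ := by rw [a2]; simp only [mul_assoc]
  have e0 : n * m * r * (m * n) = 0 := by
    obtain ⟨a, a0, a1, a2⟩ := exists_scalar hK
    obtain ⟨η, hη⟩ : ∃ η, η = n * m * r * (m * n) := ⟨_, rfl⟩
    rw [← hη] at key ⊢
    have b1 := key _ a1
    rw [map_add, map_one, add_mul, one_mul, key a a0] at b1
    have b2 : η * s ((a + 1)⁻¹ - a⁻¹ - 1) = 0 := by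
      rw [map_sub, map_sub, map_one, mul_sub, mul_sub, mul_one, ← b1]; abel
    have b3 : (a + 1)⁻¹ - a⁻¹ - 1 ≠ 0 := fun e => a2 (by
      field_simp at e
      linear_combination -e)
    rw [← mul_one η, ← map_one s, ← mul_inv_cancel₀ b3, map_mul, ← mul_assoc, b2, zero_mul]
  have e1 : m * n * r * (n * m) = 0 := by
    rw [mul_assoc m, cn.eq, mul_assoc, mul_assoc, ← mul_assoc n, h.nn, zero_mul, mul_zero, mul_zero]
  have ce : Commute (n * m) r := by
    calc n * m * r = n * m * r * (n * m + m * n) := by rw [h.nm, mul_one]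
      _ = (n * m + m * n) * r * (n * m) := by rw [mul_add, e0, add_mul, add_mul, e1]
      _ = r * (n * m) := by rw [h.nm, one_mul]
  have cf : Commute (m * n) r := by
    rw [eq_sub_of_add_eq' h.nm]
    exact (Commute.one_left r).sub_left ce
  have cm : Commute m r := by
    have d1 : n * (r * m - m * r) = 0 := by
      rw [mul_sub, ← mul_assoc, cn.eq, ← mul_assoc, ce.eq, mul_assoc, sub_self]
    have d2 : m * (r * m - m * r) = 0 := by
      rw [mul_sub, ← mul_assoc m m, h.mm, zero_mul, sub_zero]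
      calc m * (r * m) = m * (r * (m * n) * m) := by rw [mul_assoc r, h.mnm]
        _ = 0 := by rw [← cf.eq, ← mul_assoc, ← mul_assoc, ← mul_assoc, h.mm, zero_mul, zero_mul, zero_mul]
    have d3 : r * m - m * r = 0 := by
      rw [← one_mul (r * m - m * r), ← h.nm, add_mul, mul_assoc, d2, mul_assoc, d1, mul_zero, mul_zero, add_zero]
    exact (sub_eq_zero.1 d3).symm
  refine ⟨fun a => ?_, cn, cm⟩
  rw [h.split a]
  exact ((h1 a).mul_left cm).add_left (cm.mul_left (h1 a))

end ring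

variable {H V : Type*} [Group H] [AddCommGroup V] [Module (ZMod 2) V] {K : Type*} [Field K]
  {ρ : H →* Module.End (ZMod 2) V} {s : K →+* Module.End (ZMod 2) V} {n m : Module.End (ZMod 2) V} {x y : H}

theorem three (h : Fp ρ) (c : C2 H) {x d : H} (hx : orderOf x = 3) (hd : orderOf d = 3) (cm : Commute x d) :
    d = x ∨ d = x⁻¹ := by
  have := h.nt
  obtain ⟨v, hv⟩ := exists_ne (0 : V)
  have d3 : d * (d * d) = 1 := by rw [← pow_three, ← hd, pow_orderOf_eq_one]
  have e : (ρ x - ρ d) * (ρ x - ρ d * ρ d) = 0 := by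
    have h1 : ρ d * (ρ d * ρ d) = 1 := by rw [← map_mul, ← map_mul, d3, map_one]
    calc (ρ x - ρ d) * (ρ x - ρ d * ρ d)
        = ρ x * ρ x - ρ x * (ρ d * ρ d) - ρ d * ρ x + ρ d * (ρ d * ρ d) := by noncomm_ring
      _ = (ρ x * ρ x + ρ x + 1) - ρ x * (ρ d * ρ d + ρ d + 1) := by rw [h1, ← (cm.map ρ).eq]; noncomm_ring
      _ = 0 := by rw [h.three hx, h.three hd, mul_zero, sub_zero]
  have key : ∀ g w, w ≠ 0 → (ρ x - ρ g) w = 0 → orderOf g = 3 → x = g := fun g w hw e hg => by
    refine c x g hx hg (h.stab _ w hw ?_)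
    rw [map_mul, Module.End.mul_apply, ← sub_eq_zero.1 e, inv_apply_apply]
  by_cases h0 : (ρ x - ρ d * ρ d) v = 0
  · rw [← map_mul, eq_inv_of_mul_eq_one_right d3] at h0
    exact Or.inr (by rw [key _ v hv h0 (by rw [orderOf_inv, hd]), inv_inv])
  · exact Or.inl (key d _ h0 (LinearMap.congr_fun e v) hd).symm

variable (f : Fr ρ s n m x y)
include f

theorem rg : Rg s n m := ⟨f.sn, f.sm, f.nn, f.mm, f.nm⟩

theorem ker_eq : LinearMap.ker n = LinearMap.range n := by
  apply le_antisymm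
  · intro v hv
    refine ⟨m v, ?_⟩
    have := LinearMap.congr_fun f.nm v
    rwa [LinearMap.add_apply, Module.End.mul_apply, Module.End.mul_apply, LinearMap.mem_ker.1 hv, map_zero,
      add_zero] at this
  · rintro _ ⟨v, rfl⟩
    exact LinearMap.congr_fun f.nn v

theorem half : Half (LinearMap.range n) := by
  rw [Half, (LinearMap.ker n).card_eq_card_quotient_mul_card, Nat.card_congr n.quotKerEquivRange.toEquiv,
    ker_eq f, pow_two]

omit f in
theorem up_mem (nn : n * n = 0) {g : H} {a : K} (e : ρ g = 1 + s a * n) : g ∈ AU ρ (LinearMap.range n) := by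
  rw [mem_AU_range, e, add_sub_cancel_left, mul_assoc, nn, mul_zero]

theorem four [Finite H] (h : Fp ρ) : 4 ≤ Nat.card (AU ρ (LinearMap.range n)) := by
  have := h.nt
  choose g _ hg using f.up
  refine le_trans (le_trans (by decide) f.card) (Nat.card_le_card_of_injective
    (fun a => (⟨g a, up_mem f.nn (hg a)⟩ : AU ρ (LinearMap.range n))) fun a b e => ?_)
  have h1 : s a * n = s b * n := add_left_cancel ((hg a).symm.trans ((congrArg (fun t => ρ t.1) e).trans (hg b)))
  refine s.injective ?_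
  rw [(rg f).split a, (rg f).split b, h1]

theorem lin [Finite K] (r : Module.End (ZMod 2) V) (h1 : ∀ a, Commute (s a * n) r)
    (h2 : ∀ a, a ≠ 0 → Commute (dg s n m a) r) : Lin s n m r :=
  let ⟨a, b, c⟩ := (rg f).lin f.card h1 h2
  ⟨a, b, c⟩

theorem lin_iff [Finite H] [Finite K] (h : Hyp ρ) (c : H) : Lin s n m (ρ c) ↔ Commute x c ∧ Commute y c := by
  constructor
  · intro l
    have key : ∀ g ∈ closure ({x, y} : Set H), Commute g c := fun g hg => by
      obtain ⟨a, b, d, e, h1⟩ := f.all g hg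
      refine h.inj ?_
      rw [map_mul, map_mul, h1]
      exact (((((l.cs a).mul_left (l.cn.mul_left l.cm)).add_left ((l.cs b).mul_left l.cn)).add_left
        ((l.cs d).mul_left l.cm)).add_left ((l.cs e).mul_left (l.cm.mul_left l.cn))).eq
    exact ⟨key x (subset_closure (by simp)), key y (subset_closure (by simp))⟩
  · rintro ⟨h1, h2⟩
    have key : closure ({x, y} : Set H) ≤ centralizer {c} := by
      rw [closure_le]
      rintro g (rfl | rfl)
      exacts [mem_centralizer_singleton_iff.2 h1, mem_centralizer_singleton_iff.2 h2]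
    have key' : ∀ g ∈ closure ({x, y} : Set H), Commute (ρ g) (ρ c) := fun g hg =>
      Commute.map (mem_centralizer_singleton_iff.1 (key hg)) ρ
    refine lin f _ (fun a => ?_) fun a ha => ?_
    · obtain ⟨g, hg, e⟩ := f.up a
      have := (key' g hg).sub_left (Commute.one_left _)
      rwa [e, add_sub_cancel_left] at this
    · obtain ⟨g, hg, e⟩ := f.tor a ha
      exact e ▸ key' g hg

theorem comm (k h : H) (a : K) (ha : a ≠ 0) (e : ρ h = dg s n m a) (hk : ∀ b, Commute (s b * n) (ρ k)) :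
    h * k * h⁻¹ * k⁻¹ ∈ AU ρ (LinearMap.range n) := by
  have i1 : ∀ g : H, ρ g * ρ g⁻¹ = 1 := fun g => by rw [← map_mul, mul_inv_cancel, map_one]
  have i2 : ∀ g : H, ρ g⁻¹ * ρ g = 1 := fun g => by rw [← map_mul, inv_mul_cancel, map_one]
  have h1 : ρ h * (s a⁻¹ * n) = n := by
    rw [e, dg, (rg f).dn, mul_inv_cancel₀ ha, map_one, one_mul]
  have h2 : ρ h⁻¹ * n = s a⁻¹ * n := by
    conv_lhs => rw [← h1]
    rw [← mul_assoc, i2, one_mul]
  have h3 : n * ρ k = ρ k * n := by simpa using (hk 1).eq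
  have h4 : ρ k⁻¹ * n = n * ρ k⁻¹ := by
    calc ρ k⁻¹ * n = ρ k⁻¹ * (n * ρ k) * ρ k⁻¹ := by rw [mul_assoc, mul_assoc, i1, mul_one]
      _ = n * ρ k⁻¹ := by rw [h3, ← mul_assoc, i2, one_mul]
  rw [mem_AU_range, sub_mul, one_mul, sub_eq_zero, map_mul, map_mul, map_mul]
  calc ρ h * ρ k * ρ h⁻¹ * ρ k⁻¹ * n = ρ h * (ρ k * (ρ h⁻¹ * n)) * ρ k⁻¹ := by
        rw [mul_assoc, h4]; simp only [mul_assoc]
    _ = ρ h * (s a⁻¹ * n) * (ρ k * ρ k⁻¹) := by rw [h2, ← (hk _).eq]; simp only [mul_assoc]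
    _ = n := by rw [h1, i1, mul_one]

theorem noD [Finite H] [Finite V] [Finite K] (h : Hyp2 ρ) (c : C2 H) (d : H) (hd : orderOf d = 3) (a : H)
    (ha : a ∈ AU ρ (LinearMap.range n)) (cm : Commute d a) : a = 1 := by
  by_contra a1
  have := h.nt
  have h1 := Fix_conj (ρ := ρ) d a
  rw [cm.eq, mul_inv_cancel_right, h.fix _ (half f) a ha a1] at h1
  have h2 := (h.mem_normalizer_iff (half f) (fun e => a1 (mem_bot.1 (e ▸ ha)))).2 h1.symm
  have h3 : ∀ b ∈ AU ρ (LinearMap.range n), Commute d b := fun b hb =>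
    c.commute hd (h.isPGroup_AU (half f).ne_bot) h2 hb
  have h4 : ∀ b, Commute (s b * n) (ρ d) := fun b => by
    obtain ⟨g, -, e⟩ := f.up b
    have := ((h3 g (up_mem f.nn e)).symm.map ρ).sub_left (Commute.one_left _)
    rwa [e, add_sub_cancel_left] at this
  obtain ⟨cx, cy⟩ := (lin_iff f h.toHyp d).1 (lin f _ h4 fun t ht => by
    obtain ⟨g, -, e⟩ := f.tor t ht
    have h5 := comm f d g t ht e h4
    have h6 : d⁻¹ * (g * d * g⁻¹) = g * d * g⁻¹ * d⁻¹ := by
      rw [inv_mul_eq_iff_eq_mul, (h3 _ h5).eq, inv_mul_cancel_right]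
    have h7 := c d (g * d * g⁻¹) hd ((MulEquiv.orderOf_eq (MulAut.conj g) d).trans hd)
      ⟨1, by rw [h6, pow_one, pow_two]; exact h.sq _ (half f) _ h5⟩
    exact e ▸ Commute.map (eq_mul_inv_iff_mul_eq.1 h7).symm ρ)
  rcases three h.toFp c f.x3 hd cx with e | e <;> rcases three h.toFp c f.y3 hd cy with e' | e'
  · exact f.ne (e'.symm.trans e)
  · exact f.ne' (by rw [← e, e', inv_inv])
  · exact f.ne' (e'.symm.trans e)
  · exact f.ne (inv_injective (e'.symm.trans e))

theorem cen [Finite H] [Finite K] (h : Hyp ρ) (c : C2 H) (W : Submodule (ZMod 2) V) (hW : W ≠ ⊥)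
    (h1 : ∀ a, ∀ w ∈ W, s a w ∈ W) (h2 : ∀ w ∈ W, n w ∈ W) (h3 : ∀ w ∈ W, m w ∈ W) (t : H) (ht : t ∈ AU ρ W) :
    Lin s n m (ρ t) := by
  have k1 : ∀ g ∈ closure ({x, y} : Set H), ∀ w ∈ W, ρ g w ∈ W := fun g hg w hw => by
    obtain ⟨a, b, d, e, h4⟩ := f.all g hg
    rw [h4]
    exact add_mem (add_mem (add_mem (h1 a _ (h2 _ (h3 w hw))) (h1 b _ (h2 w hw))) (h1 d _ (h3 w hw)))
      (h1 e _ (h3 _ (h2 w hw)))
  have k2 : ∀ g ∈ closure ({x, y} : Set H), g ∈ normalizer (AU ρ W : Set H) := fun g hg => by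
    have e : W.map (ρ g) = W := by
      refine le_antisymm ?_ fun w hw => mem_map_rho.2 (k1 _ (inv_mem hg) w hw)
      rintro _ ⟨w, hw, rfl⟩
      exact k1 g hg w hw
    refine mem_normalizer_iff''.2 fun a => ?_
    rw [← mem_AU_map, e]
  exact (lin_iff f h t).2 ⟨c.commute f.x3 (h.isPGroup_AU hW) (k2 x (subset_closure (by simp))) ht,
    c.commute f.y3 (h.isPGroup_AU hW) (k2 y (subset_closure (by simp))) ht⟩

end FBh

open FBh in
theorem fb : FB.{u} := by
  intro H V _ _ _ _ _ K _ _ ρ s n m x y h c f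
  exact
    { toFr := f
      ker_eq := ker_eq f
      half := half f
      four := four f h.toFp
      lin := lin f
      lin_iff := lin_iff f h.toHyp
      noD := noD f h c
      comm := comm f
      cen := cen f h.toHyp c }

end CL.Ggn
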