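/-
S4841 (Gagola, non-solvable case): the generic conclusion.
-/
import Cfsg.Agent.Ggn.Defs
import Cfsg.Agent.Cls.SLnCard

set_option autoImplicit false

namespace CL.Ggn

open Cfsg Subgroup
open scoped MatrixGroups

universe u

namespace FINa

/-- a normal subgroup of `p`-power index contains its centraliser if `O_p = 1` -/
theorem cent_le {p : ℕ} [hp : Fact p.Prime] {H : Type*} [Group H] [Finite H] (hc : pCore p H = ⊥) (L : Subgroup H)
    [L.Normal] {i : ℕ} (hi : L.index = p ^ i) : centralizer (L : Set H) ≤ L := by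
  obtain ⟨P⟩ : Nonempty (Sylow p (centralizer (L : Set H))) := inferInstance
  have h1 : (P : Subgroup (centralizer (L : Set H))) ⊔ L.subgroupOf (centralizer (L : Set H)) = ⊤ := by
    rw [← index_eq_one]
    refine Nat.eq_one_of_dvd_coprimes (((Nat.Prime.coprime_iff_not_dvd hp.out).2 P.not_dvd_index).pow_left i) ?_
      (index_dvd_of_le le_sup_left)
    exact (index_dvd_of_le le_sup_right).trans (hi ▸ relIndex_dvd_index_of_normal L _)
  have h2 : (P : Subgroup (centralizer (L : Set H))).Normal := by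
    rw [← normalizer_eq_top_iff, eq_top_iff, ← h1]
    refine sup_le le_normalizer fun z hz => centralizer_le_normalizer _ (mem_centralizer_iff.2 fun c _ => ?_)
    exact Subtype.ext (mem_centralizer_iff.1 c.2 z hz).symm
  have h3 := P.characteristic_of_normal h2
  have h4 : (P : Subgroup (centralizer (L : Set H))).map (centralizer (L : Set H)).subtype ≤ pCore p H :=
    le_sSup ⟨inferInstance, P.2.map _⟩
  rw [hc, le_bot_iff, map_eq_bot_iff_of_injective _ (subtype_injective _)] at h4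
  rw [h4, bot_sup_eq, subgroupOf_eq_top] at h1
  exact h1

end FINa

theorem finThm (h : OUT.{u}) : FIN.{u} := by
  intro p hp H V _ _ _ _ _ ρ hy L F _ _ hL h3 hq ⟨φ⟩
  obtain ⟨a, -, ha⟩ := (Nat.dvd_prime_pow hp.out).1
    ((dvd_pow_self (Fintype.card F) two_ne_zero).trans (hq.trans (exists_card_V (p := p))).dvd)
  obtain ⟨k, hk⟩ := hy.card
  have h1 := L.card_mul_index
  rw [Nat.card_congr φ.toEquiv, CL.SLn.card_SL_two, hk, hq, mul_right_comm] at h1
  have h0 : 0 < Nat.card V - 1 := by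
    have := hy.nt
    have := Finite.one_lt_card (α := V)
    omega
  obtain ⟨i, -, hi⟩ := (Nat.dvd_prime_pow hp.out).1 (Dvd.intro_left _ (Nat.eq_of_mul_eq_mul_right h0 h1))
  have hC := FINa.cent_le hy.core L hi
  obtain ⟨-, h2⟩ := h L F p a hL hp.out ha h3 ⟨φ⟩
  rw [sup_eq_left.2 hC] at h2
  refine ⟨F, _, _, ⟨a, ha⟩, by omega, L, hL, ⟨φ⟩, ⟨i, hi⟩, h2 ?_, le_antisymm (fun c hc => ?_) ?_⟩
  · exact hp.out.eq_two_or_odd'.imp id fun ho => hi ▸ ho.pow
  · exact ⟨⟨c, hC hc⟩, mem_center_iff.2 fun g => Subtype.ext (mem_centralizer_iff.1 hc g g.2), rfl⟩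
  · rintro _ ⟨z, hz, rfl⟩
    exact mem_centralizer_iff.2 fun g hg => congrArg Subtype.val (mem_center_iff.1 hz ⟨g, hg⟩)

end CL.Ggn
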