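/-
S4841 (Gagola, non-solvable case): the final configuration of case II does not occur.
-/
import Cfsg.Agent.Ggn.Defs

set_option autoImplicit false
set_option linter.unusedSectionVars false

namespace CL.Ggn

open Cfsg Subgroup
open scoped MatrixGroups

universe u

namespace LASTx

variable {V K : Type*} [AddCommGroup V] [Module (ZMod 2) V] [Field K]

/-- the ring-theoretic data -/
structure Cx (s : K →+* Module.End (ZMod 2) V) (n m χ : Module.End (ZMod 2) V) : Prop where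
  sn : ∀ a, Commute (s a) n
  sm : ∀ a, Commute (s a) m
  nn : n * n = 0
  mm : m * m = 0
  nm : n * m + m * n = 1
  lin : Lin s n m χ
  sq : χ * χ = 0
  p1 : ∀ a b, χ * a = 0 → b * χ = 0 → b * a = 0

/-- the set `T` -/
structure TT (n χ γ : Module.End (ZMod 2) V) : Prop where
  c : γ * χ = χ * γ
  l : γ * (n * χ) = 0
  r : n * χ * γ = 0

variable {s : K →+* Module.End (ZMod 2) V} {n m χ γ γ' : Module.End (ZMod 2) V}

theorem lin_sub {r : Module.End (ZMod 2) V} (h : Lin s n m r) : Lin s n m (r - 1) :=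
  ⟨fun a => (h.cs a).sub_right (Commute.one_right _), h.cn.sub_right (Commute.one_right _),
    h.cm.sub_right (Commute.one_right _)⟩

namespace Cx

variable (h : Cx s n m χ)
include h

theorem nma {a : Module.End (ZMod 2) V} (ha : n * a = 0) : n * (m * a) = a := by
  calc n * (m * a) = n * (m * a) + m * (n * a) := by rw [ha, mul_zero, add_zero]
    _ = a := by rw [← mul_assoc, ← mul_assoc, ← add_mul, h.nm, one_mul]

theorem bmn {b : Module.End (ZMod 2) V} (hb : b * n = 0) : b * m * n = b := by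
  calc b * m * n = b * n * m + b * m * n := by rw [hb, zero_mul, zero_add]
    _ = b := by rw [mul_assoc, mul_assoc, ← mul_add, h.nm, mul_one]

theorem p2 {a b : Module.End (ZMod 2) V} (h1 : χ * a = 0) (h2 : n * a = 0) (h3 : b * (n * χ) = 0) : b * a = 0 := by
  rw [← h.nma h2, ← mul_assoc]
  exact h.p1 _ _ (by rw [← mul_assoc, ← h.lin.cm.eq, mul_assoc, h1, mul_zero]) (by rw [mul_assoc, h3])

theorem p3 {a b : Module.End (ZMod 2) V} (h1 : b * χ = 0) (h2 : b * n = 0) (h3 : n * χ * a = 0) : b * a = 0 := by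
  rw [← h.bmn h2, mul_assoc]
  exact h.p1 _ _ (by rw [← mul_assoc, ← h.lin.cn.eq, h3]) (by rw [mul_assoc, h.lin.cm.eq, ← mul_assoc, h1, zero_mul])

theorem nr (t : TT n χ γ) : n * (γ * χ) = 0 := by rw [t.c, ← mul_assoc, t.r]

theorem rn (t : TT n χ γ) : γ * χ * n = 0 := by rw [mul_assoc, ← h.lin.cn.eq, t.l]

theorem rr (t : TT n χ γ) (t' : TT n χ γ') : γ * (γ' * χ) = 0 :=
  h.p2 (by rw [← mul_assoc, ← t'.c, mul_assoc, h.sq, mul_zero]) (h.nr t') t.l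

theorem ss (t : TT n χ γ) (t' : TT n χ γ') : n * γ * (γ' * n) = 0 :=
  h.p1 _ _ (by rw [← mul_assoc, ← t'.c, h.rn t']) (by rw [mul_assoc, h.nr t])

theorem mul (t : TT n χ γ) (t' : TT n χ γ') : TT n χ (γ + γ' + γ * γ') ∧
    (γ + γ' + γ * γ') * χ = γ * χ + γ' * χ ∧ n * (γ + γ' + γ * γ') * n = n * γ * n + n * γ' * n := by
  refine ⟨⟨?_, ?_, ?_⟩, ?_, ?_⟩
  · rw [add_mul, add_mul, mul_add, mul_add, mul_assoc, t'.c, ← mul_assoc, t.c, mul_assoc]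
  · rw [add_mul, add_mul, mul_assoc γ γ', t.l, t'.l, mul_zero, add_zero, add_zero]
  · rw [mul_add, mul_add, ← mul_assoc _ γ γ', t.r, t'.r, zero_mul, add_zero, add_zero]
  · rw [add_mul, add_mul, mul_assoc, h.rr t t', add_zero]
  · rw [mul_add, mul_add, add_mul, add_mul, ← mul_assoc n γ γ', mul_assoc (n * γ) γ', h.ss t t', add_zero]

theorem dg_l {a : Module.End (ZMod 2) V} (ha : n * a = 0) (μ : K) : dg s n m μ * a = s μ * a := by
  rw [dg, add_mul, mul_assoc, mul_assoc, h.nma ha, mul_assoc, mul_assoc, ha, mul_zero, mul_zero, add_zero]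

theorem dg_r {b : Module.End (ZMod 2) V} (hb : b * n = 0) (μ : K) : b * dg s n m μ = b * s μ⁻¹ := by
  rw [dg, ((h.sn μ).mul_right (h.sm μ)).eq, ((h.sm μ⁻¹).mul_right (h.sn μ⁻¹)).eq, mul_add, ← mul_assoc, ← mul_assoc,
    hb, zero_mul, zero_mul, zero_add, ← mul_assoc, ← mul_assoc, h.bmn hb]

theorem dg_c (μ : K) : Commute (dg s n m μ) χ :=
  ((h.lin.cs μ).mul_left (h.lin.cn.mul_left h.lin.cm)).add_left ((h.lin.cs μ⁻¹).mul_left (h.lin.cm.mul_left h.lin.cn))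

theorem dg_inv {μ : K} (hμ : μ ≠ 0) : dg s n m μ * dg s n m μ⁻¹ = 1 := by
  have e1 : dg s n m μ * n = s μ * n := h.dg_l h.nn μ
  have e2 : dg s n m μ * (m * n) = s μ⁻¹ * (m * n) := by
    rw [dg, add_mul, mul_assoc, mul_assoc n, ← mul_assoc m m, h.mm, zero_mul, mul_zero, mul_zero, zero_add,
      mul_assoc, mul_assoc m, h.nma h.nn]
  rw [show dg s n m μ⁻¹ = n * m * s μ⁻¹ + m * n * s μ by
      rw [dg, inv_inv, ((h.sn μ⁻¹).mul_right (h.sm μ⁻¹)).eq, ((h.sm μ).mul_right (h.sn μ)).eq],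
    mul_add, ← mul_assoc, ← mul_assoc, e1, ← mul_assoc _ (m * n), e2, mul_assoc (s μ) n,
    ((h.sn μ).mul_right (h.sm μ)).eq, ((h.sm μ⁻¹).mul_right (h.sn μ⁻¹)).eq, mul_assoc _ (s μ), mul_assoc _ (s μ⁻¹),
    ← map_mul, ← map_mul, mul_inv_cancel₀ hμ, inv_mul_cancel₀ hμ, map_one, mul_one, mul_one, h.nm]

theorem conj (t : TT n χ γ) (μ : K) : TT n χ (dg s n m μ * γ * dg s n m μ⁻¹) ∧
    dg s n m μ * γ * dg s n m μ⁻¹ * χ = s μ * (γ * χ) * s μ ∧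
    n * (dg s n m μ * γ * dg s n m μ⁻¹) * n = s μ⁻¹ * (n * γ * n) * s μ⁻¹ := by
  have c1 : ∀ a, Commute (s a) (n * χ) := fun a => (h.sn a).mul_right (h.lin.cs a)
  refine ⟨⟨?_, ?_, ?_⟩, ?_, ?_⟩
  · exact (((h.dg_c μ).mul_left t.c).mul_left (h.dg_c μ⁻¹)).eq
  · rw [mul_assoc, h.dg_l (a := n * χ) (by rw [← mul_assoc, h.nn, zero_mul]), (c1 _).eq, mul_assoc, ← mul_assoc γ,
      t.l, zero_mul, mul_zero]
  · rw [← mul_assoc, ← mul_assoc,
      h.dg_r (b := n * χ) (by rw [mul_assoc, ← h.lin.cn.eq, ← mul_assoc, h.nn, zero_mul]),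
      ← (c1 _).eq, mul_assoc _ _ γ, t.r, mul_zero, zero_mul]
  · rw [mul_assoc, (h.dg_c μ⁻¹).eq, ← mul_assoc, mul_assoc _ γ, h.dg_l (h.nr t), mul_assoc, h.dg_r (h.rn t), inv_inv,
      ← mul_assoc]
  · rw [← mul_assoc, ← mul_assoc, h.dg_r h.nn, mul_assoc _ _ n, h.dg_l h.nn, ← (h.sn _).eq, (h.sn μ⁻¹).eq]
    rw [← (h.sn μ⁻¹).eq]
    simp only [mul_assoc]
    rw [(h.sn μ⁻¹).eq]

end Cx

theorem exists_mu [Finite K] (h : 8 ≤ Nat.card K) : ∃ μ : K, μ ≠ 0 ∧ μ ^ 3 ≠ 1 := by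
  obtain ⟨g, hg⟩ := IsCyclic.exists_ofOrder_eq_natCard (α := Kˣ)
  refine ⟨g, g.ne_zero, fun e => ?_⟩
  have := Nat.le_of_dvd (by norm_num) (orderOf_dvd_of_pow_eq_one (x := g) (n := 3) (Units.ext e))
  rw [hg, Nat.card_units] at this
  omega

end LASTx

open LASTx in
theorem last : LAST.{u} := by
  intro H V _ _ _ _ _ K _ _ ρ s n m x y h f c c' k q l
  have hnt := h.nt
  have hU := h.half c l.c1 l.cc
  have hr := h.rng c l.c1 l.cc
  have hf' := h.fix _ hU c' l.mem l.c1'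
  have hr' := (h.rng c' l.c1' (h.sq _ hU c' l.mem)).trans hf'
  obtain ⟨χ, hχ⟩ : ∃ χ, χ = ρ c - 1 := ⟨_, rfl⟩
  obtain ⟨ψ, hψ⟩ : ∃ ψ, ψ = ρ c' - 1 := ⟨_, rfl⟩
  obtain ⟨κ, hκ⟩ : ∃ κ, κ = ρ k - 1 := ⟨_, rfl⟩
  have lχ : Lin s n m χ := hχ ▸ lin_sub l.lin
  have lψ : Lin s n m ψ := hψ ▸ lin_sub l.lin'
  have hker : ∀ v, v ∈ Fix ρ c ↔ χ v = 0 := fun v => by rw [hχ]; rfl
  have hrng : ∀ v, v ∈ Fix ρ c ↔ ∃ w, χ w = v := fun v => by rw [← hr, hχ]; rfl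
  have hrng' : ∀ v, v ∈ Fix ρ c ↔ ∃ w, ψ w = v := fun v => by rw [← hr', hψ]; rfl
  have C : Cx s n m χ := ⟨f.sn, f.sm, f.nn, f.mm, f.nm, lχ,
    LinearMap.ext fun v => (hker _).1 ((hrng _).2 ⟨v, rfl⟩), fun a b ha hb => LinearMap.ext fun v => by
      obtain ⟨w, hw⟩ := (hrng _).1 ((hker (a v)).2 (LinearMap.congr_fun ha v))
      rw [Module.End.mul_apply, ← hw]
      exact LinearMap.congr_fun hb w⟩
  have χψ : χ * ψ = 0 := LinearMap.ext fun v => (hker _).1 ((hrng' _).2 ⟨v, rfl⟩)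
  have ψχ : ψ * χ = 0 := by rw [hψ, hχ]; exact h.quad _ hU c' l.mem c (mem_AU_Fix c)
  have swap : ∀ b, b * ψ = 0 → b * χ = 0 := fun b hb => LinearMap.ext fun v => by
    obtain ⟨w, hw⟩ := (hrng' _).1 ((hrng (χ v)).2 ⟨v, rfl⟩)
    rw [Module.End.mul_apply, ← hw]
    exact LinearMap.congr_fun hb w
  have inv : ∀ r, Commute r χ → ∀ w ∈ Fix ρ c, r w ∈ Fix ρ c := fun r hc w hw => by
    rw [hker] at hw ⊢
    rw [← Module.End.mul_apply, ← hc.eq, Module.End.mul_apply, hw, map_zero]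
  have cen : ∀ g : H, (ρ g - 1) * χ = 0 → Lin s n m (ρ g - 1) := fun g hg =>
    lin_sub (f.cen _ hU.ne_bot (fun a => inv _ (lχ.cs a)) (inv _ lχ.cn) (inv _ lχ.cm) g
      (by rw [← hr, mem_AU_range, ← hχ]; exact hg))
  have tk : TT n χ κ := ⟨by
    rw [hκ, hχ]
    exact (((l.kc.map ρ).sub_left (Commute.one_left _)).sub_right (Commute.one_right _)).eq,
    hκ ▸ hχ ▸ l.k1, hκ ▸ hχ ▸ l.k2⟩
  have ek : ρ k = 1 + κ := by rw [hκ, add_sub_cancel]
  have sk : n * κ * n = n * ψ := by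
    have e1 := congrArg ρ (mul_inv_eq_iff_eq_mul.1 l.kq)
    rw [map_mul, map_mul, map_mul, l.hq, show ρ c' = 1 + ψ by rw [hψ, add_sub_cancel], ek] at e1
    have e2 : n * ψ * κ = 0 := C.p3 (by rw [mul_assoc, ψχ, mul_zero])
      (by rw [mul_assoc, ← lψ.cn.eq, ← mul_assoc, f.nn, zero_mul]) tk.r
    have e3 := congrArg (n * ·) e1
    have e4 : n * ((1 + κ) * (1 + n)) = n + n * κ + n * κ * n + n * n := by noncomm_ring
    have e5 : n * ((1 + n) * (1 + ψ) * (1 + κ)) = n + n * κ + n * ψ + n * ψ * κ + n * n * ((1 + ψ) * (1 + κ)) := by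
      noncomm_ring
    simp only [e4, e5, f.nn, e2, zero_mul, add_zero] at e3
    exact add_left_cancel e3
  have nψ : n * ψ ≠ 0 := fun e => l.c1' (h.inj (by
    have := C.nma e
    rw [lψ.cm.eq, ← mul_assoc, e, zero_mul, hψ] at this
    rw [map_one, sub_eq_zero.1 this.symm]))
  have prod : ∀ a b : H, ρ (a * b) - 1 = (ρ a - 1) + (ρ b - 1) + (ρ a - 1) * (ρ b - 1) := fun a b => by
    rw [map_mul]; noncomm_ring
  have l2 : Lin s n m (κ * κ) := by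
    have e : ρ (k * k) - 1 = κ * κ := by rw [prod, ← hκ, add_self_End, zero_add]
    exact e ▸ cen (k * k) (by rw [e, mul_assoc, C.rr tk tk])
  have e2 : κ * κ * n = κ * ψ := by
    have := C.p2 (a := κ * n - ψ) (b := κ) (by rw [mul_sub, χψ, ← mul_assoc, ← tk.c, C.rn tk, sub_zero])
      (by rw [mul_sub, ← mul_assoc, sk, sub_self]) tk.l
    rwa [mul_sub, ← mul_assoc, sub_eq_zero] at this
  have rk : ∀ a, Commute (s a) (κ * χ) := fun a => by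
    have c1 : Commute (s a) (κ * ψ) := e2 ▸ (l2.cs a).mul_right (f.sn a)
    have c2 := swap (s a * κ - κ * s a) (by
      rw [sub_mul, mul_assoc, c1.eq, mul_assoc κ (s a), (lψ.cs a).eq, mul_assoc, sub_self])
    rw [sub_mul, sub_eq_zero, mul_assoc, mul_assoc, (lχ.cs a).eq, ← mul_assoc κ] at c2
    exact c2
  have sψ : ∀ a, Commute (s a) (n * ψ) := fun a => (f.sn a).mul_right (lψ.cs a)
  have cj : ∀ μ : K, μ ≠ 0 → ∃ g : H, TT n χ (ρ g - 1) ∧ (ρ g - 1) * χ = s (μ * μ) * (κ * χ) ∧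
      n * (ρ g - 1) * n = s (μ⁻¹ * μ⁻¹) * (n * ψ) := fun μ hμ => by
    obtain ⟨t, -, ht⟩ := f.tor μ hμ
    have e1 : ρ t⁻¹ = dg s n m μ⁻¹ := by
      rw [← mul_one (ρ t⁻¹), ← C.dg_inv hμ, ← ht, ← mul_assoc, ← map_mul, inv_mul_cancel, map_one, one_mul]
    have e : ρ (t * k * t⁻¹) - 1 = dg s n m μ * κ * dg s n m μ⁻¹ := by
      rw [map_mul, map_mul, ht, e1, ek, mul_add, add_mul, mul_one, C.dg_inv hμ, add_sub_cancel_left]
    obtain ⟨a1, a2, a3⟩ := C.conj tk μ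
    refine ⟨t * k * t⁻¹, e ▸ a1, ?_, ?_⟩
    · rw [e, a2, mul_assoc, ← (rk μ).eq, ← mul_assoc, map_mul]
    · rw [e, a3, sk, mul_assoc, ← (sψ μ⁻¹).eq, ← mul_assoc, map_mul]
  have h2 : (2 : K) = 0 := s.injective (by rw [map_ofNat, map_zero, two_End])
  obtain ⟨μ, μ0, μ3⟩ := exists_mu f.card
  have μ1 : 1 + μ ≠ 0 := fun e => μ3 (by
    rw [show μ = 1 by linear_combination e - h2, one_pow])
  obtain ⟨g1, t1, r1, s1⟩ := cj μ μ0
  obtain ⟨g2, t2, r2, s2⟩ := cj _ μ1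
  obtain ⟨t3, r3, s3⟩ := C.mul tk t1
  have ek1 := prod k g1
  rw [← hκ] at ek1
  rw [← ek1] at t3 r3 s3
  obtain ⟨-, r4, s4⟩ := C.mul t3 t2
  rw [← prod] at r4 s4
  have r5 : (ρ (k * g1 * g2) - 1) * χ = 0 := by
    have z : s (1 + μ * μ + (1 + μ) * (1 + μ)) * (κ * χ) = 0 := by
      rw [show 1 + μ * μ + (1 + μ) * (1 + μ) = 0 by linear_combination (1 + μ + μ ^ 2) * h2, map_zero, zero_mul]
    rw [map_add, map_add, add_mul, add_mul, map_one, one_mul] at z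
    rw [r4, r3, r1, r2, z]
  have s5 : s (1 + μ⁻¹ * μ⁻¹ + (1 + μ)⁻¹ * (1 + μ)⁻¹) * (n * ψ) = 0 := by
    rw [map_add, map_add, add_mul, add_mul, map_one, one_mul, ← s1, ← s2, ← sk, ← s3, ← s4, (cen _ r5).cn.eq,
      mul_assoc, f.nn, mul_zero]
  have s6 : 1 + μ⁻¹ * μ⁻¹ + (1 + μ)⁻¹ * (1 + μ)⁻¹ = 0 := by
    by_contra e
    apply nψ
    rw [← one_mul (n * ψ), ← map_one s, ← inv_mul_cancel₀ e, map_mul, mul_assoc, s5, mul_zero]
  have s7 : (μ ^ 2 + μ + 1) ^ 2 = 0 := by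
    field_simp at s6
    linear_combination s6
  have s8 := (pow_eq_zero_iff two_ne_zero).1 s7
  exact μ3 (by linear_combination (μ - 1) * s8)

end CL.Ggn
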