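/-
S4841: the degree bound from the eigenvalues of a fixed-point-free element of prime order.
-/
import Cfsg.Agent.Ggn.Defs

set_option autoImplicit false

namespace CL.Ggn

open Cfsg Subgroup Polynomial
open scoped MatrixGroups

universe u

namespace MinJ

theorem aeval_semi {R A : Type*} [CommRing R] [Ring A] [Algebra R A] {c x y : A} (h : SemiconjBy c x y) (f : R[X]) :
    c * aeval x f = aeval y f * c := by
  refine Polynomial.induction_on' f (fun f g hf hg => by rw [map_add, map_add, mul_add, add_mul, hf, hg]) fun n a => ?_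
  rw [aeval_monomial, aeval_monomial, ← mul_assoc, ← Algebra.commutes, mul_assoc, (h.pow_right n).eq, mul_assoc]

end MinJ

theorem minThm : MIN.{u} := by
  intro p _ H V _ _ _ _ _ ρ h u s hs hsp ho hc
  have := h.nt
  have : Fact s.Prime := ⟨hs⟩
  have hi : IsIntegral (ZMod p) (ρ u) := Algebra.IsIntegral.isIntegral _
  have hd : (minpoly (ZMod p) (ρ u)).natDegree ≤ Module.finrank (ZMod p) V :=
    (ρ u).charpoly_natDegree ▸ natDegree_le_of_dvd (ρ u).minpoly_dvd_charpoly (ρ u).charpoly_monic.ne_zero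
  obtain ⟨ζ, hζ⟩ := IsAlgClosed.exists_aeval_eq_zero (AlgebraicClosure (ZMod p)) (minpoly (ZMod p) (ρ u))
    (minpoly.degree_pos hi).ne'
  have z1 : ζ ^ s = 1 := by
    have := aeval_eq_zero_of_dvd_aeval_eq_zero (minpoly.dvd (ZMod p) (ρ u) (p := X ^ s - 1)
      (by rw [map_sub, map_pow, aeval_X, map_one, ← map_pow, ← ho, pow_orderOf_eq_one, map_one, sub_self])) hζ
    rwa [map_sub, map_pow, aeval_X, map_one, sub_eq_zero] at this
  have z2 : ζ ≠ 1 := by
    rintro rfl
    rw [← map_one (algebraMap (ZMod p) _), aeval_algebraMap_apply_eq_algebraMap_eval, map_eq_zero] at hζ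
    obtain ⟨v, hv⟩ := (Module.End.hasEigenvalue_iff_isRoot.2 hζ).exists_hasEigenvector
    refine hv.2 (h.fpf (g := u) (ho ▸ (Nat.coprime_primes hs Fact.out).2 hsp) ?_ (by rw [hv.apply_eq_smul, one_smul]))
    rintro rfl
    exact hs.one_lt.ne (orderOf_one.symm.trans ho)
  have z3 : orderOf ζ = s := orderOf_eq_prime z1 z2
  have z4 : ∀ j, ¬ s ∣ j → aeval (ζ ^ j ^ 2) (minpoly (ZMod p) (ρ u)) = 0 := fun j hj => by
    obtain ⟨c, e⟩ := isConj_iff.1 (hc j hj)
    rw [← expand_aeval]
    refine aeval_eq_zero_of_dvd_aeval_eq_zero (minpoly.dvd (ZMod p) (ρ u) ?_) hζ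
    have := MinJ.aeval_semi (c := ρ c) (x := ρ u) (y := ρ u ^ j ^ 2)
      (by rw [SemiconjBy, ← map_pow, ← e, ← map_mul, ← map_mul, inv_mul_cancel_right]) (minpoly (ZMod p) (ρ u))
    rw [minpoly.aeval, mul_zero] at this
    rw [expand_aeval, ← mul_one (aeval _ _), ← map_one ρ, ← mul_inv_cancel c, map_mul, ← mul_assoc, ← this, zero_mul]
  classical
  have z5 := card_le_degree_of_subset_roots (p := (minpoly (ZMod p) (ρ u)).map (algebraMap _ (AlgebraicClosure (ZMod p))))
    (Z := (Finset.Icc 1 ((s - 1) / 2)).image fun j => ζ ^ j ^ 2) fun x hx => by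
      obtain ⟨j, hj, rfl⟩ := Finset.mem_image.1 (Finset.mem_def.2 hx)
      rw [Finset.mem_Icc] at hj
      rw [mem_roots (map_monic_ne_zero (minpoly.monic hi)), IsRoot, eval_map_algebraMap]
      exact z4 j fun k => by have := Nat.le_of_dvd (by omega) k; omega
  have key : ∀ i j, 1 ≤ i → i ≤ j → j ≤ (s - 1) / 2 → ζ ^ i ^ 2 = ζ ^ j ^ 2 → i = j := fun i j h1 h2 h3 e => by
    have z0 : IsOfFinOrder ζ := isOfFinOrder_iff_pow_eq_one.2 ⟨s, hs.pos, z1⟩
    rw [z0.pow_eq_pow_iff_modEq, z3, Nat.modEq_iff_dvd' (Nat.pow_le_pow_left h2 2), Nat.sq_sub_sq, hs.dvd_mul] at e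
    rcases e with e | e
    · have := Nat.le_of_dvd (by omega) e; omega
    · have := Nat.eq_zero_of_dvd_of_lt e (by omega); omega
  rw [Finset.card_image_of_injOn fun i hi j hj e => by
    rw [Finset.coe_Icc, Set.mem_Icc] at hi hj
    exact (le_total i j).elim (fun k => key i j hi.1 k hj.2 e) fun k => (key j i hj.1 k hi.2 e.symm).symm,
    natDegree_map, Nat.card_Icc] at z5
  have := minpoly.natDegree_pos hi
  rcases hs.eq_two_or_odd with e | e <;> omega

end CL.Ggn
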