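/-
Project GGN (S4841), job NUM: the numerical step.
-/
import Cfsg.Agent.Ggn.Defs

set_option autoImplicit false

namespace CL.Ggn

open Cfsg Subgroup

universe u

namespace NUMx

theorem big (t : ℕ) (ht : 18 ≤ t) : (2 * t + 1) ^ 6 ≤ 9 * 3 ^ t := by
  induction t, ht using Nat.le_induction with
  | base => norm_num
  | succ t ht ih =>
    have h1 : 10 * (2 * (t + 1) + 1) ≤ 11 * (2 * t + 1) := by omega
    have h2 := Nat.pow_le_pow_left h1 6
    rw [mul_pow, mul_pow] at h2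
    rw [pow_succ 3 t]
    norm_num at h2
    omega

theorem small : ∀ q < 38, q.Prime → q ∈ [2, 3, 5, 7, 11, 13, 17, 19, 23, 29, 31, 37] := by
  intro q hq hp
  interval_cases q <;> first | decide | exact absurd hp (by norm_num)

def Q1 (s p M n : ℕ) : Prop := M ∣ p ^ n - 1 → p ^ n ≤ M ^ 2 → s ≤ 2 * n + 1 → s < 37 →
  p = 3 ∧ ((s = 5 ∧ n = 4) ∨ (s = 13 ∧ n = 6))

instance (s p M n : ℕ) : Decidable (Q1 s p M n) := by unfold Q1; infer_instance

def Q2 (s p j : ℕ) : Prop := j ≠ 0 → p ^ j ∣ s * (s ^ 2 - 1) → ¬ p ∣ s * (s ^ 2 - 1) / p ^ j →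
  ∀ n < 20, Q1 s p (s * (s ^ 2 - 1) / p ^ j) n

instance (s p j : ℕ) : Decidable (Q2 s p j) := by unfold Q2; infer_instance

def Q3 (s p : ℕ) : Prop := 5 ≤ s → p ≠ 2 → s ≠ p → ∀ j < 10, Q2 s p j

instance (s p : ℕ) : Decidable (Q3 s p) := by unfold Q3; infer_instance

theorem tab : ∀ s ∈ [2, 3, 5, 7, 11, 13, 17, 19, 23, 29, 31, 37],
    ∀ p ∈ [2, 3, 5, 7, 11, 13, 17, 19, 23, 29, 31, 37], Q3 s p := by decide +kernel

end NUMx

theorem numThm : NUM := by
  intro p s n j M hp hp2 hs h5 hsp he hpM hj hM hn hsn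
  have hp3 : 3 ≤ p := by have := hp.two_le; omega
  have hpj : 3 ^ j ≤ p ^ j := Nat.pow_le_pow_left hp3 j
  have hj3 : 3 ^ 1 ≤ 3 ^ j := Nat.pow_le_pow_right (by norm_num) (by omega)
  have hM0 : 0 < M := Nat.pos_of_ne_zero fun e => hpM (e ▸ dvd_zero p)
  have hs3 : s * (s ^ 2 - 1) < s ^ 3 := by
    have : s ^ 2 - 1 < s ^ 2 := Nat.sub_lt (by positivity) one_pos
    calc s * (s ^ 2 - 1) < s * s ^ 2 := Nat.mul_lt_mul_of_pos_left this (by omega)
      _ = s ^ 3 := by ring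
  have h3M : 3 * M < s ^ 3 := by
    have : 3 * M ≤ p ^ j * M := Nat.mul_le_mul_right M (by omega)
    omega
  have h9 : 9 * 3 ^ n < s ^ 6 := by
    have h1 : 3 ^ n ≤ p ^ n := Nat.pow_le_pow_left hp3 n
    have h2 : (3 * M) ^ 2 < (s ^ 3) ^ 2 := Nat.pow_lt_pow_left h3M (by norm_num)
    rw [mul_pow, ← pow_mul] at h2
    norm_num at h2
    omega
  have hs37 : s < 37 := by
    by_contra h
    have h1 := NUMx.big n (by omega)
    have h2 := Nat.pow_le_pow_left hsn 6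
    omega
  have hn20 : n < 20 := by
    by_contra h
    have h1 : 3 ^ 20 ≤ 3 ^ n := Nat.pow_le_pow_right (by norm_num) (by omega)
    have h2 : s ^ 6 ≤ 36 ^ 6 := Nat.pow_le_pow_left (by omega) 6
    omega
  have hj10 : j < 10 := by
    by_contra h
    have h1 : 3 ^ 10 ≤ 3 ^ j := Nat.pow_le_pow_right (by norm_num) (by omega)
    have h2 : s ^ 3 ≤ 36 ^ 3 := Nat.pow_le_pow_left (by omega) 3
    have h3 : p ^ j ≤ p ^ j * M := Nat.le_mul_of_pos_right _ hM0
    omega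
  have hp38 : p < 38 := by
    have h1 : p ∣ s * (s ^ 2 - 1) := he ▸ (dvd_pow_self p hj).mul_right M
    have h2 : s ^ 2 - 1 = (s + 1) * (s - 1) := by simpa using Nat.sq_sub_sq s 1
    rw [h2] at h1
    rcases (Nat.Prime.dvd_mul hp).1 h1 with h | h
    · have := Nat.le_of_dvd (by omega) h; omega
    · rcases (Nat.Prime.dvd_mul hp).1 h with h | h <;> (have := Nat.le_of_dvd (by omega) h; omega)
  have hMe : s * (s ^ 2 - 1) / p ^ j = M := by rw [he, Nat.mul_div_cancel_left _ (by positivity)]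
  exact NUMx.tab s (NUMx.small s (by omega) hs) p (NUMx.small p hp38 hp) h5 hp2 hsp j hj10 hj ⟨M, he⟩
    (hMe ▸ hpM) n hn20 (hMe ▸ hM) (hMe ▸ hn) hsn hs37

end CL.Ggn
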