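/-
S4841: the outer automorphisms induced on a normal subgroup `SL₂(q)`.
-/
import Cfsg.Agent.Ggn.Defs
import Cfsg.Agent.S2602
import Cfsg.Agent.Known.GLAut1

set_option autoImplicit false

namespace CL.Ggn

open Cfsg Subgroup
open scoped MatrixGroups commutatorElement

universe u

namespace OUTx

theorem qAut_inj {X : Type*} [Group X] (h : commutator X = ⊤) {α : MulAut X} (e : CL.GLn.qAut X α = 1) : α = 1 := by
  have k : ∀ a, ∃ z ∈ center X, α a = a * z := fun a =>
    ⟨a⁻¹ * α a, QuotientGroup.eq.1 (congrArg (fun β : MulAut (X ⧸ center X) => β (a : X ⧸ center X)) e).symm, by group⟩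
  have : commutator X ≤ α.toMonoidHom.eqLocus (MonoidHom.id X) := commutator_le.2 fun a _ b _ => by
    obtain ⟨z, hz, ha⟩ := k a
    obtain ⟨w, hw, hb⟩ := k b
    change α ⁅a, b⁆ = ⁅a, b⁆
    rw [map_commutatorElement, ha, hb, commutatorElement_def, commutatorElement_def]
    calc a * z * (b * w) * (a * z)⁻¹ * (b * w)⁻¹ = a * (z * (b * w)) * z⁻¹ * (a⁻¹ * w⁻¹) * b⁻¹ := by group
      _ = _ := by rw [← mem_center_iff.1 hz, mem_center_iff.1 (inv_mem hw)]; group
  exact MulEquiv.ext fun a => this (h ▸ mem_top a)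

theorem abs {H O : Type*} [Group H] [Finite H] [Group O] {f : ℕ} (φ : H →* O) (ψ : O →* Multiplicative (ZMod f))
    (hs : Function.Surjective ψ) (hd : Nat.card ψ.ker ∣ 2) :
    φ.ker.index ∣ 2 * f ∧ ((Nat.card ψ.ker = 1 ∨ Odd φ.ker.index) → ∃ h : H, φ.ker ⊔ zpowers h = ⊤) := by
  refine ⟨?_, fun h => ?_⟩
  · rw [index_ker]
    refine (card_subgroup_dvd_card _).trans ?_
    rw [← ψ.ker.card_mul_index, index_ker, MonoidHom.range_eq_top.2 hs, card_top, Nat.card_congr Multiplicative.toAdd, Nat.card_zmod]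
    exact Nat.mul_dvd_mul_right hd f
  have k : ∀ g, ψ (φ g) = 1 → φ g = 1 := fun g hg => by
    have h1 := ψ.ker.orderOf_dvd_natCard hg
    rw [← orderOf_eq_one_iff]
    rcases h with h | h
    · exact Nat.dvd_one.1 (h ▸ h1)
    · rw [index_ker] at h
      exact Nat.eq_one_of_dvd_coprimes (Nat.coprime_two_left.2 h) (h1.trans hd) (φ.range.orderOf_dvd_natCard ⟨g, rfl⟩)
  obtain ⟨⟨_, h, rfl⟩, hh⟩ := IsCyclic.exists_zpow_surjective (G := (ψ.comp φ).range)
  refine ⟨h, eq_top_iff.2 fun g _ => ?_⟩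
  obtain ⟨n, hn⟩ := hh ⟨_, g, rfl⟩
  have hn' : ψ (φ h) ^ n = ψ (φ g) := congrArg Subtype.val hn
  rw [← inv_mul_cancel_right g (h ^ n)]
  exact mul_mem_sup (k _ (by rw [map_mul, map_mul, map_inv, map_inv, map_zpow, map_zpow, hn', mul_inv_cancel]))
    (zpow_mem (mem_zpowers h) n)

end OUTx

theorem outThm : OUT.{u} := by
  intro H _ _ L F _ _ r f hL hr hF h3 ⟨e⟩
  have := Fact.mk hr
  have hp : commutator L = ⊤ := by
    have := CL.SLn.isPerfect_SL (ι := Fin 2) (F := F)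
      (.inr (CL.SLn.exists_sq_ne_one_of_four_le (by rwa [Nat.card_eq_fintype_card])))
    exact (Group.IsPerfect.ofSurjective (f := e.symm.toMonoidHom) e.symm.surjective).commutator_eq_top
  let θ : H →* MulAut PSL(2, F) := (MulAut.congr (CL.SLn.centerQuotientEquiv e) : _ →* _).comp
    ((CL.GLn.qAut L).comp MulAut.conjNormal)
  have hθ : ∀ x : L, θ x = MulAut.conj (CL.SLn.centerQuotientEquiv e x) := fun x => by
    ext y
    obtain ⟨y, rfl⟩ := (CL.SLn.centerQuotientEquiv e).surjective y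
    obtain ⟨y, rfl⟩ := QuotientGroup.mk_surjective y
    simp only [θ, MulAut.conjNormal_val, MonoidHom.comp_apply, MonoidHom.coe_coe, MulAut.congr_apply,
      MulEquiv.trans_apply, MulEquiv.symm_apply_apply, CL.GLn.qAut_mk, MulAut.conj_apply,
      QuotientGroup.mk_mul, QuotientGroup.mk_inv, map_mul, map_inv]
  have hc : ∀ g, θ g = 1 ↔ g ∈ centralizer (L : Set H) := fun g => by
    refine ⟨fun h a ha => ?_, fun h => ?_⟩
    · have := OUTx.qAut_inj hp ((MulAut.congr (CL.SLn.centerQuotientEquiv e)).injective (h.trans (map_one _).symm))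
      exact (mul_inv_eq_iff_eq_mul.1 (congrArg Subtype.val (DFunLike.congr_fun this ⟨a, ha⟩))).symm
    · have : (MulAut.conjNormal g : MulAut L) = 1 :=
        MulEquiv.ext fun a => Subtype.ext (mul_inv_eq_iff_eq_mul.2 (h a a.2).symm)
      simp only [θ, MonoidHom.comp_apply, this, map_one]
  have hk : ((QuotientGroup.mk' (Inn PSL(2, F))).comp θ).ker = L ⊔ centralizer (L : Set H) := by
    refine le_antisymm (fun g hg => ?_) (sup_le (fun x hx => (QuotientGroup.eq_one_iff _).2 ⟨_, (hθ ⟨x, hx⟩).symm⟩)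
      fun g hg => by rw [MonoidHom.mem_ker, MonoidHom.comp_apply, (hc g).2 hg, map_one])
    obtain ⟨x, hx⟩ := (QuotientGroup.eq_one_iff _).1 hg
    obtain ⟨x, rfl⟩ := (CL.SLn.centerQuotientEquiv e).surjective x
    obtain ⟨x, rfl⟩ := QuotientGroup.mk_surjective x
    rw [← mul_inv_cancel_left (x : H) g]
    exact mul_mem_sup x.2 ((hc _).1 (by rw [map_mul, map_inv, hθ, hx, inv_mul_cancel]))
  have hf : 1 ≤ f := Nat.pos_of_ne_zero fun k => by rw [hF, k, pow_zero] at h3; omega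
  obtain ⟨ψ, h1, -, h2⟩ := Cfsg.Agent.S2602.result hf hF (hF ▸ h3)
  obtain ⟨a, b⟩ := OUTx.abs ((QuotientGroup.mk' (Inn PSL(2, F))).comp θ) ψ h1 (h2 ▸ Nat.gcd_dvd_left _ _)
  rw [hk] at a b
  refine ⟨a, fun h => b (h.imp_left fun k => ?_)⟩
  rw [h2, k]
  exact Nat.coprime_two_left.2 (Nat.Even.sub_odd Nat.one_le_two_pow (Nat.even_pow.2 ⟨even_two, by omega⟩) odd_one)

end CL.Ggn
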