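/-
S4841: the solvable radical of a perfect normal subgroup is a central 2-group.
-/
import Cfsg.Agent.Ggn.Defs
import Cfsg.Agent.Inv.Misc1
import Cfsg.Agent.Char.Burnside
import Cfsg.Agent.Grp.Supersolv

set_option autoImplicit false

namespace CL.Ggn

open Cfsg Subgroup CL.Grp
open scoped MatrixGroups

universe u

namespace PERFh

variable {X : Type*} [Group X] [Finite X]

omit [Finite X] in
theorem cen (hX : commutator X = ⊤) (Q : Subgroup X) [Q.Normal] (h : Group.IsSolvable (MulAut Q)) : Q ≤ center X := by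
  have e : (MulAut.conjNormal : X →* MulAut Q).range = ⊥ := by
    by_contra q
    refine (Group.IsSolvable.commutator_lt_of_ne_bot q).ne ?_
    rw [MonoidHom.range_eq_map, ← map_commutator, ← commutator_def, hX]
  intro x hx
  refine mem_center_iff.2 fun g => ?_
  have : MulAut.conjNormal (H := Q) g = 1 := mem_bot.1 (e ▸ ⟨g, rfl⟩)
  exact mul_inv_eq_iff_eq_mul.1 (congrArg (fun f : MulAut Q => (f ⟨x, hx⟩ : X)) this)

theorem core {p : ℕ} [hp : Fact p.Prime] (h : PQ p X) (o : pCore p X = ⊥) (hX : commutator X = ⊤) (r : ℕ)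
    [hr : Fact r.Prime] : pCore r X ≤ center X := by
  by_cases e : r = p
  · rw [e, o]; exact bot_le
  obtain ⟨k, hk⟩ := (pCore_isPGroup r X).exists_card_eq
  have cy : IsCyclic (pCore r X) → pCore r X ≤ center X := fun _ x hx => mem_center_iff.2 fun g =>
    (commutator_le_centralizer_of_isCyclic (pCore r X) (hX ▸ mem_top g) x hx).symm
  rcases (h _ (hk ▸ ((Nat.coprime_primes hr.out hp.out).2 e).pow_left k)).isCyclic_or_quaternion (P := ⊤)
    ((pCore_isPGroup r X).to_subgroup ⊤) with c | ⟨-, n, ⟨f⟩⟩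
  · exact cy (isCyclic_of_surjective topEquiv topEquiv.surjective)
  replace f := topEquiv.symm.trans f
  rcases n with _ | _ | n
  · have := QuaternionGroup.quaternionGroup_one_isCyclic
    exact cy (isCyclic_of_surjective f.symm f.symm.surjective)
  · exact cen hX _ (CL.Char.isSolvable_of_card_eq_pow_mul_pow (a := 3) (b := 1) Nat.prime_two Nat.prime_three
      (CL.Inv.card_mulAut_of_quaternion f))
  · obtain ⟨k, hk⟩ := IsPGroup.iff_card.1 (CL.Inv.isPGroup_mulAut_of_quaternion (by omega) f)
    exact cen hX _ (CL.Char.isSolvable_of_card_eq_pow_mul_pow (a := k) (b := 0) Nat.prime_two Nat.prime_three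
      (by rw [hk, pow_zero, mul_one]))

end PERFh

theorem perf : PERF.{u} := by
  intro p hp H _ _ h o L _ hL
  have h' : PQ p L := h.of_injective L.subtype L.subtype_injective
  have o' : pCore p L = ⊥ := (map_eq_bot_iff_of_injective _ L.subtype_injective).1
    (le_bot_iff.1 (o ▸ pCoreOf_le_pCore_of_normal L))
  have F : fittingSubgroup L ≤ center L := fittingSubgroup_le_of_forall_pCore_le (PERFh.core h' o' hL)
  refine ⟨IsPGroup.iff_card.2 ⟨_, Nat.eq_prime_pow_of_unique_prime_dvd Nat.card_pos.ne' fun {r} hr hd => ?_⟩,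
    fun R _ s => (le_fittingSubgroup_of_isSolvable_of_le_centralizer s fun x _ y hy =>
      (mem_center_iff.1 (F hy) x).symm).trans F⟩
  by_contra h2
  by_cases e : r = p
  · subst e
    obtain ⟨z, hz⟩ := exists_prime_orderOf_dvd_card' r hd
    have : (zpowers (z : L)).Normal := ⟨fun n hn g => by
      rwa [mem_center_iff.1 (zpowers_le.2 z.2 hn) g, mul_inv_cancel_right]⟩
    have := mem_bot.1 (o' ▸ le_pCore (IsPGroup.of_card (n := 1)
      (by rw [Nat.card_zpowers, orderOf_coe, hz, pow_one])) (mem_zpowers (z : L)))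
    rw [← orderOf_coe, this, orderOf_one] at hz
    exact hr.one_lt.ne hz
  · exact h'.not_dvd_center hp.out hL hr h2 e hd

end CL.Ggn
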