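/-
S4841 (Gagola): a group generated by two elements of order 3 in case II is quasisimple.
-/
import Cfsg.Agent.Ggn.Defs
import Cfsg.Agent.Grp.Coprime2

set_option autoImplicit false

namespace CL.Ggn

open Cfsg Subgroup
open scoped MatrixGroups

universe u

namespace QSx

variable {X : Type*} [Group X] [Finite X]

/-- an element of order 3 centralises every `3'`-group of prime power order which it normalises -/
theorem cent_of_pgroup (hq : PQ 2 X) (h2 : C2 X) {d : X} (hd : orderOf d = 3) {r : ℕ} (hr : r.Prime) (r3 : r ≠ 3)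
    {P : Subgroup X} (hP : IsPGroup r P) (hn : d ∈ normalizer (P : Set X)) : P ≤ centralizer {d} := by
  intro a ha
  rw [mem_centralizer_singleton_iff]
  by_cases r2 : r = 2
  · subst r2
    exact (h2.commute hd hP hn ha).eq.symm
  have := Fact.mk hr
  obtain ⟨k, hk⟩ := hP.exists_card_eq
  have hn' : zpowers d ≤ normalizer (P : Set X) := zpowers_le.2 hn
  have hc : (Nat.card (zpowers d ⊔ P : Subgroup X)).Coprime 2 := by
    refine Nat.Coprime.coprime_dvd_left (CL.Grp.card_sup_dvd hn') ?_
    rw [Nat.card_zpowers, hd, hk]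
    exact Nat.Coprime.mul_left (by decide) (((Nat.coprime_primes hr Nat.prime_two).2 r2).pow_left k)
  have hK := hq _ hc
  have := hK.isZGroup_of_odd (Nat.coprime_two_right.1 hc)
  have hdK : d ∈ zpowers d ⊔ P := mem_sup_left (mem_zpowers d)
  have hN := hK.normal_zpowers_of_isZGroup (x := ⟨d, hdK⟩)
    (by rw [← orderOf_coe, hd]; exact Nat.prime_three)
  obtain ⟨j, hj⟩ := hN.conj_mem _ (mem_zpowers _) ⟨a, mem_sup_right ha⟩
  have h1 : a ∈ normalizer (zpowers d : Set X) :=
    CL.Grp.mem_normalizer_zpowers_of_conj_mem_zpowers ⟨j, congrArg Subtype.val hj⟩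
  have h3 : Disjoint (zpowers d) P := by
    rw [disjoint_iff]
    refine inf_eq_bot_of_coprime ?_
    rw [Nat.card_zpowers, hd, hk]
    exact ((Nat.coprime_primes Nat.prime_three hr).2 r3.symm).pow_right k
  exact (CL.Grp.mem_centralizer_of_mem_normalizer_of_disjoint hn' h3 ha h1 d (mem_zpowers d)).symm

theorem cent_of_normal (hq : PQ 2 X) (h2 : C2 X) {d : X} (hd : orderOf d = 3) (N : Subgroup X) [N.Normal]
    (h3 : ¬ 3 ∣ Nat.card N) : N ≤ centralizer {d} := by
  refine CL.Grp.le_of_forall_exists_isSylowIn_le fun r hr hrN => ?_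
  have := Fact.mk hr
  obtain ⟨S, hS, hn⟩ := CL.Grp.exists_isSylowIn_le_normalizer (A := zpowers d) (K := N) r le_normalizer_of_normal
    (by rw [Nat.card_zpowers, hd]; exact (Nat.Prime.coprime_iff_not_dvd Nat.prime_three).2 h3)
    (Or.inl inferInstance)
  exact ⟨S, hS, cent_of_pgroup hq h2 hd hr (fun e => h3 (e ▸ hrN)) hS.isPGroup (hn (mem_zpowers d))⟩

theorem mem_of_normal (hq : PQ 2 X) {d : X} (hd : orderOf d = 3) (N : Subgroup X) [hN : N.Normal]
    (h3 : 3 ∣ Nat.card N) : d ∈ N := by
  have : Fact (Nat.Prime 3) := ⟨Nat.prime_three⟩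
  obtain ⟨c, hc⟩ := exists_prime_orderOf_dvd_card' 3 h3
  have p3 : ∀ {g : X}, orderOf g = 3 → IsPGroup 3 (zpowers g) := fun hg =>
    IsPGroup.of_card (n := 1) (by rw [Nat.card_zpowers, hg, pow_one])
  obtain ⟨P, hP⟩ := (p3 hd).exists_le_sylow
  obtain ⟨Q, hQ⟩ := (p3 (g := c) ((orderOf_coe c).trans hc)).exists_le_sylow
  obtain ⟨g, rfl⟩ := MulAction.exists_smul_eq X Q P
  have h1 : g * c * g⁻¹ ∈ g • Q := by
    have := smul_mem_pointwise_smul (c : X) (MulAut.conj g) (Q : Subgroup X) (hQ (mem_zpowers _))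
    exact this
  have := hq.isCyclic Nat.prime_two Nat.prime_three (by decide) (by decide) (g • Q).isPGroup'
  have h4 : orderOf (g * c * g⁻¹) = 3 :=
    ((MulEquiv.orderOf_eq (MulAut.conj g) (c : X)).trans (orderOf_coe c)).trans hc
  obtain ⟨j, hj⟩ := CL.Grp.mem_zpowers_of_isCyclic_of_pow_orderOf (T := (g • Q : Sylow 3 X))
    (z := ⟨_, h1⟩) (x := ⟨d, hP (mem_zpowers d)⟩)
    (Subtype.ext (by rw [← orderOf_coe, h4]; exact (hd ▸ pow_orderOf_eq_one d : d ^ 3 = 1)))
  rw [show d = (g * c * g⁻¹) ^ j from (congrArg Subtype.val hj).symm]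
  exact zpow_mem (hN.conj_mem _ c.2 g) j

omit [Finite X] in
theorem mem_center_of {x y c : X} (ht : closure ({x, y} : Set X) = ⊤) (hx : c ∈ centralizer {x})
    (hy : c ∈ centralizer {y}) : c ∈ center X := by
  have h1 : closure ({x, y} : Set X) ≤ centralizer {c} := by
    rw [closure_le]
    rintro _ (rfl | rfl)
    · exact mem_centralizer_singleton_iff.2 (mem_centralizer_singleton_iff.1 hx).symm
    · exact mem_centralizer_singleton_iff.2 (mem_centralizer_singleton_iff.1 hy).symm
  rw [ht] at h1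
  exact mem_center_iff.2 fun g => mem_centralizer_singleton_iff.1 (h1 (mem_top g))

theorem le_center_or (hq : PQ 2 X) (h2 : C2 X) {x y : X} (hx : orderOf x = 3) (hy : orderOf y = 3)
    (ht : closure ({x, y} : Set X) = ⊤) (N : Subgroup X) [N.Normal] : N ≤ center X ∨ N = ⊤ := by
  by_cases h3 : 3 ∣ Nat.card N
  · right
    rw [eq_top_iff, ← ht, closure_le]
    rintro _ (rfl | rfl)
    · exact mem_of_normal hq hx N h3
    · exact mem_of_normal hq hy N h3
  · exact Or.inl fun c hc => mem_center_of ht (cent_of_normal hq h2 hx N h3 hc) (cent_of_normal hq h2 hy N h3 hc)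

theorem not_mem_centralizer (hq : PQ 2 X) {x y : X} (hx : orderOf x = 3) (hy : orderOf y = 3) (h1 : y ≠ x)
    (h2 : y ≠ x⁻¹) (ht : closure ({x, y} : Set X) = ⊤) : y ∉ centralizer {x} := fun h => by
  classical
  have hc : x ∈ center X := mem_center_of ht (mem_centralizer_singleton_iff.2 rfl)
    (mem_centralizer_singleton_iff.2 (mem_centralizer_singleton_iff.1 h).symm)
  have : (zpowers x).Normal := ⟨fun n hn g => by
    rwa [mem_center_iff.1 (zpowers_le.2 hc hn) g, mul_inv_cancel_right]⟩
  have h3 := mem_of_normal hq hy (zpowers x) (by rw [Nat.card_zpowers, hx])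
  rw [mem_zpowers_iff_mem_range_orderOf, hx, Finset.mem_image] at h3
  obtain ⟨i, hi, rfl⟩ := h3
  rw [Finset.mem_range] at hi
  interval_cases i
  · simp at hy
  · exact h1 (pow_one x)
  · exact h2 (eq_inv_of_mul_eq_one_left (by rw [← pow_succ]; exact (hx ▸ pow_orderOf_eq_one x : x ^ 3 = 1)))

end QSx

open QSx in
theorem qs : QS.{u} := by
  intro X _ _ x y hq h2 hx hy h1 h1' ht
  have hn := not_mem_centralizer hq hx hy h1 h1' ht
  have hz : ¬ commutator X ≤ center X := fun h => by
    have : (centralizer {x} : Subgroup X).Normal :=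
      Subgroup.Normal.of_commutator_le X (h.trans (center_le_centralizer _))
    refine hn (mem_of_normal hq hy _ ?_)
    rw [← hx]
    exact orderOf_dvd_natCard _ (mem_centralizer_singleton_iff.2 rfl)
  have hc : commutator X = ⊤ := (le_center_or hq h2 hx hy ht _).resolve_left hz
  have hnc : ¬ IsMulCommutative (X ⧸ center X) := fun h =>
    hz (Subgroup.Normal.quotient_commutative_iff_commutator_le.1 h)
  refine ⟨hc, ?_, ?_, hnc⟩
  · rw [isPGroup_iff_primeFactors_card_subset two_ne_zero, Nat.prime_two.primeFactors]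
    intro r hr
    rw [Finset.mem_singleton]
    by_contra r2
    exact hq.not_dvd_center Nat.prime_two hc (Nat.prime_of_mem_primeFactors hr) r2 r2
      (Nat.dvd_of_mem_primeFactors hr)
  · have : Nontrivial (X ⧸ center X) := by
      by_contra h
      have := not_nontrivial_iff_subsingleton.1 h
      exact hnc ⟨⟨fun a b => Subsingleton.elim _ _⟩⟩
    refine ⟨fun N hN => ?_⟩
    have hs := QuotientGroup.mk'_surjective (center X)
    rcases le_center_or hq h2 hx hy ht (N.comap (QuotientGroup.mk' (center X))) with h | h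
    · left
      rw [← map_comap_eq_self_of_surjective hs N, Subgroup.map_eq_bot_iff, QuotientGroup.ker_mk']
      exact h
    · right
      rw [← map_comap_eq_self_of_surjective hs N, h, map_top_of_surjective _ hs]

end CL.Ggn
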