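/-
S4841 (Gagola): for `p = 2` a minimal non-solvable normal subgroup is simple.
-/
import Cfsg.Agent.Ggn.Defs

set_option autoImplicit false

namespace CL.Ggn

open Cfsg Subgroup
open scoped MatrixGroups

universe u

namespace SIMPx

variable {X : Type*} [Group X]

theorem solv_map {Y : Type*} [Group Y] (f : X →* Y) (hf : Function.Injective f) (K : Subgroup X)
    (h : Group.IsSolvable (K.map f)) : Group.IsSolvable K :=
  Group.isSolvable_of_isSolvable_injective (f := (K.equivMapOfInjective f hf).toMonoidHom)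
    (K.equivMapOfInjective f hf).injective

theorem solv_of_commutator (h : Group.IsSolvable (commutator X)) : Group.IsSolvable X :=
  Group.isSolvable_of_ker_le_range (commutator X).subtype (Abelianization.of (G := X))
    (by rw [range_subtype, Abelianization.ker_of])

variable [Finite X]

/-- commuting elements of the same odd prime order generate the same group -/
theorem mem_zpowers_of_commute (hq : PQ 2 X) {a b : X} {r : ℕ} (hr : r.Prime) (r2 : r ≠ 2) (ha : orderOf a = r)
    (hb : orderOf b = r) (hc : Commute a b) : a ∈ zpowers b := by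
  have h1 : a * b * a⁻¹ = b := by rw [hc.eq, mul_inv_cancel_right]
  have hn : zpowers a ≤ normalizer (zpowers b : Set X) :=
    zpowers_le.2 (CL.Grp.mem_normalizer_zpowers_of_conj_mem_zpowers (h1.symm ▸ mem_zpowers b))
  have h2 := (Nat.coprime_primes hr Nat.prime_two).2 r2
  have hK := hq (zpowers a ⊔ zpowers b) (Nat.Coprime.coprime_dvd_left (CL.Grp.card_sup_dvd hn)
    (by rw [Nat.card_zpowers, Nat.card_zpowers, ha, hb]; exact h2.mul_left h2))
  have ha' : orderOf (⟨a, mem_sup_left (mem_zpowers a)⟩ : (zpowers a ⊔ zpowers b : Subgroup X)) = r := by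
    rw [← orderOf_coe, ha]
  have hb' : orderOf (⟨b, mem_sup_right (mem_zpowers b)⟩ : (zpowers a ⊔ zpowers b : Subgroup X)) = r := by
    rw [← orderOf_coe, hb]
  obtain ⟨j, hj⟩ := (hK.commute_of_prime (ha' ▸ hr) (hb' ▸ hr)
    ⟨1, Subtype.ext (by simpa using h1.symm)⟩).2 (ha'.trans hb'.symm)
  exact ⟨j, congrArg Subtype.val hj⟩

/-- a non-solvable minimal normal subgroup is characteristic -/
theorem map_eq (hq : PQ 2 X) {M : Subgroup X} [M.Normal] (hs : ¬ Group.IsSolvable M)
    (hm : ∀ K : Subgroup X, K.Normal → K ≠ ⊥ → K ≤ M → M ≤ K) (φ : MulAut X) : M.map φ.toMonoidHom = M := by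
  have hn : (M.map φ.toMonoidHom).Normal := Normal.map inferInstance _ φ.surjective
  by_cases h : M ⊓ M.map φ.toMonoidHom = ⊥
  · exfalso
    have : Fact (Nat.Prime 2) := ⟨Nat.prime_two⟩
    have h2 : ¬ IsPGroup 2 M := fun h2 => hs (have := h2.isNilpotent; inferInstance)
    rw [isPGroup_iff_primeFactors_card_subset two_ne_zero, Nat.prime_two.primeFactors, Finset.not_subset] at h2
    obtain ⟨r, hr, r2⟩ := h2
    rw [Finset.mem_singleton] at r2
    have hp := Nat.prime_of_mem_primeFactors hr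
    have := Fact.mk hp
    obtain ⟨a, ha⟩ := exists_prime_orderOf_dvd_card' r (Nat.dvd_of_mem_primeFactors hr)
    have ha' : orderOf (a : X) = r := (orderOf_coe a).trans ha
    have hb : φ a ∈ M.map φ.toMonoidHom := ⟨a, a.2, rfl⟩
    have h3 := mem_zpowers_of_commute hq hp r2 ha' ((φ.orderOf_eq a).trans ha')
      (commute_of_normal_of_disjoint M _ inferInstance hn (disjoint_iff.2 h) _ _ a.2 hb)
    have h4 : (a : X) ∈ M ⊓ M.map φ.toMonoidHom := ⟨a.2, zpowers_le.2 hb h3⟩
    rw [h, mem_bot] at h4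
    rw [h4, orderOf_one] at ha'
    exact hp.one_lt.ne ha'
  · exact (eq_of_le_of_card_ge ((hm _ inferInstance h inf_le_left).trans inf_le_right)
      (card_map_of_injective φ.injective).le).symm

end SIMPx

open SIMPx in
theorem simpThm (h : PERF.{u}) : SIMP.{u} := by
  intro H _ _ hq hc hs
  have : Fact (Nat.Prime 2) := ⟨Nat.prime_two⟩
  obtain ⟨L, ⟨hLn, hLs⟩, hmin⟩ := (wellFounded_lt (α := Subgroup H)).has_min
    {L | L.Normal ∧ ¬ Group.IsSolvable L} ⟨⊤, inferInstance, fun h' =>
      hs (Group.isSolvable_of_surjective (f := (topEquiv (G := H)).toMonoidHom) topEquiv.surjective)⟩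
  have key : ∀ K : Subgroup L, (K.map L.subtype).Normal → ¬ Group.IsSolvable K → K = ⊤ := fun K hK hKs => by
    have h1 : K.map L.subtype = L := eq_of_le_of_not_lt (map_subtype_le K)
      (hmin _ ⟨hK, fun h' => hKs (solv_map _ L.subtype_injective K h')⟩)
    refine map_injective L.subtype_injective ?_
    rw [h1, ← MonoidHom.range_eq_map, range_subtype]
  have hperf : commutator L = ⊤ := key _ inferInstance fun h' => hLs (solv_of_commutator h')
  obtain ⟨h2, hR⟩ := h hq hc L hLn hperf
  have hZ : center L = ⊥ := by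
    have h1 : (center L).map L.subtype ≤ pCore 2 H := CL.Grp.le_pCore (h2.map _)
    rw [hc, le_bot_iff, Subgroup.map_eq_bot_iff, ker_subtype, le_bot_iff] at h1
    exact h1
  have hqL : PQ 2 L := hq.of_injective L.subtype L.subtype_injective
  have : Nontrivial L := by
    by_contra h'
    have := not_nontrivial_iff_subsingleton.1 h'
    exact hLs inferInstance
  refine ⟨L, hLn, ⟨fun N hN => or_iff_not_imp_left.2 fun hN1 => ?_⟩, fun h' =>
    hLs (Group.isSolvable_of_comm h'.is_comm.comm)⟩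
  obtain ⟨M, ⟨hMn, hM1, hMN⟩, hM⟩ := (wellFounded_lt (α := Subgroup L)).has_min
    {M | M.Normal ∧ M ≠ ⊥ ∧ M ≤ N} ⟨N, hN, hN1, le_rfl⟩
  have hMs : ¬ Group.IsSolvable M := fun h' => hM1 (le_bot_iff.1 (hZ ▸ hR M hMn h'))
  have h3 := map_eq hqL hMs fun K hK K1 hKM => (eq_of_le_of_not_lt hKM (hM K ⟨hK, K1, hKM.trans hMN⟩)).ge
  rw [eq_top_iff, ← key M ⟨?_⟩ hMs]
  · exact hMN
  rintro _ ⟨a, ha, rfl⟩ g
  exact ⟨MulAut.conjNormal g a, h3 (MulAut.conjNormal g) ▸ mem_map_of_mem _ ha, rfl⟩

end CL.Ggn
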