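/-
S4841, step TR: traces are central in the algebra generated by two elements of order 3, so there is no element of
order 6 modulo the centre.
-/
import Cfsg.Agent.Ggn.Defs

set_option autoImplicit false

namespace CL.Ggn

open Cfsg Subgroup
open scoped MatrixGroups

universe u

namespace TRx

section ring
variable {R : Type*} [Ring R]

/-- `r = a + bX + cY + dXY`, `r' = a + bX' + cY' + dY'X'` with central coefficients -/
def Rep (X Y X' Y' r r' : R) : Prop :=
  ∃ a ∈ Subring.centralizer ({X, Y} : Set R), ∃ b ∈ Subring.centralizer ({X, Y} : Set R),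
    ∃ c ∈ Subring.centralizer ({X, Y} : Set R), ∃ d ∈ Subring.centralizer ({X, Y} : Set R),
      r = a + b * X + c * Y + d * (X * Y) ∧ r' = a + b * X' + c * Y' + d * (Y' * X')

theorem cX {X Y a : R} (h : a ∈ Subring.centralizer ({X, Y} : Set R)) : X * a = a * X :=
  Subring.mem_centralizer_iff.1 h X (by simp)

theorem cY {X Y a : R} (h : a ∈ Subring.centralizer ({X, Y} : Set R)) : Y * a = a * Y :=
  Subring.mem_centralizer_iff.1 h Y (by simp)

theorem rep_one (X Y X' Y' : R) : Rep X Y X' Y' 1 1 :=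
  ⟨1, one_mem _, 0, zero_mem _, 0, zero_mem _, 0, zero_mem _, by simp, by simp⟩

theorem Rep.stepX {X Y X' Y' r r' : R} (hX : X * X = X + 1) (hX' : X' * X' = X' + 1) (h : Rep X Y X' Y' r r') :
    Rep X Y X' Y' (X * r) (r' * X') := by
  obtain ⟨a, ha, b, hb, c, hc, d, hd, rfl, rfl⟩ := h
  refine ⟨b, hb, a + b, add_mem ha hb, d, hd, c + d, add_mem hc hd, ?_, ?_⟩
  · have e : X * (a + b * X + c * Y + d * (X * Y)) = a * X + b * (X * X) + c * (X * Y) + d * (X * X * Y) := by
      simp only [mul_add, ← mul_assoc, cX ha, cX hb, cX hc, cX hd]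
    rw [e, hX]
    noncomm_ring
  · have e : (a + b * X' + c * Y' + d * (Y' * X')) * X' =
        a * X' + b * (X' * X') + c * (Y' * X') + d * (Y' * (X' * X')) := by
      simp only [add_mul, mul_assoc]
    rw [e, hX']
    noncomm_ring

theorem Rep.stepY {X Y X' Y' z r r' : R} (hz : z ∈ Subring.centralizer ({X, Y} : Set R)) (hY : Y * Y = Y + 1)
    (hY' : Y' * Y' = Y' + 1) (h1 : Y * X = z + X + Y + X * Y) (h2 : Y * X * Y = 1 + X + (z + 1) * Y)
    (h1' : X' * Y' = z + X' + Y' + Y' * X') (h2' : Y' * X' * Y' = 1 + X' + (z + 1) * Y') (h : Rep X Y X' Y' r r') :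
    Rep X Y X' Y' (Y * r) (r' * Y') := by
  obtain ⟨a, ha, b, hb, c, hc, d, hd, rfl, rfl⟩ := h
  refine ⟨c + b * z + d, add_mem (add_mem hc (mul_mem hb hz)) hd, b + d, add_mem hb hd, a + b + c + d * (z + 1),
    add_mem (add_mem (add_mem ha hb) hc) (mul_mem hd (add_mem hz (one_mem _))), b, hb, ?_, ?_⟩
  · have e : Y * (a + b * X + c * Y + d * (X * Y)) = a * Y + b * (Y * X) + c * (Y * Y) + d * (Y * X * Y) := by
      simp only [mul_add, ← mul_assoc, cY ha, cY hb, cY hc, cY hd]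
    rw [e, h2, h1, hY]
    noncomm_ring
  · have e : (a + b * X' + c * Y' + d * (Y' * X')) * Y' =
        a * Y' + b * (X' * Y') + c * (Y' * Y') + d * (Y' * X' * Y') := by
      simp only [add_mul, mul_assoc]
    rw [e, h2', h1', hY']
    noncomm_ring

theorem eq_of_two (h2 : ∀ r : R, r + r = 0) {r s : R} (t : R) (e : r = s + (t + t)) : r = s := by
  rw [e, h2, add_zero]

theorem z_mem (h2 : ∀ r : R, r + r = 0) {X Y : R} (hX : X * X = X + 1) (hY : Y * Y = Y + 1) :
    X + Y + X * Y + Y * X ∈ Subring.centralizer ({X, Y} : Set R) := by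
  rw [Subring.mem_centralizer_iff]
  rintro g (rfl | rfl)
  · have e1 : g * (g + Y + g * Y + Y * g) = g * g + g * Y + g * g * Y + g * Y * g := by noncomm_ring
    have e2 : (g + Y + g * Y + Y * g) * g = g * g + Y * g + g * Y * g + Y * (g * g) := by noncomm_ring
    rw [e1, e2, hX]
    refine eq_of_two h2 (g * Y - Y * g) ?_
    noncomm_ring
  · have e1 : g * (X + g + X * g + g * X) = g * X + g * g + g * X * g + g * g * X := by noncomm_ring
    have e2 : (X + g + X * g + g * X) * g = X * g + g * g + X * (g * g) + g * X * g := by noncomm_ring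
    rw [e1, e2, hY]
    refine eq_of_two h2 (g * X - X * g) ?_
    noncomm_ring

theorem Rep.stepY' (h2 : ∀ r : R, r + r = 0) {X Y r r' : R} (hX : X * X = X + 1) (hY : Y * Y = Y + 1)
    (h : Rep X Y (X + 1) (Y + 1) r r') : Rep X Y (X + 1) (Y + 1) (Y * r) (r' * (Y + 1)) := by
  have hz := z_mem h2 hX hY
  refine h.stepY hz hY ?_ ?_ ?_ ?_ ?_
  · have e : (Y + 1) * (Y + 1) = Y * Y + Y + Y + 1 := by noncomm_ring
    rw [e, hY]
    refine eq_of_two h2 Y ?_
    abel
  · refine eq_of_two h2 (-(X + Y + X * Y)) ?_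
    abel
  · have e : 1 + X + (X + Y + X * Y + Y * X + 1) * Y = 1 + X + X * Y + Y * Y + X * (Y * Y) + Y * X * Y + Y := by
      noncomm_ring
    rw [e, hY]
    refine eq_of_two h2 (-(1 + X + Y + X * Y)) ?_
    noncomm_ring
  · refine eq_of_two h2 (-(1 + X + Y + Y * X)) ?_
    noncomm_ring
  · have e : 1 + (X + 1) + (X + Y + X * Y + Y * X + 1) * (Y + 1) =
        1 + (X + 1) + X * Y + Y * Y + X * (Y * Y) + Y * X * Y + Y + (X + Y + X * Y + Y * X + 1) := by
      noncomm_ring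
    have e' : (Y + 1) * (X + 1) * (Y + 1) = Y * X * Y + Y * Y + X * Y + Y + Y * X + Y + X + 1 := by noncomm_ring
    rw [e, e', hY]
    refine eq_of_two h2 (-(1 + X + X * Y)) ?_
    noncomm_ring

theorem Rep.trace_mem (h2 : ∀ r : R, r + r = 0) {X Y r r' : R} (hX : X * X = X + 1) (hY : Y * Y = Y + 1)
    (h : Rep X Y (X + 1) (Y + 1) r r') : r + r' ∈ Subring.centralizer ({X, Y} : Set R) := by
  have hz := z_mem h2 hX hY
  obtain ⟨a, ha, b, hb, c, hc, d, hd, rfl, rfl⟩ := h
  have e : a + b * X + c * Y + d * (X * Y) + (a + b * (X + 1) + c * (Y + 1) + d * ((Y + 1) * (X + 1))) =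
      b + c + d * (X + Y + X * Y + Y * X + 1) := by
    refine eq_of_two h2 (a + b * X + c * Y) ?_
    noncomm_ring
  rw [e]
  exact add_mem (add_mem hb hc) (mul_mem hd (add_mem hz (one_mem _)))

end ring

variable {H V : Type*} [Group H] [AddCommGroup V] [Module (ZMod 2) V] {ρ : H →* Module.End (ZMod 2) V}

theorem sq3 (h : Fp ρ) {x : H} (hx : orderOf x = 3) : ρ x * ρ x = ρ x + 1 := by
  have := h.three hx
  rwa [add_assoc, add_eq_zero_iff_eq_neg, neg_End] at this

theorem inv3 {x : H} (hx : orderOf x = 3) : x⁻¹ = x * x := by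
  rw [inv_eq_iff_mul_eq_one, ← pow_three, ← hx, pow_orderOf_eq_one]

theorem rho_inv3 (h : Fp ρ) {x : H} (hx : orderOf x = 3) : ρ x⁻¹ = ρ x + 1 := by
  rw [inv3 hx, map_mul, sq3 h hx]

/-- traces are central -/
theorem trace_comm (h : Fp ρ) {x y : H} (hx : orderOf x = 3) (hy : orderOf y = 3)
    (hc : closure ({x, y} : Set H) = ⊤) (g k : H) : ρ k * (ρ g + ρ g⁻¹) = (ρ g + ρ g⁻¹) * ρ k := by
  have hX := sq3 h hx
  have hY := sq3 h hy
  have hX' : (ρ x + 1) * (ρ x + 1) = ρ x + 1 + 1 := by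
    rw [← rho_inv3 h hx]
    exact sq3 h (by rwa [orderOf_inv])
  have sx : ∀ g : H, Rep (ρ x) (ρ y) (ρ x + 1) (ρ y + 1) (ρ g) (ρ g⁻¹) →
      Rep (ρ x) (ρ y) (ρ x + 1) (ρ y + 1) (ρ (x * g)) (ρ (x * g)⁻¹) := fun g hg => by
    rw [mul_inv_rev, map_mul, map_mul, rho_inv3 h hx]
    exact hg.stepX hX hX'
  have sy : ∀ g : H, Rep (ρ x) (ρ y) (ρ x + 1) (ρ y + 1) (ρ g) (ρ g⁻¹) →
      Rep (ρ x) (ρ y) (ρ x + 1) (ρ y + 1) (ρ (y * g)) (ρ (y * g)⁻¹) := fun g hg => by
    rw [mul_inv_rev, map_mul, map_mul, rho_inv3 h hy]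
    exact hg.stepY' add_self_End hX hY
  have all : ∀ g ∈ closure ({x, y} : Set H), Rep (ρ x) (ρ y) (ρ x + 1) (ρ y + 1) (ρ g) (ρ g⁻¹) := fun g hg => by
    induction hg using closure_induction_left with
    | one => simpa using rep_one _ _ _ _
    | mul_left a ha b _ hb =>
      rcases ha with rfl | rfl
      exacts [sx _ hb, sy _ hb]
    | inv_mul_cancel a ha b _ hb =>
      rcases ha with rfl | rfl
      · rw [inv3 hx, mul_assoc]
        exact sx _ (sx _ hb)
      · rw [inv3 hy, mul_assoc]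
        exact sy _ (sy _ hb)
  have hT := (all g (hc ▸ mem_top g)).trace_mem add_self_End hX hY
  have hk : k ∈ closure ({x, y} : Set H) := hc ▸ mem_top k
  induction hk using closure_induction_left with
  | one => simp
  | mul_left a ha b _ hb =>
    rw [map_mul, mul_assoc, hb, ← mul_assoc, ← mul_assoc]
    rcases ha with rfl | rfl
    · rw [cX hT]
    · rw [cY hT]
  | inv_mul_cancel a ha b _ hb =>
    rw [map_mul, mul_assoc, hb, ← mul_assoc, ← mul_assoc]
    rcases ha with rfl | rfl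
    · rw [rho_inv3 h hx, add_mul, cX hT, mul_add _ _ 1, one_mul, mul_one]
    · rw [rho_inv3 h hy, add_mul, cY hT, mul_add _ _ 1, one_mul, mul_one]

/-- the fixed space of the centre -/
def WZ (ρ : H →* Module.End (ZMod 2) V) : Submodule (ZMod 2) V where
  carrier := {v | ∀ ζ ∈ center H, ρ ζ v = v}
  zero_mem' := fun _ _ => map_zero _
  add_mem' := fun {a b} ha hb ζ hζ => by rw [map_add, ha ζ hζ, hb ζ hζ]
  smul_mem' := fun c v hv ζ hζ => by rw [map_smul, hv ζ hζ]

theorem WZ_inv (k : H) {w : V} (hw : w ∈ WZ ρ) : ρ k w ∈ WZ ρ := fun ζ hζ => by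
  rw [← Module.End.mul_apply, ← map_mul, ← mem_center_iff.1 hζ k, map_mul, Module.End.mul_apply, hw ζ hζ]

theorem WZ_ne_bot [Finite H] [Finite V] [Nontrivial V] (hZ : IsPGroup 2 (center H)) : WZ ρ ≠ ⊥ := by
  have : Fact (Nat.Prime 2) := ⟨Nat.prime_two⟩
  let _ : MulAction (center H) V := MulAction.compHom V (ρ.comp (center H).subtype)
  have h1 : 1 < Nat.card V := Finite.one_lt_card
  have h2 : 2 ∣ Nat.card V := by
    rw [exists_card_V (p := 2)] at h1 ⊢
    exact dvd_pow_self 2 fun e => by simp [e] at h1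
  obtain ⟨b, hb, b0⟩ := hZ.exists_fixed_point_of_prime_dvd_card_of_fixed_point V h2 (a := 0)
    (fun ζ => map_zero (ρ ζ))
  exact (Submodule.ne_bot_iff _).2 ⟨b, fun ζ hζ => hb ⟨ζ, hζ⟩, b0.symm⟩

theorem AU_normal : (AU ρ (WZ ρ)).Normal := ⟨fun a ha g w hw => by
  rw [map_mul, map_mul, Module.End.mul_apply, Module.End.mul_apply, ha _ (WZ_inv g⁻¹ hw), apply_inv_apply]⟩

theorem four_pow (j : ℕ) : 4 ^ (j + 1) % 6 = 4 := by
  induction j with
  | zero => rfl
  | succ j ih => rw [pow_succ, Nat.mul_mod, ih]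

end TRx

open TRx in
theorem tr : TR.{u} := by
  intro H V _ _ _ _ _ ρ h x y hx hy hc hZ hs hn g h6
  have : Fact (Nat.Prime 2) := ⟨Nat.prime_two⟩
  have := h.nt
  obtain ⟨g, rfl⟩ := QuotientGroup.mk'_surjective _ g
  set π := QuotientGroup.mk' (center H) with hπ
  have hker : ∀ a : H, π a = 1 ↔ a ∈ center H := fun a => QuotientGroup.eq_one_iff a
  have hcen : center (H ⧸ center H) = ⊥ := (hs.eq_bot_or_eq_top_of_normal _ inferInstance).resolve_right fun e =>
    hn ⟨⟨fun a b => mem_center_iff.1 (e ▸ mem_top b) a⟩⟩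
  have g6 : π g ^ 6 = 1 := h6 ▸ pow_orderOf_eq_one _
  obtain ⟨j, hj⟩ := hZ ⟨g ^ 6, (hker _).1 (by rw [map_pow, g6])⟩
  have hj : (g ^ 6) ^ 2 ^ j = 1 := congrArg Subtype.val hj
  set d := g ^ 4 ^ (j + 1) with hd
  have πd : π d = π g ^ 4 := by rw [hd, map_pow, ← pow_mod_orderOf, h6, four_pow]
  have d3 : orderOf d = 3 := by
    have : Fact (Nat.Prime 3) := ⟨Nat.prime_three⟩
    refine orderOf_eq_prime ?_ fun e => ?_
    · rw [hd, ← pow_mul, show 4 ^ (j + 1) * 3 = 6 * 2 ^ j * 2 ^ (j + 1) by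
        rw [show (4 : ℕ) = 2 * 2 from rfl, mul_pow]; ring, pow_mul, pow_mul, hj, one_pow]
    · rw [e, map_one] at πd
      have := orderOf_dvd_of_pow_eq_one πd.symm
      rw [h6] at this
      omega
  have cd : Commute d g := (Commute.refl g).pow_left _
  set t := d⁻¹ * g with ht
  have πt : π t = π g ^ 3 := by
    rw [ht, map_mul, map_inv, πd, inv_mul_eq_iff_eq_mul, ← pow_add, pow_succ, g6, one_mul]
  have tt : t * t ∈ center H := (hker _).1 (by rw [map_mul, πt, ← pow_add, g6])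
  have e1 : g = d * t := by rw [ht, mul_inv_cancel_left]
  have e2 : g⁻¹ = d⁻¹ * t⁻¹ := by
    rw [ht, mul_inv_rev, inv_inv, ← cd.inv_right.eq, inv_mul_cancel_left]
  clear_value t
  have hT : ∀ w ∈ WZ ρ, (ρ g + ρ g⁻¹) w = ρ t w := fun w hw => by
    have e3 : ρ t⁻¹ w = ρ t w := by
      conv_lhs => rw [← hw _ tt]
      rw [map_mul, Module.End.mul_apply, inv_apply_apply]
    rw [LinearMap.add_apply, e2]
    nth_rw 1 [e1]
    rw [map_mul, map_mul, Module.End.mul_apply, Module.End.mul_apply, e3, rho_inv3 h d3, LinearMap.add_apply,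
      ← add_assoc, add_self_V, zero_add, Module.End.one_apply]
  have hK : ∀ k : H, t * k * (t⁻¹ * k⁻¹) ∈ AU ρ (WZ ρ) := fun k w hw => by
    have hw' := WZ_inv (t⁻¹ * k⁻¹) hw
    rw [map_mul, map_mul, Module.End.mul_apply, Module.End.mul_apply, ← hT _ (WZ_inv k hw'), ← Module.End.mul_apply,
      ← trace_comm h hx hy hc, Module.End.mul_apply, hT _ hw', map_mul, Module.End.mul_apply, apply_inv_apply,
      apply_inv_apply]
  have hP := h.isPGroup_AU (WZ_ne_bot (ρ := ρ) hZ)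
  rcases hs.eq_bot_or_eq_top_of_normal _ ((AU_normal (ρ := ρ)).map π (QuotientGroup.mk'_surjective _)) with e | e
  · have : π t ∈ center (H ⧸ center H) := mem_center_iff.2 fun k => by
      obtain ⟨k, rfl⟩ := QuotientGroup.mk'_surjective _ k
      have : π (t * k * (t⁻¹ * k⁻¹)) = 1 := mem_bot.1 (e ▸ mem_map_of_mem π (hK k))
      rw [← mul_inv_rev, map_mul, map_inv, mul_inv_eq_one, map_mul, map_mul] at this
      exact this.symm
    rw [hcen, mem_bot, πt] at this
    have := orderOf_dvd_of_pow_eq_one this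
    rw [h6] at this
    omega
  · have h1 : IsPGroup 2 (H ⧸ center H) := (e ▸ hP.map π : IsPGroup 2 (⊤ : Subgroup (H ⧸ center H))).of_equiv topEquiv
    have := h1.center_nontrivial
    rw [hcen] at this
    exact not_nontrivial _ this

end CL.Ggn
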