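/-
S4841 (Gagola, non-solvable case): the structure of `W = A A'`, first part.
-/
import Cfsg.Agent.Ggn.Defs

set_option autoImplicit false
set_option linter.unusedSectionVars false

namespace CL.Ggn

open Cfsg Subgroup
open scoped MatrixGroups Pointwise

universe u

namespace WAa

theorem comm_of_sq {H : Type*} [Group H] {A : Subgroup H} (h : ∀ a ∈ A, a * a = 1) {a b : H} (ha : a ∈ A)
    (hb : b ∈ A) : Commute a b := by
  have := inv_eq_of_mul_eq_one_right (h _ (A.mul_mem ha hb))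
  rw [mul_inv_rev, inv_eq_of_mul_eq_one_right (h a ha), inv_eq_of_mul_eq_one_right (h b hb)] at this
  exact this.symm

theorem mem_sup {H : Type*} [Group H] {A B : Subgroup H} (h : ∀ a ∈ A, ∀ b ∈ B, Commute a b) {w : H}
    (hw : w ∈ A ⊔ B) : ∃ a ∈ A, ∃ b ∈ B, w = a * b := by
  rw [← SetLike.mem_coe, coe_mul_of_right_le_normalizer_left A B fun b hb =>
    centralizer_le_normalizer _ (mem_centralizer_iff.2 fun a ha => h a ha b hb)] at hw
  obtain ⟨a, ha, b, hb, rfl⟩ := hw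
  exact ⟨a, ha, b, hb, rfl⟩

variable {H V K : Type*} [Group H] [Finite H] [AddCommGroup V] [Module (ZMod 2) V] [Field K] [Finite K]
  {ρ : H →* Module.End (ZMod 2) V} {s : K →+* Module.End (ZMod 2) V} {n m : Module.End (ZMod 2) V} {x y : H}
  (f : FrB ρ s n m x y)
include f

theorem dg_mul (a b : K) : dg s n m a * dg s n m b = dg s n m (a * b) := by
  have ef : n * m * (m * n) = 0 := by rw [mul_assoc, ← mul_assoc m, f.mm, zero_mul, mul_zero]
  have fe : m * n * (n * m) = 0 := by rw [mul_assoc, ← mul_assoc n, f.nn, zero_mul, mul_zero]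
  have ee : n * m * (n * m) = n * m := by
    have := congrArg (n * m * ·) f.nm
    simpa only [mul_add, ef, add_zero, mul_one] using this
  have ff : m * n * (m * n) = m * n := by
    have := congrArg (m * n * ·) f.nm
    simpa only [mul_add, fe, zero_add, mul_one] using this
  have k : ∀ (c d : K) (r t : Module.End (ZMod 2) V), Commute (s d) r → s c * r * (s d * t) = s (c * d) * (r * t) :=
    fun c d r t h => by rw [map_mul, mul_assoc, ← mul_assoc r, ← h.eq, mul_assoc, mul_assoc]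
  have c1 : ∀ d, Commute (s d) (n * m) := fun d => (f.sn d).mul_right (f.sm d)
  have c2 : ∀ d, Commute (s d) (m * n) := fun d => (f.sm d).mul_right (f.sn d)
  rw [dg, dg, dg, add_mul, mul_add, mul_add, k _ _ _ _ (c1 _), k _ _ _ _ (c1 _), k _ _ _ _ (c2 _), k _ _ _ _ (c2 _),
    ee, ef, fe, ff, mul_zero, mul_zero, add_zero, zero_add, mul_inv]

theorem dg_pow (a : K) (i : ℕ) : dg s n m (a ^ i) = dg s n m a ^ i := by
  induction i with
  | zero => rw [pow_zero, pow_zero, dg, inv_one, map_one, one_mul, one_mul, f.nm]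
  | succ i ih => rw [pow_succ, pow_succ, ← dg_mul f, ih]

theorem cq {k : H} (hk : ∀ a ∈ AU ρ (LinearMap.range n), Commute a k) (c : K) : Commute (s c * n) (ρ k) := by
  obtain ⟨q, -, hq⟩ := f.up c
  have h1 := (hk q (mem_AU_range.2 (by rw [hq, add_sub_cancel_left, mul_assoc, f.nn, mul_zero]))).map ρ
  rw [hq] at h1
  simpa using h1.sub_left (Commute.one_left (ρ k))

theorem norm {W : Subgroup H} (hA : AU ρ (LinearMap.range n) ≤ W)
    (hW : ∀ a ∈ AU ρ (LinearMap.range n), ∀ w ∈ W, Commute a w) (h : H) (a : K) (ha : a ≠ 0)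
    (e : ρ h = dg s n m a) : h ∈ normalizer (W : Set H) :=
  mem_normalizer_fintype fun w hw => by
    simpa using W.mul_mem (hA (f.comm w h a ha e (cq f fun g hg => hW g hg w hw))) hw

theorem tor : ∃ (h : H) (a : K), a ≠ 0 ∧ ρ h = dg s n m a ∧
    ∀ k : H, (∀ g ∈ AU ρ (LinearMap.range n), Commute g k) → Commute h k → Lin s n m (ρ k) := by
  obtain ⟨ζ, hζ⟩ := IsCyclic.exists_monoid_generator (α := Kˣ)
  obtain ⟨h, -, e⟩ := f.tor ζ ζ.ne_zero
  refine ⟨h, ζ, ζ.ne_zero, e, fun k hk hc => f.lin _ (cq f hk) fun a ha => ?_⟩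
  obtain ⟨i, hi⟩ := hζ (Units.mk0 a ha)
  have : a = (ζ : K) ^ i := (congrArg Units.val hi).symm.trans (Units.val_pow_eq_pow_val ζ i)
  rw [this, dg_pow f, ← e]
  exact (hc.map ρ).pow_left i

end WAa

theorem wa : WA.{u} := by
  intro H V _ _ _ _ _ K _ _ ρ s n m x y s' n' m' x' y' t
  have q1 := t.hyp.sq _ t.f.half
  have q2 := t.hyp.sq _ t.f'.half
  have mem : ∀ w ∈ WW ρ n n', ∃ a ∈ AU ρ (LinearMap.range n), ∃ b ∈ AU ρ (LinearMap.range n'), w = a * b :=
    fun w hw => WAa.mem_sup t.comm hw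
  have sq : ∀ w ∈ WW ρ n n', w * w = 1 := fun w hw => by
    obtain ⟨a, ha, b, hb, rfl⟩ := mem w hw
    rw [← pow_two, (t.comm a ha b hb).mul_pow, pow_two, pow_two, q1 a ha, q2 b hb, one_mul]
  have comm : ∀ w ∈ WW ρ n n', ∀ w' ∈ WW ρ n n', Commute w w' := fun w hw w' hw' => WAa.comm_of_sq sq hw hw'
  have l1 : AU ρ (LinearMap.range n) ≤ WW ρ n n' := le_sup_left
  have l2 : AU ρ (LinearMap.range n') ≤ WW ρ n n' := le_sup_right
  obtain ⟨h, ζ, h0, e, hl⟩ := WAa.tor t.f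
  have fpf : ∀ b ∈ AU ρ (LinearMap.range n), Commute h b → b = 1 := fun b hb hc =>
    t.f.noD x t.f.x3 b hb ((t.f.lin_iff b).1 (hl b (fun g hg => comm g (l1 hg) b (l1 hb)) hc)).1
  refine ⟨mem, comm, sq, WAa.norm t.f l1 fun a ha => comm a (l1 ha), WAa.norm t.f' l2 fun a ha => comm a (l2 ha),
    ⟨h, ζ, h0, e, fpf⟩, fun w hw => ?_⟩
  have k : ∀ w ∈ WW ρ n n', h * w * h⁻¹ * w⁻¹ ∈ AU ρ (LinearMap.range n) := fun w hw =>
    t.f.comm w h ζ h0 e (WAa.cq t.f fun g hg => comm g (l1 hg) w hw)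
  have k2 : ∀ a b : H, h * a * h⁻¹ * a⁻¹ = h * b * h⁻¹ * b⁻¹ → Commute h (a⁻¹ * b) := fun a b e => by
    calc h * (a⁻¹ * b) = a⁻¹ * (h * a * h⁻¹ * a⁻¹)⁻¹ * (h * b * h⁻¹ * b⁻¹) * b * h := by group
      _ = a⁻¹ * b * h := by rw [e]; group
  have inj : Function.Injective fun a : AU ρ (LinearMap.range n) =>
      (⟨h * a * h⁻¹ * (a : H)⁻¹, k a (l1 a.2)⟩ : AU ρ (LinearMap.range n)) := fun a b e =>
    Subtype.ext (inv_mul_eq_one.1 (fpf _ (mul_mem (inv_mem a.2) b.2) (k2 a b (congrArg Subtype.val e))))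
  obtain ⟨a, ha⟩ := Finite.injective_iff_surjective.1 inj ⟨_, k w hw⟩
  have hc : (a : H)⁻¹ * w ∈ WW ρ n n' := mul_mem (inv_mem (l1 a.2)) hw
  exact ⟨a, a.2, _, hc, hl _ (fun g hg => comm g (l1 hg) _ hc) (k2 a w (congrArg Subtype.val ha)), by group⟩

end CL.Ggn
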