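/-
S4841 (Gagola, non-solvable case): the structure of `W = A A'`, second part.
-/
import Cfsg.Agent.Ggn.Defs

set_option autoImplicit false

namespace CL.Ggn

open Cfsg Subgroup
open scoped MatrixGroups

universe u

namespace WBh

variable {V : Type*} [AddCommGroup V] [Module (ZMod 2) V] {n m χ : Module.End (ZMod 2) V}

theorem capp {a b : Module.End (ZMod 2) V} (h : Commute a b) (v : V) : a (b v) = b (a v) :=
  LinearMap.congr_fun h.eq v

theorem ker_inv {a : Module.End (ZMod 2) V} (h : Commute a χ) {v : V} (hv : v ∈ LinearMap.ker χ) :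
    a v ∈ LinearMap.ker χ := by
  rw [LinearMap.mem_ker] at hv ⊢
  rw [← capp h, hv, map_zero]

variable (nm : n * m + m * n = 1) (kn : LinearMap.ker n = LinearMap.range n) (cn : Commute n χ) (cm : Commute m χ)
  (kχ : LinearMap.range χ = LinearMap.ker χ)

include nm in
theorem split (v : V) : n (m v) + m (n v) = v := LinearMap.congr_fun nm v

include nm cn cm in
theorem mem_iff (v : V) : v ∈ LinearMap.ker χ ↔
    n (m v) ∈ LinearMap.ker χ ⊓ LinearMap.range n ∧ n v ∈ LinearMap.ker χ ⊓ LinearMap.range n :=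
  ⟨fun h => ⟨⟨ker_inv cn (ker_inv cm h), _, rfl⟩, ker_inv cn h, _, rfl⟩,
    fun h => split nm v ▸ add_mem h.1.1 (ker_inv cm h.2.1)⟩

include nm kn cn cm kχ

theorem range_eq : LinearMap.range (n * χ) = LinearMap.ker χ ⊓ LinearMap.range n := by
  refine le_antisymm ?_ fun i hi => ?_
  · rintro _ ⟨v, rfl⟩
    exact ⟨kχ.le ⟨n v, (capp cn v).symm⟩, _, rfl⟩
  · obtain ⟨w, hw⟩ := kχ.ge (ker_inv cm hi.1)
    have h0 : n i = 0 := kn.ge hi.2
    refine ⟨w, ?_⟩
    have := split nm i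
    rwa [h0, map_zero, add_zero, ← hw] at this

theorem ker_eq : LinearMap.ker (n * χ) = LinearMap.range n ⊔ LinearMap.ker χ := by
  refine le_antisymm (fun v hv => ?_) (sup_le (fun v hv => ?_) fun v hv => ?_)
  · obtain ⟨w, hw⟩ := (range_eq nm kn cn cm kχ).ge (Submodule.mem_inf.2 ⟨kχ.le ⟨v, rfl⟩, kn.le hv⟩)
    rw [← add_sub_cancel (n w) v]
    refine Submodule.add_mem_sup ⟨w, rfl⟩ ?_
    rw [LinearMap.mem_ker, map_sub, ← capp cn, ← hw]
    exact sub_self _
  · have h0 : n v = 0 := kn.ge hv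
    change n (χ v) = 0
    rw [capp cn, h0, map_zero]
  · have h0 : χ v = 0 := hv
    change n (χ v) = 0
    rw [h0, map_zero]

end WBh

open WBh in
theorem wb : WB.{u} := by
  intro H V _ _ _ _ _ K _ _ ρ s n m x y s' n' m' x' y' T W
  have hne : n * n' ≠ 0 := fun e => T.ne (by
    have hle : LinearMap.range n' ≤ LinearMap.range n := by
      rintro _ ⟨v, rfl⟩
      exact T.f.ker_eq.le (LinearMap.congr_fun e v)
    have hc : Nat.card (LinearMap.range n') = Nat.card (LinearMap.range n) :=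
      Nat.pow_left_injective two_ne_zero (T.f'.half.trans T.f.half.symm)
    exact SetLike.coe_injective (Set.Finite.eq_of_subset_of_card_le (Set.toFinite _) hle hc.ge))
  have key : ∀ c ∈ WW ρ n n', c ≠ 1 → Lin s n m (ρ c) →
      LinearMap.ker (ρ c - 1) ⊓ LinearMap.range n = LinearMap.range n' ⊓ LinearMap.range n := by
    intro c hc c1 hl
    obtain ⟨a, ha, b, hb, rfl⟩ := W.mem c hc
    have b1 : b ≠ 1 := by
      rintro rfl
      rw [mul_one] at hl c1
      exact c1 (T.f.noD x T.f.x3 a ha ((T.f.lin_iff a).1 hl).1)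
    rw [← T.hyp.fix _ T.f'.half b hb b1]
    ext v
    refine and_congr_left fun hv => ?_
    change v ∈ Fix ρ (a * b) ↔ v ∈ Fix ρ b
    rw [mem_Fix, mem_Fix, (T.comm a ha b hb).eq, map_mul, Module.End.mul_apply, ha v hv]
  have c1 : ∀ {r t : Module.End (ZMod 2) V}, Commute r t → Commute r (t - 1) := fun h =>
    h.sub_right (Commute.one_right _)
  have fix : ∀ c ∈ WW ρ n n', c ≠ 1 → Lin s n m (ρ c) → ∀ c' ∈ WW ρ n n', c' ≠ 1 → Lin s n m (ρ c') →
      Fix ρ c' = Fix ρ c := by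
    intro c hc h1 hl c' hc' h1' hl'
    ext v
    rw [Fix, Fix, mem_iff T.f.nm (c1 hl.cn) (c1 hl.cm), mem_iff T.f.nm (c1 hl'.cn) (c1 hl'.cm), key c hc h1 hl,
      key c' hc' h1' hl']
  obtain ⟨b, -, hb⟩ := T.f'.up 1
  obtain ⟨q, -, hq⟩ := T.f.up 1
  rw [map_one, one_mul] at hb hq
  have hbA : b ∈ AU ρ (LinearMap.range n') := mem_AU_range.2 (by rw [hb, add_sub_cancel_left, T.f'.nn])
  have hqA : q ∈ AU ρ (LinearMap.range n) := mem_AU_range.2 (by rw [hq, add_sub_cancel_left, T.f.nn])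
  obtain ⟨a, ha, c, hc, hl, rfl⟩ := W.dec b (mem_sup_right hbA)
  have h0 := T.hyp.quad _ T.f.half q hqA a ha
  rw [hq, add_sub_cancel_left, mul_sub, mul_one, sub_eq_zero] at h0
  have e : n * n' = n * (ρ c - 1) := by
    rw [show n' = ρ a * ρ c - 1 by rw [← map_mul, hb, add_sub_cancel_left], mul_sub, mul_sub, ← mul_assoc, h0]
  have h1 : c ≠ 1 := by
    rintro rfl
    exact hne (by rw [e, map_one, sub_self, mul_zero])
  refine ⟨hne, fun d hd d1 hl' => ?_, fun d hd d1 hl' => ?_, fix⟩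
  · rw [e, range_eq T.f.nm T.f.ker_eq (c1 hl'.cn) (c1 hl'.cm) (T.hyp.rng d d1 (W.sq d hd)),
      range_eq T.f.nm T.f.ker_eq (c1 hl.cn) (c1 hl.cm) (T.hyp.rng c h1 (W.sq c hc)), key c hc h1 hl, key d hd d1 hl']
  · rw [e, ker_eq T.f.nm T.f.ker_eq (c1 hl'.cn) (c1 hl'.cm) (T.hyp.rng d d1 (W.sq d hd)),
      ker_eq T.f.nm T.f.ker_eq (c1 hl.cn) (c1 hl.cm) (T.hyp.rng c h1 (W.sq c hc))]
    exact congrArg _ (fix c hc h1 hl d hd d1 hl')

end CL.Ggn
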