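/-
S4841 (Gagola, non-solvable case): an element of `N(W)` which moves the first fixed space.
-/
import Cfsg.Agent.Ggn.Defs

set_option autoImplicit false

namespace CL.Ggn

open Cfsg Subgroup
open scoped MatrixGroups

universe u

namespace WKx

open Polynomial in
theorem eig {K I : Type*} [Field K] [Fintype K] [AddCommGroup I] [Module (ZMod 2) I] [Nontrivial I]
    (f : K →+* Module.End (ZMod 2) I) (T : Module.End (ZMod 2) I) (c : ∀ a, Commute (f a) T)
    (hT : T ^ Fintype.card K = T) : ∃ a v, v ≠ 0 ∧ T v = f a v := by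
  by_contra! k
  have hq := Fintype.one_lt_card (α := K)
  have e := prod_multiset_X_sub_C_of_monic_of_roots_card_eq (p := (X ^ Fintype.card K - X : K[X]))
    (monic_X_pow_sub (by rw [degree_X]; exact_mod_cast hq))
    (by rw [FiniteField.roots_X_pow_card_sub_X, FiniteField.X_pow_card_sub_X_natDegree_eq _ hq]; rfl)
  have := Multiset.prod_induction (fun p : K[X] => Function.Injective (eval₂RingHom' f T c p))
    ((X ^ Fintype.card K - X : K[X]).roots.map fun a => X - C a)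
    (fun a b ha hb => by rw [map_mul]; exact ha.comp hb) (by rw [map_one]; exact Function.injective_id) fun p hp => by
      obtain ⟨a, -, rfl⟩ := Multiset.mem_map.1 hp
      refine (injective_iff_map_eq_zero _).2 fun v hv => by_contra fun v0 => k a v v0 (sub_eq_zero.1 ?_)
      simpa [eval₂RingHom'] using hv
  rw [e] at this
  obtain ⟨v, hv⟩ := exists_ne (0 : I)
  exact hv (this (by simp [eval₂RingHom', hT]))

variable {H V K : Type*} [Group H] [AddCommGroup V] [Module (ZMod 2) V] [Field K] {ρ : H →* Module.End (ZMod 2) V}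
  {s : K →+* Module.End (ZMod 2) V} {n m : Module.End (ZMod 2) V} {x y : H}

theorem nmn (f : Fr ρ s n m x y) : n * m * n = n := by
  have := congrArg (· * n) f.nm
  simpa only [add_mul, mul_assoc m, f.nn, mul_zero, add_zero, one_mul] using this

theorem dg_n (f : Fr ρ s n m x y) (a : K) : dg s n m a * n = s a * n := by
  rw [dg, add_mul, mul_assoc (s a), nmn f, mul_assoc, mul_assoc m, f.nn, mul_zero, mul_zero, add_zero]

theorem n_dg (f : Fr ρ s n m x y) (a : K) : n * dg s n m a = s a⁻¹ * n := by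
  rw [dg, mul_add, (f.sn a).symm.left_comm, (f.sn a⁻¹).symm.left_comm, ← mul_assoc n n, f.nn, ← mul_assoc n, nmn f]
  simp

theorem upA (f : Fr ρ s n m x y) (a : K) : ∃ g ∈ AU ρ (LinearMap.range n), ρ g = 1 + s a * n :=
  let ⟨g, _, e⟩ := f.up a
  ⟨g, mem_AU_range.2 (by rw [e, add_sub_cancel_left, mul_assoc, f.nn, mul_zero]), e⟩

theorem ss (s : K →+* Module.End (ZMod 2) V) {a : K} (h : a ≠ 0) : s a * s a⁻¹ = 1 ∧ s a⁻¹ * s a = 1 := by
  rw [← map_mul, ← map_mul, mul_inv_cancel₀ h, inv_mul_cancel₀ h, map_one]; exact ⟨rfl, rfl⟩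

theorem inv_mul_eq {g : H} {p q : Module.End (ZMod 2) V} (h : ρ g * p = q) : ρ g⁻¹ * q = p := by
  rw [← h, ← mul_assoc, ← map_mul, inv_mul_cancel, map_one, one_mul]

theorem mul_inv_eq {g : H} {p q : Module.End (ZMod 2) V} (h : p * ρ g = q) : q * ρ g⁻¹ = p := by
  rw [← h, mul_assoc, ← map_mul, mul_inv_cancel, map_one, mul_one]

end WKx

open WKx in
theorem wk : WK.{u} := by
  intro H V _ _ _ _ _ K _ _ ρ s n m x y s' n' m' x' y' t w ne
  have := Fintype.ofFinite K
  have := t.hyp.nt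
  have f := t.f.toFr
  have f' := t.f'.toFr
  have cA : ∀ g ∈ AU ρ (LinearMap.range n), ∀ b, Commute (s' b * n') (ρ g) := fun g hg b => by
    obtain ⟨g', hg', e⟩ := upA f' b
    have := ((t.comm g hg g' hg').map ρ).symm.sub_left (Commute.one_left _)
    rwa [e, add_sub_cancel_left] at this
  have hc : ∀ a b, Commute (s' b * n') (s a * n) := fun a b => by
    obtain ⟨g, hg, e⟩ := upA f a
    have := (cA g hg b).sub_right (Commute.one_right _)
    rwa [e, add_sub_cancel_left] at this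
  have h1 : ∀ a, Commute n' (s a * n) := fun a => by simpa using hc a 1
  have h2 : ∀ b, Commute (s' b * n') n := fun b => by simpa using hc 1 b
  have h3 : n' * n = n * n' := by simpa using (h1 1).eq
  obtain ⟨ψ, hψ⟩ : ∃ ψ, ψ = n * n' := ⟨_, rfl⟩
  have p1 : ∀ a, s a * ψ = ψ * s a := fun a => by
    rw [hψ, ← mul_assoc, ← (h1 a).eq, (f.sn a).eq, ← mul_assoc, h3]
  have p2 : ∀ b, s' b * ψ = ψ * s' b := fun b => by
    rw [hψ, mul_assoc, ← (f'.sn b).eq, ← (h2 b).eq, mul_assoc, h3]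
  have p3 : ∀ a b, s' b * (s a * ψ) = s a * (s' b * ψ) := fun a b => by
    rw [hψ, ← mul_assoc (s a), ← (h1 a).eq, ← mul_assoc, (hc a b).eq, ← h3, ← mul_assoc (s' b), (h2 b).eq, mul_assoc]
  have d1 : ∀ a, dg s n m a * ψ = s a * ψ := fun a => by rw [hψ, ← mul_assoc, dg_n f, mul_assoc]
  have d2 : ∀ a, ψ * dg s n m a = s a⁻¹ * ψ := fun a => by
    rw [hψ, ← h3, mul_assoc, n_dg f, (h1 _).eq, mul_assoc, h3]
  have d3 : ∀ b, dg s' n' m' b * ψ = s' b * ψ := fun b => by rw [hψ, ← h3, ← mul_assoc, dg_n f', mul_assoc]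
  have d4 : ∀ b, ψ * dg s' n' m' b = s' b⁻¹ * ψ := fun b => by
    rw [hψ, mul_assoc, n_dg f', ← (h2 _).eq, mul_assoc, h3]
  rw [← hψ] at ne ⊢
  have inv : ∀ {r : Module.End (ZMod 2) V}, r * ψ = ψ * r → ∀ v ∈ LinearMap.range ψ, r v ∈ LinearMap.range ψ := by
    rintro r e _ ⟨v, rfl⟩
    exact ⟨r v, (LinearMap.congr_fun e v).symm⟩
  have odd : Odd (Fintype.card K - 1) := by
    have : CharP K 2 := CharTwo.of_one_ne_zero_of_two_eq_zero one_ne_zero
      (s.injective (by rw [map_ofNat, two_End, map_zero]))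
    have := FiniteField.even_card_of_char_two (ringChar.eq K 2)
    have := Fintype.card_pos (α := K)
    exact Nat.odd_iff.2 (by omega)
  have claim : ∀ b, b ≠ 0 → ∀ h', ρ h' = dg s' n' m' b → ∃ a, a ≠ 0 ∧ ∃ h, ρ h = dg s n m a ∧
      (ρ (h⁻¹ * h') - 1) * ψ = 0 ∧ ψ * (ρ (h⁻¹ * h') - 1) = 0 := fun b b0 h' e' => by
    have : Nontrivial (LinearMap.range ψ) := Submodule.nontrivial_iff_ne_bot.2 (mt LinearMap.range_eq_bot.1 ne)
    let F : K →+* Module.End (ZMod 2) (LinearMap.range ψ) :=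
      { toFun := fun a => (s a).restrict (inv (p1 a))
        map_one' := by ext; simp
        map_mul' := fun _ _ => by ext; simp
        map_zero' := by ext; simp
        map_add' := fun _ _ => by ext; simp }
    obtain ⟨a, ⟨_, v, rfl⟩, v0, e⟩ := eig F ((s' b).restrict (inv (p2 b))) (fun a => LinearMap.ext fun ⟨_, v, e⟩ =>
      Subtype.ext (e ▸ (LinearMap.congr_fun (p3 a b) v).symm)) (by
        rw [Module.End.pow_restrict]; ext; simp [← map_pow, FiniteField.pow_card])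
    replace v0 : ψ v ≠ 0 := fun e => v0 (Subtype.ext e)
    replace e : s' b (ψ v) = s a (ψ v) := congrArg Subtype.val e
    have a0 : a ≠ 0 := by
      rintro rfl
      refine v0 ?_
      rw [← Module.End.one_apply (R := ZMod 2) (ψ v), ← (ss s' b0).2, Module.End.mul_apply, e]
      simp
    obtain ⟨h, -, eh⟩ := f.tor a a0
    have i1 : ρ h⁻¹ * ψ = ψ * s a⁻¹ := inv_mul_eq (by rw [← mul_assoc, eh, d1, p1, mul_assoc, (ss s a0).1, mul_one])
    have i2 : ψ * ρ h⁻¹ = s a * ψ := mul_inv_eq (by rw [mul_assoc, eh, d2, ← mul_assoc, (ss s a0).1, one_mul])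
    have k1 : ρ (h⁻¹ * h') * ψ = s a⁻¹ * (s' b * ψ) := by
      rw [map_mul, mul_assoc, e', d3, p2, ← mul_assoc, i1, ← p1, mul_assoc]
    have kj : ∀ j : ℕ, ρ ((h⁻¹ * h') ^ j) * ψ = s (a⁻¹ ^ j) * (s' (b ^ j) * ψ) := fun j => by
      induction j with
      | zero => simp
      | succ j ih =>
        rw [pow_succ, map_mul, mul_assoc, k1, p2, ← mul_assoc (s _), p1, ← mul_assoc, ← mul_assoc, ih]
        calc _ = s (a⁻¹ ^ j) * (s' (b ^ j) * (ψ * s a⁻¹)) * s' b := by simp only [mul_assoc]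
          _ = s (a⁻¹ ^ j) * s a⁻¹ * (s' (b ^ j) * (ψ * s' b)) := by rw [← p1, p3]; simp only [mul_assoc]
          _ = _ := by rw [← p2, pow_succ, pow_succ, map_mul, map_mul, mul_assoc (s' _)]
    obtain ⟨j, hj⟩ := t.hyp.stab (h⁻¹ * h') _ v0 (by
      rw [← Module.End.mul_apply, k1, Module.End.mul_apply, Module.End.mul_apply, e, ← Module.End.mul_apply, (ss s a0).2,
        Module.End.one_apply])
    have kA : h⁻¹ * h' ∈ AU ρ (LinearMap.range ψ) := zpowers_le.2 (mem_AU_range.2 (by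
      rw [sub_mul, kj, FiniteField.pow_card_sub_one_eq_one _ b0, FiniteField.pow_card_sub_one_eq_one _ (inv_ne_zero a0)]
      simp)) (mem_zpowers_pow_iff.2 ((odd.coprime_two_right.pow_right j).coprime_dvd_right (orderOf_dvd_of_pow_eq_one hj)))
    have k2 := mem_AU_range.1 kA
    refine ⟨a, a0, h, eh, k2, ?_⟩
    rw [sub_mul, k1, one_mul, sub_eq_zero] at k2
    rw [mul_sub, map_mul, ← mul_assoc, i2, mul_assoc, e', d4, mul_one, sub_eq_zero]
    have k3 : s a * ψ = s' b * ψ := by rw [← congrArg (s a * ·) k2, ← mul_assoc, (ss s a0).1, one_mul]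
    rw [← p3, k3, ← mul_assoc, (ss s' b0).2, one_mul]
  by_contra! hn
  obtain ⟨⟨g, hg⟩, g1⟩ := (nontrivial_iff_exists_ne 1).1
    (Finite.one_lt_card_iff_nontrivial.1 (lt_of_lt_of_le (by norm_num) t.f.four))
  refine g1 (Subtype.ext (t.f.noD x' f'.x3 g hg ((t.f'.lin_iff g).1 (t.f'.lin _ (cA g hg) fun b b0 => ?_)).1))
  obtain ⟨h', -, e'⟩ := f'.tor b b0
  obtain ⟨a, a0, h, eh, k1, k2⟩ := claim b b0 h' e'
  have m1 : h⁻¹ * h' * g * (h⁻¹ * h')⁻¹ ∈ AU ρ (LinearMap.range n) := by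
    rw [← hn _ (mul_mem (inv_mem (w.norm h a a0 eh)) (w.norm' h' b b0 e')) k1 k2, mem_AU_map]
    simpa [mul_assoc] using hg
  have m2 : h' * g * h'⁻¹ ∈ AU ρ (LinearMap.range n) := by
    have i1 : ρ h * (n * s a⁻¹) = n := by rw [← mul_assoc, eh, dg_n f, (f.sn a).eq, mul_assoc, (ss s a0).1, mul_one]
    have := mem_AU_range.1 m1
    rw [sub_mul, one_mul, sub_eq_zero] at this
    rw [mem_AU_range, sub_mul, one_mul, sub_eq_zero,
      show h' * g * h'⁻¹ = h * (h⁻¹ * h' * g * (h⁻¹ * h')⁻¹) * h⁻¹ by group, map_mul, map_mul ρ h, mul_assoc, inv_mul_eq i1,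
      mul_assoc, ← mul_assoc _ n, this, i1]
  have m3 : h' * g * h'⁻¹ * g⁻¹ = 1 := by_contra fun k => t.ne
    ((t.hyp.fix _ t.f'.half _ (t.f'.comm g h' b b0 e' (cA g hg)) k).symm.trans
      (t.hyp.fix _ t.f.half _ (mul_mem m2 (inv_mem hg)) k))
  exact e' ▸ (commutatorElement_eq_one_iff_commute.1 m3).map ρ

end CL.Ggn
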