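/-
S4841: the final configuration of case II exists.
-/
import Cfsg.Agent.Ggn.Defs
import Cfsg.Agent.Grp.PGroupBasic

set_option autoImplicit false

namespace CL.Ggn

open Cfsg Subgroup
open scoped MatrixGroups

universe u

namespace WLa

variable {H V : Type*} [Group H] [AddCommGroup V] [Module (ZMod 2) V]

/-- the elements of `N` fixing `ψ` on both sides -/
def PP (ρ : H →* Module.End (ZMod 2) V) (N : Subgroup H) (ψ : Module.End (ZMod 2) V) : Subgroup H where
  carrier := {k | k ∈ N ∧ ρ k * ψ = ψ ∧ ψ * ρ k = ψ}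
  one_mem' := ⟨one_mem _, by simp, by simp⟩
  mul_mem' := fun {a b} ha hb => ⟨mul_mem ha.1 hb.1, by rw [map_mul, mul_assoc, hb.2.1, ha.2.1],
    by rw [map_mul, ← mul_assoc, ha.2.2, hb.2.2]⟩
  inv_mem' := fun {a} ha => ⟨inv_mem ha.1,
    by conv_lhs => rw [← ha.2.1, ← mul_assoc, ← map_mul, inv_mul_cancel, map_one, one_mul],
    by conv_lhs => rw [← ha.2.2, mul_assoc, ← map_mul, mul_inv_cancel, map_one, mul_one]⟩

theorem fixL {r t : Module.End (ZMod 2) V} : (r - 1) * t = 0 ↔ r * t = t := by rw [sub_mul, one_mul, sub_eq_zero]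

theorem fixR {r t : Module.End (ZMod 2) V} : t * (r - 1) = 0 ↔ t * r = t := by rw [mul_sub, mul_one, sub_eq_zero]

theorem of_range {r t t' : Module.End (ZMod 2) V} (e : LinearMap.range t = LinearMap.range t') (h : r * t' = 0) :
    r * t = 0 := LinearMap.range_le_ker_iff.1 (e.le.trans (LinearMap.range_le_ker_iff.2 h))

theorem of_ker {r t t' : Module.End (ZMod 2) V} (e : LinearMap.ker t = LinearMap.ker t') (h : t' * r = 0) :
    t * r = 0 := LinearMap.range_le_ker_iff.1 ((LinearMap.range_le_ker_iff.2 h).trans e.ge)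

end WLa

open WLa

theorem wl : WL.{u} := by
  intro H V _ _ _ _ _ K _ _ ρ s n m x y s' n' m' x' y' T wa wb k hk k1 k2 kU
  have := Fact.mk Nat.prime_two
  have := T.hyp.nt
  have inj := T.hyp.toHyp.inj
  have f := T.f
  obtain ⟨q, -, hq⟩ := f.up 1
  obtain ⟨q', -, hq'⟩ := T.f'.up 1
  rw [map_one, one_mul] at hq hq'
  have qA : q ∈ AU ρ (LinearMap.range n) := mem_AU_range.2 (by rw [hq, add_sub_cancel_left, f.nn])
  have qA' : q' ∈ AU ρ (LinearMap.range n') := mem_AU_range.2 (by rw [hq', add_sub_cancel_left, T.f'.nn])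
  have hc : ∀ b, s b * n * n' = n' * (s b * n) := fun b => by
    obtain ⟨g, -, hg⟩ := f.up b
    have gA : g ∈ AU ρ (LinearMap.range n) :=
      mem_AU_range.2 (by rw [hg, add_sub_cancel_left, mul_assoc, f.nn, mul_zero])
    have := congrArg ρ (T.comm g gA q' qA').eq
    rw [map_mul, map_mul, hg, hq'] at this
    rw [← sub_eq_zero] at this ⊢
    rw [← this]
    noncomm_ring
  have hn : n * n' = n' * n := by simpa using hc 1
  have aL : ∀ a ∈ AU ρ (LinearMap.range n), ρ a * n = n ∧ n * ρ a = n := fun a ha =>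
    ⟨fixL.1 (mem_AU_range.1 ha), fixR.1 (by simpa [hq] using T.hyp.quad _ f.half q qA a ha)⟩
  have aL' : ∀ a ∈ AU ρ (LinearMap.range n'), ρ a * n' = n' ∧ n' * ρ a = n' := fun a ha =>
    ⟨fixL.1 (mem_AU_range.1 ha), fixR.1 (by simpa [hq'] using T.hyp.quad _ T.f'.half q' qA' a ha)⟩
  set P := PP ρ (normalizer (WW ρ n n' : Set H)) (n * n') with hP
  have kP : k ∈ P := ⟨hk, fixL.1 k1, fixR.1 k2⟩
  have WP : WW ρ n n' ≤ P := sup_le
    (fun a ha => ⟨le_normalizer (mem_sup_left ha), by rw [← mul_assoc, (aL a ha).1],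
      by rw [hn, mul_assoc, (aL a ha).2]⟩)
    fun a ha => ⟨le_normalizer (mem_sup_right ha), by rw [hn, ← mul_assoc, (aL' a ha).1],
      by rw [mul_assoc, (aL' a ha).2]⟩
  have P2 : IsPGroup 2 P := (T.hyp.toHyp.toFp.isPGroup_AU (U := LinearMap.range (n * n'))
    (mt LinearMap.range_eq_bot.1 wb.ne)).to_le fun g hg => mem_AU_range.2 (fixL.2 hg.2.1)
  have q1 : q ≠ 1 := fun e => wb.ne (by
    rw [e, map_one, left_eq_add] at hq
    rw [hq, zero_mul])
  have := P2.isNilpotent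
  have : ((WW ρ n n').subgroupOf P).Normal := (normal_subgroupOf_iff_le_normalizer WP).2 fun g hg => hg.1
  obtain ⟨⟨⟨w, wP⟩, wW, wc⟩, w1⟩ := ne_bot_iff_exists_ne_one.1 (CL.Grp.inf_center_ne_bot
    (N := (WW ρ n n').subgroupOf P) (ne_bot_iff_exists_ne_one.2
      ⟨⟨⟨q, WP (mem_sup_left qA)⟩, (mem_sup_left qA : q ∈ WW ρ n n')⟩,
        fun e => q1 (congrArg (fun z => (z.1 : H)) e)⟩))
  replace w1 : w ≠ 1 := fun e => w1 (Subtype.ext (Subtype.ext e))
  replace wW : w ∈ WW ρ n n' := wW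
  replace wc : ∀ g ∈ P, Commute g w := fun g hg => congrArg Subtype.val (mem_center_iff.1 wc ⟨g, hg⟩)
  obtain ⟨h, a, a0, hh, fpf⟩ := wa.fpf
  have nmn : n * m * n = n := by
    have := congrArg (· * n) f.nm
    simpa only [add_mul, one_mul, mul_assoc m n n, f.nn, mul_zero, add_zero] using this
  have ss : s a * s a⁻¹ = 1 := by rw [← map_mul, mul_inv_cancel₀ a0, map_one]
  have h1 : ρ h * (n * n') = n * n' * s a := by
    rw [hh, dg, hn, mul_assoc n' n, ← (f.sn a).eq, ← hc, ← hn, add_mul, mul_assoc (s a⁻¹), mul_assoc m,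
      ← mul_assoc n n, f.nn, zero_mul, mul_zero, mul_zero, add_zero, mul_assoc (s a), ← mul_assoc (n * m), nmn,
      mul_assoc]
  have h2 : n * n' * ρ h = s a⁻¹ * (n * n') := by
    rw [hh, dg, ← mul_assoc (s a⁻¹) n n', hc, hn, mul_assoc n' n, mul_add, ← mul_assoc n (s a), ← (f.sn a).eq,
      mul_assoc (s a), ← mul_assoc n n, f.nn, zero_mul, mul_zero, zero_add, ← mul_assoc n (s a⁻¹), ← (f.sn a⁻¹).eq,
      mul_assoc (s a⁻¹), ← mul_assoc n m, nmn]
  have h3 : n * n' * ρ h⁻¹ = s a * (n * n') := by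
    rw [← one_mul (n * n' * ρ h⁻¹), ← ss, mul_assoc (s a), ← mul_assoc (s a⁻¹), ← h2, mul_assoc (n * n'), ← map_mul,
      mul_inv_cancel, map_one, mul_one]
  have hN := wa.norm h a a0 hh
  have kh : h⁻¹ * k * h ∈ P := by
    refine ⟨mul_mem (mul_mem (inv_mem hN) hk) hN, ?_, ?_⟩
    · rw [map_mul, map_mul, mul_assoc, mul_assoc, h1, ← mul_assoc (ρ k), kP.2.1, ← h1, ← mul_assoc, ← map_mul,
        inv_mul_cancel, map_one, one_mul]
    · rw [map_mul, map_mul, ← mul_assoc, ← mul_assoc, h3, mul_assoc (s a), kP.2.2, mul_assoc (s a), h2, ← mul_assoc,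
        ss, one_mul]
  have nfix : ∀ b ∈ AU ρ (LinearMap.range n), b ≠ 1 → k * b * k⁻¹ ∉ AU ρ (LinearMap.range n) := fun b hb b1 hb' => by
    have := T.hyp.fix _ f.half _ hb' fun e => b1 (by simpa using e)
    rw [Fix_conj, T.hyp.fix _ f.half b hb b1] at this
    exact kU this
  obtain ⟨a₁, ha₁, c, cW, lin, rfl⟩ := wa.dec w wW
  have hcm : Commute h c := inj (by
    rw [map_mul, map_mul, hh]
    exact (((lin.cs a).mul_left (lin.cn.mul_left lin.cm)).add_left
      ((lin.cs a⁻¹).mul_left (lin.cm.mul_left lin.cn))).eq)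
  have a2 := f.comm a₁ h a a0 hh fun b => by
    show s b * n * ρ a₁ = ρ a₁ * (s b * n)
    rw [mul_assoc, (aL _ ha₁).2, (f.sn b).eq, ← mul_assoc, (aL _ ha₁).1]
  have a2k : Commute k (h * a₁ * h⁻¹ * a₁⁻¹) := by
    have e : h * a₁ * h⁻¹ * a₁⁻¹ = h * (a₁ * c) * h⁻¹ * (a₁ * c)⁻¹ := by
      rw [← mul_assoc h, mul_assoc _ c, ← hcm.inv_left.eq]
      group
    have : Commute k (h * (a₁ * c) * h⁻¹) := by
      have := (wc _ kh).eq
      rw [Commute, SemiconjBy, show k * (h * (a₁ * c) * h⁻¹) = h * (h⁻¹ * k * h * (a₁ * c)) * h⁻¹ by group, this]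
      group
    rw [e]
    exact this.mul_right (wc k kP).inv_right
  have a1 : a₁ = 1 := fpf _ ha₁ (by
    by_contra hne
    refine nfix _ a2 (fun e => hne ?_) (by rwa [a2k.eq, mul_inv_cancel_right])
    exact commutatorElement_eq_one_iff_commute.1 e)
  subst a1
  rw [one_mul] at w1 wc
  have cc := wa.sq c cW
  have kc := wc k kP
  have e1 := of_range (wb.rng c cW w1 lin) k1
  have e2 := of_ker (wb.ker c cW w1 lin) k2
  have e3 := fixR.1 (of_ker (wb.ker c cW w1 lin) (fixR.2 (inv_mem kP).2.2))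
  obtain ⟨a', ha', c', cW', lin', e⟩ := wa.dec _ ((mem_normalizer_iff.1 hk q).1 (mem_sup_left qA))
  have c1' : c' ≠ 1 := by
    rintro rfl
    exact nfix q qA q1 (by rwa [e, mul_one])
  have cm : c' ∈ AU ρ (Fix ρ c) := wb.fix c cW w1 lin c' cW' c1' lin' ▸ mem_AU_Fix c'
  refine ⟨c, c', q, w1, cc, lin, c1', cm, lin', kc, e1, e2, hq, ?_⟩
  rw [e]
  congr 1
  have rg := T.hyp.rng c w1 cc
  have e4 : ρ c' * (ρ c - 1) = ρ c - 1 := fixL.1 (mem_AU_range.1 (rg ▸ cm))
  have e5 : ρ k⁻¹ * (ρ c - 1) = (ρ c - 1) * ρ k⁻¹ := by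
    rw [mul_sub, sub_mul, ← map_mul, ← map_mul, kc.inv_left.eq, mul_one, one_mul]
  have e6 : ρ a' * (ρ c - 1) = ρ q * (ρ c - 1) := by
    have := congrArg (fun z => ρ z * (ρ c - 1)) e
    simp only [map_mul] at this
    rw [mul_assoc (ρ a'), e4] at this
    rw [← this, hq, mul_assoc, mul_assoc, add_mul, add_mul, one_mul, one_mul, mul_add, ← mul_assoc (ρ k), ← map_mul,
      mul_inv_cancel, map_one, one_mul, e5, ← mul_assoc n, e3, fixL.1 e1]
  by_contra hne
  have hb : q⁻¹ * a' ∈ AU ρ (Fix ρ c) := rg ▸ mem_AU_range.2 (fixL.2 (by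
    rw [map_mul, mul_assoc, e6, ← mul_assoc, ← map_mul, inv_mul_cancel, map_one, one_mul]))
  have hle := mem_AU_iff_le.1 hb
  rw [T.hyp.fix _ f.half _ (mul_mem (inv_mem qA) ha') fun e => hne (inv_mul_eq_one.1 e).symm, ← f.ker_eq] at hle
  refine (T.hyp.half c w1 cc).ne_bot (eq_bot_iff.2 fun v hv => ?_)
  have hm : m v ∈ Fix ρ c := mem_Fix.2 (by
    rw [← Module.End.mul_apply, ← lin.cm.eq, Module.End.mul_apply, mem_Fix.1 hv])
  have := LinearMap.congr_fun f.nm v
  rw [LinearMap.add_apply, Module.End.mul_apply, Module.End.mul_apply, LinearMap.mem_ker.1 (hle hm),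
    LinearMap.mem_ker.1 (hle hv), map_zero, add_zero] at this
  exact this.symm

end CL.Ggn
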