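/-
S4841 (Gagola, non-solvable case): a normal subgroup `SL₂(q)`, `q` odd, of order divisible by `p`.
-/
import Cfsg.Agent.Ggn.Defs
import Cfsg.Agent.Cls.SLnCard
import Cfsg.Agent.Chev.SL2Pres

set_option autoImplicit false

namespace CL.Ggn

open Cfsg Subgroup
open scoped MatrixGroups

universe u

namespace XCh

open CL.Chev.SL2

variable {F : Type} [Field F]

/-- the upper unitriangular matrices -/
def upH : Multiplicative F →* SL(2, F) where
  toFun t := up t.toAdd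
  map_one' := up_zero
  map_mul' _ _ := up_add _ _

theorem conj_up {j : F} (hj : j ≠ 0) : IsConj (up (1 : F)) (up (j ^ 2)) := by
  refine isConj_iff.2 ⟨⟨!![j, 0; 0, j⁻¹], by simp [Matrix.det_fin_two, hj]⟩, mul_inv_eq_iff_eq_mul.2 ?_⟩
  refine Subtype.ext ?_
  change !![j, 0; 0, j⁻¹] * !![1, 1; 0, 1] = !![1, j ^ 2; 0, 1] * !![j, 0; 0, j⁻¹]
  simp [sq, hj]

theorem num {p e n : ℕ} (hp : 1 < p) (hn : n ≠ 0) (h1 : (p ^ e) ^ 2 - 1 ∣ p ^ n - 1)
    (h2 : p ^ n ≤ ((p ^ e) ^ 2 - 1) ^ 2) : (p ^ e) ^ 2 = p ^ n := by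
  rw [← pow_mul] at *
  have h3 := Nat.pow_sub_one_mod_pow_sub_one p (e * 2) n
  rw [Nat.mod_eq_zero_of_dvd h1] at h3
  have h4 : n % (e * 2) = 0 := by
    by_contra h
    have := Nat.one_lt_pow h hp
    omega
  obtain ⟨k, rfl⟩ := Nat.dvd_of_mod_eq_zero h4
  have h5 : p ^ (e * 2 * k) < p ^ (e * 2 * 2) := by
    refine h2.trans_lt ?_
    rw [pow_mul p (e * 2) 2]
    exact Nat.pow_lt_pow_left (Nat.sub_one_lt (by positivity)) two_ne_zero
  have h6 := Nat.lt_of_mul_lt_mul_left ((Nat.pow_lt_pow_iff_right hp).1 h5)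
  obtain rfl : k = 1 := by
    have : k ≠ 0 := by rintro rfl; simp at hn
    omega
  rw [mul_one]

end XCh

open XCh CL.Chev.SL2 in
theorem xc (h0 : CNT0.{u}) (h1 : CNT.{u}) (h2 : MIN.{u}) (h3 : NUM) : XC.{u} := by
  intro p hp H V _ _ _ _ _ ρ hρ p2 L F _ _ hL hodd h3F ⟨e⟩ hd
  obtain ⟨s, hchar, k, hs, hF⟩ := FiniteField.card' F
  have hcL : Nat.card L = Fintype.card F * (Fintype.card F ^ 2 - 1) := by
    rw [Nat.card_congr e.toEquiv, CL.SLn.card_SL_two]
  have hV := exists_card_V (p := p) (V := V)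
  have hn : Module.finrank (ZMod p) V ≠ 0 := fun e => by
    have := hρ.nt
    rw [e] at hV
    exact Finite.one_lt_card.ne' hV
  have c0 : ∀ j M : ℕ, Nat.card L = p ^ j * M → ¬ p ∣ M → M ∣ p ^ Module.finrank (ZMod p) V - 1 := fun j M a b => by
    have := h0 ρ hρ L hL j M a b ⊤ fun _ _ _ _ => trivial
    rwa [Nat.card_congr Submodule.topEquiv.toEquiv, hV] at this
  by_cases hsp : s = p
  · subst hsp
    left
    rw [hF] at hcL ⊢
    have hM : ¬ s ∣ (s ^ (k : ℕ)) ^ 2 - 1 := fun h => hs.one_lt.ne' (Nat.dvd_one.1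
      ((Nat.dvd_sub_iff_right (Nat.one_le_iff_ne_zero.2 (by have := hs.pos; positivity))
        ((dvd_pow_self s k.ne_zero).pow two_ne_zero)).1 h))
    rw [hV]
    exact num hs.one_lt hn (c0 _ _ hcL hM) (hV ▸ h1 ρ hρ L hL _ _ hcL hM k.ne_zero)
  right
  have := Fact.mk hs
  have s2 : s ≠ 2 := by
    rintro rfl
    rw [hF] at hodd
    exact absurd (hodd.of_dvd_nat (dvd_pow_self 2 k.ne_zero)) (by decide)
  let ψ : SL(2, F) →* H := L.subtype.comp e.symm.toMonoidHom
  have hψ : Function.Injective ψ := L.subtype_injective.comp e.symm.injective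
  have hφ : Function.Injective (ψ.comp upH) := hψ.comp fun _ _ h => up_injective (K := F) h
  have f := MonoidHom.ofInjective hφ
  have hc : IsCyclic (Multiplicative F) := f.isCyclic.2 (hρ.toFp.pq.isCyclic hp.out hs s2 hsp (IsPGroup.of_card (n := k)
    (by rw [← Nat.card_congr f.toEquiv, ← hF, Nat.card_eq_fintype_card, Fintype.card_multiplicative])))
  have hq : Fintype.card F = s := by
    have h4 : Monoid.exponent (Multiplicative F) ∣ s := Monoid.exponent_dvd_of_forall_pow_eq_one fun t =>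
      Multiplicative.toAdd.injective (by simp)
    rw [IsCyclic.exponent_eq_card, Nat.card_eq_fintype_card, Fintype.card_multiplicative] at h4
    exact Nat.dvd_antisymm h4 (hF ▸ dvd_pow_self s k.ne_zero)
  have hpow : ∀ m : ℕ, ψ (up 1) ^ m = ψ (up (m : F)) := fun m => by
    rw [← map_pow]
    exact congrArg ψ (by simpa [upH] using (map_pow (upH (F := F)) (.ofAdd 1) m).symm)
  have ho : orderOf (ψ (up 1)) = s := orderOf_eq_prime (by rw [hpow, CharP.cast_eq_zero, up_zero, map_one])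
    fun h => one_ne_zero (up_injective ((hψ (h.trans (map_one ψ).symm)).trans up_zero.symm))
  have hmin := h2 ρ hρ.toFp _ s hs hsp ho fun j hj => by
    rw [hpow, Nat.cast_pow]
    exact ψ.map_isConj (conj_up fun h => hj ((CharP.cast_eq_zero_iff F s j).1 h))
  obtain ⟨j, M, hM, hj⟩ := Nat.exists_eq_pow_mul_and_not_dvd (Nat.card_pos (α := L)).ne' p hp.out.ne_one
  have j0 : j ≠ 0 := by
    rintro rfl
    exact hM (by rwa [hj, pow_zero, one_mul] at hd)
  rw [hq] at hcL hodd h3F ⊢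
  obtain ⟨rfl, h5⟩ := h3 p s _ j M hp.out p2 hs (by obtain ⟨m, hm⟩ := hodd; omega) hsp (hcL.symm.trans hj) hM j0
    (c0 _ _ hj hM) (hV ▸ h1 ρ hρ L hL _ _ hj hM j0) hmin
  exact ⟨rfl, h5.imp (And.imp_right fun h => by rw [hV, h]; rfl) (And.imp_right fun h => by rw [hV, h]; rfl)⟩

end CL.Ggn
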